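import Cfsg.Agent.H45.IvDefs
import Cfsg.Prelude.Def_CaseTheorems
import Cfsg.Prelude.Def_Sporadic

/-! Project CY (row S3256), chapter SP: line groups `SL₂(p)`. -/

set_option autoImplicit false

namespace Cfsg.Agent.H56.Sp

open Subgroup MulAction Cfsg.Agent.H11.Cy
open Cfsg.Agent.H45.Iv (Fx Sub Ms)

section Defs
variable {G : Type} [Group G] {Ω : Type} [MulAction G Ω]

/-- `z` is the involution of the line group -/
def IsZ (A : Ω → Subgroup G) (x y : Ω) (z : G) : Prop := z ∈ Fl A x y ∧ z ≠ 1 ∧ z * z = 1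
/-- the class `I` -/
def Iv (A : Ω → Subgroup G) (t : G) : Prop := ∃ x y, x ≠ y ∧ IsZ A x y t
def FK (A : Ω → Subgroup G) (x y : Ω) (g : G) : Prop :=
  ∃ f ∈ Fl A x y, ∃ k ∈ Kl A x y, g = f * k
abbrev Nl (A : Ω → Subgroup G) (x y : Ω) : Subgroup G := normalizer (Fl A x y : Set G)
/-- no fixed point on the line -/
def Fp (A : Ω → Subgroup G) (x y : Ω) (g : G) : Prop := ∀ c ∈ Ln A x y, g • c ≠ c
/-- an involution modulo `K` -/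
def Hi (A : Ω → Subgroup G) (x y : Ω) (g : G) : Prop :=
  g ∈ Nl A x y ∧ g * g ∈ Kl A x y ∧ g ∉ Kl A x y
/-- the torus `C_F(g)` -/
abbrev Tl (A : Ω → Subgroup G) (x y : Ω) (g : G) : Subgroup G :=
  Fl A x y ⊓ centralizer ({g} : Set G)
/-- the centraliser of the torus in `N` -/
abbrev Cl (A : Ω → Subgroup G) (x y : Ω) (g : G) : Subgroup G :=
  Nl A x y ⊓ centralizer (Tl A x y g : Set G)

/-- facts on `F = SL₂(p)` -/
structure LF (p : ℕ) (A : Ω → Subgroup G) (x y : Ω) : Prop where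
  ex : ∃ z, IsZ A x y z
  uq : ∀ z z', IsZ A x y z → IsZ A x y z' → z = z'
  cen : ∀ z, IsZ A x y z → z ∈ Kl A x y
  fk : ∀ g ∈ Fl A x y, g ∈ Kl A x y → g * g = 1
  crd : Nat.card (Fl A x y) = p * (p ^ 2 - 1)
  ln : (Ln A x y).ncard = p + 1
  mem : x ∈ Ln A x y ∧ y ∈ Ln A x y
  tr : Tr2 (Fl A x y) (Ln A x y)
  q8 : ∀ z, IsZ A x y z → ∃ a ∈ Fl A x y, ∃ b ∈ Fl A x y, a * a = z ∧ b * b = z ∧ b * a * b⁻¹ = a⁻¹
def LFs (p : ℕ) (A : Ω → Subgroup G) : Prop := ∀ x y, x ≠ y → LF p A x y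

/-- coordinates: `N` acts on `F` through `GL₂(p)` -/
def Co (p : ℕ) (A : Ω → Subgroup G) (x y : Ω) : Prop :=
  ∃ (F : Type) (_ : Field F) (_ : Fintype F) (e : Fl A x y ≃* Matrix.SpecialLinearGroup (Fin 2) F),
    Fintype.card F = p ∧ ∀ g ∈ Nl A x y, ∃ M : Matrix (Fin 2) (Fin 2) F, M.det ≠ 0 ∧
      ∀ f f' : Fl A x y, (f' : G) = g * f * g⁻¹ → M * (e f).1 = (e f').1 * M

def P1 (A : Ω → Subgroup G) (x y : Ω) : Prop :=
  ∀ g ∈ Nl A x y, ∀ h ∈ Nl A x y, ¬ FK A x y g → ¬ FK A x y h → FK A x y (g * h)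
def P2 (p : ℕ) (A : Ω → Subgroup G) (x y : Ω) : Prop :=
  ∀ g, Hi A x y g → (Fp A x y g ↔ (FK A x y g ↔ p % 4 = 3))
def P3 (A : Ω → Subgroup G) (x y : Ω) : Prop :=
  ∀ g h, Hi A x y g → Hi A x y h → Fp A x y g → Fp A x y h →
    ∃ f ∈ Fl A x y, f * g * f⁻¹ * h⁻¹ ∈ Kl A x y
def P4 (p : ℕ) (A : Ω → Subgroup G) (x y : Ω) : Prop :=
  ∀ g, Hi A x y g → Fp A x y g → IsCyclic (Tl A x y g) ∧ Nat.card (Tl A x y g) = p + 1
def P5 (A : Ω → Subgroup G) (x y : Ω) : Prop :=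
  ∀ g, Hi A x y g → Fp A x y g → ∀ z, IsZ A x y z → ∃ f ∈ Fl A x y, f * f = z ∧
    f * g * f⁻¹ = g * z ∧ ∀ t ∈ Tl A x y g, f * t * f⁻¹ = t⁻¹
def P6 (A : Ω → Subgroup G) (x y : Ω) : Prop :=
  ∀ g, Hi A x y g → Fp A x y g → ∀ h ∈ Nl A x y, h * g * h⁻¹ * g⁻¹ ∈ Kl A x y →
    h ∈ Cl A x y g ∨ ((∀ t ∈ Tl A x y g, h * t * h⁻¹ = t⁻¹) ∧ h * h ∈ Kl A x y)
def P7 (p : ℕ) (A : Ω → Subgroup G) (x y : Ω) : Prop :=
  ∀ g, Hi A x y g → Fp A x y g → (∀ f ∈ Fl A x y, f ∈ Cl A x y g → f ∈ Tl A x y g) ∧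
    ∃ χ : Cl A x y g →* Multiplicative (ZMod (p + 1)), ∀ c, χ c = 1 ↔ (c : G) ∈ Kl A x y

/-- facts on `N / K ≤ PGL₂(p)` -/
structure PG (p : ℕ) (A : Ω → Subgroup G) (x y : Ω) : Prop where
  idx : P1 A x y
  par : P2 p A x y
  cj : P3 A x y
  tor : P4 p A x y
  inv : P5 A x y
  dic : P6 A x y
  cyc : P7 p A x y
def PGs (p : ℕ) (A : Ω → Subgroup G) : Prop := ∀ x y, x ≠ y → PG p A x y

/-- the involution of a line group fixes only the line -/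
def Fz (A : Ω → Subgroup G) : Prop := ∀ x y, x ≠ y → ∀ z, IsZ A x y z → Fx Ω z = Ln A x y

/-- consequences of `Fz` -/
structure CZ (A : Ω → Subgroup G) : Prop where
  cz : ∀ x y, x ≠ y → ∀ z, IsZ A x y z → centralizer ({z} : Set G) = Nl A x y
  hi : ∀ x y, x ≠ y → ∀ z, IsZ A x y z → ∀ u, Iv A u → u ≠ z → u * z = z * u →
    Hi A x y u ∧ Fp A x y u
  sw : ∀ x y, x ≠ y → ∀ z, IsZ A x y z → ∀ b, z • b ≠ b → ∀ u, IsZ A b (z • b) u →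
    u ≠ z ∧ u * z = z * u
  cj : ∀ (g : G) x y z, IsZ A x y z → IsZ A (g • x) (g • y) (g * z * g⁻¹)
  one : ∀ t t', Iv A t → Iv A t' → IsConj t t'
  sub : ∀ x y, x ≠ y → ∀ k ∈ Kl A x y, Sub A (Fx Ω k) ∧ Ln A x y ⊆ Fx Ω k ∧
    ∀ w, k • w = w → k ∈ centralizer (A w : Set G)

/-- the standing hypotheses after step A -/
structure Hy (p : ℕ) (A : Ω → Subgroup G) : Prop where
  mc : Mc p A
  ml : Multi A
  ty : TyS p A
  lf : LFs p A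
  pg : PGs p A
  fz : Fz A
  cz : CZ A

/-- involutions in `F u` lie in `I` -/
def FI (A : Ω → Subgroup G) : Prop := ∀ x y, x ≠ y → ∀ z, IsZ A x y z → ∀ u, Iv A u → u ≠ z →
  u * z = z * u → ∀ f ∈ Fl A x y, (f * u) * (f * u) = 1 →
    Iv A (f * u) ∧ ∃ g ∈ Fl A x y, g * (f * u) * g⁻¹ = u
def L2T (A : Ω → Subgroup G) : Prop := ∀ Φ : Set Ω, Sub A Φ → Tr2 (Ms A Φ) Φ
def Sz (p : ℕ) (A : Ω → Subgroup G) : Prop := ∀ Φ : Set Ω, Sub A Φ → Φ ≠ Set.univ →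
  Φ.Nontrivial → Φ.ncard = p + 1 ∨ Φ.ncard = p ^ 3 + 1
def OT (G : Type) [Group G] (Ω : Type) [MulAction G Ω] : Prop := ∀ x : Ω, ∃ O : Subgroup G,
  Odd (Nat.card O) ∧ O ≤ stabilizer G x ∧ stabilizer G x ≤ normalizer (O : Set G) ∧
    ∀ y y', y ≠ x → y' ≠ x → ∃ o ∈ O, o • y = y'
def BW (p : ℕ) (A : Ω → Subgroup G) : Prop := ∀ x y, x ≠ y → ∀ z, IsZ A x y z →
  ∀ t ∈ Kl A x y, t * t = 1 → t ≠ 1 → t ≠ z →
    p * (Nat.card Ω - 1) = ((Fx Ω t).ncard - 1) * ((Fx Ω (t * z)).ncard - 1)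
def SR (p : ℕ) (A : Ω → Subgroup G) : Prop := ∀ x y, x ≠ y → ∀ t ∈ Kl A x y, t * t = 1 →
  Fx Ω t ≠ Ln A x y → ∀ j, 2 ^ j ∣ p ^ 2 - 1 → 2 ^ (j + 1) ∣ Nat.card Ω - (Fx Ω t).ncard
/-- `K` has a unique involution -/
def Uq (A : Ω → Subgroup G) : Prop := ∀ x y, x ≠ y → ∀ t ∈ Kl A x y, t * t = 1 →
  t = 1 ∨ IsZ A x y t

/-- a commuting pair in `I` -/
structure Pr (A : Ω → Subgroup G) (x y x' y' : Ω) (z u : G) : Prop where
  ne : x ≠ y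
  ne' : x' ≠ y'
  hz : IsZ A x y z
  hu : IsZ A x' y' u
  zu : u ≠ z
  cm : u * z = z * u
def BB (A : Ω → Subgroup G) : Prop := ∀ x y x' y' z u, Pr A x y x' y' z u →
  (∀ t ∈ Tl A x y u, ∀ t' ∈ Tl A x' y' z, t * t' = t' * t) ∧
    Tl A x' y' z ≤ Nl A x y ∧ ∃ t' ∈ Tl A x' y' z, ¬ FK A x y t'
def W1 (A : Ω → Subgroup G) : Prop := ∀ x y x' y' z u, Pr A x y x' y' z u → ∀ w, Iv A w →
  w * z = z * w → w * u = u * w → w = z ∨ w = u ∨ w = z * u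
/-- `K₀ = K ∩ F T'` -/
abbrev K0 (A : Ω → Subgroup G) (x y x' y' : Ω) (z : G) : Subgroup G :=
  Kl A x y ⊓ (Fl A x y ⊔ Tl A x' y' z)
def N0 (A : Ω → Subgroup G) : Prop := ∀ x y x' y' z u, Pr A x y x' y' z u →
  ∀ g ∈ Fl A x y ⊔ Tl A x' y' z, g * g = 1 → g ≠ 1 → Iv A g
def C1 (A : Ω → Subgroup G) : Prop := ∀ x y x' y' z u, Pr A x y x' y' z u →
  ∀ j, 2 ^ j ∣ Nat.card (Kl A x y ⊓ centralizer ({u} : Set G) : Subgroup G) →
    2 ^ j ∣ Nat.card (K0 A x y x' y' z)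
def C2 (A : Ω → Subgroup G) : Prop := ∀ x y x' y' z u, Pr A x y x' y' z u →
  ∀ j, 2 ^ (j + 1) ∣ Nat.card (Kl A x y) →
    2 ^ j ∣ Nat.card (Kl A x y ⊓ centralizer ({u} : Set G) : Subgroup G)
def C3 (A : Ω → Subgroup G) : Prop := ∀ x y x' y' z u, Pr A x y x' y' z u →
  ∀ j, 2 ^ (j + 1) ∣ Nat.card (Nl A x y) →
    2 ^ j ∣ Nat.card (Fl A x y ⊔ Tl A x' y' z : Subgroup G)
def OD (p : ℕ) (A : Ω → Subgroup G) : Prop := ∀ x y, x ≠ y → Odd (Nl A x y).index ∧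
  Nat.card Ω * (Nat.card Ω - 1) = p * (p + 1) * (Nl A x y).index ∧ p ∣ Nat.card Ω - 1
def HN (A : Ω → Subgroup G) : Prop := ∃ x, ∃ h : G, h • x = x ∧ h ∉ centralizer (A x : Set G)

/-- step A: the configuration -/
structure Cf (A : Ω → Subgroup G) (S : Subgroup G) (Φ : Set Ω) : Prop where
  two : IsPGroup 2 S
  ne : S ≠ ⊥
  fix : ∀ w, w ∈ Φ ↔ ∀ s ∈ S, s • w = w
  sub : Sub A Φ
  nt : Φ.Nontrivial
  big : ∀ x ∈ Φ, ∀ y ∈ Φ, x ≠ y → Ln A x y ≠ Φ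
  cen : ∀ w ∈ Φ, A w ≤ centralizer (S : Set G)
  tr : Tr2 (normalizer (S : Set G)) Φ
  zs : ∀ x ∈ Φ, ∀ y ∈ Φ, x ≠ y → ∀ z, IsZ A x y z → z ∈ S
/-- line groups `L₂(p)` -/
def Lq (p : ℕ) (A : Ω → Subgroup G) : Prop := ∀ x y, x ≠ y →
  (∃ a ∈ Fl A x y, ∃ b ∈ Fl A x y, a * a = 1 ∧ b * b = 1 ∧ a * b = b * a ∧ a ≠ 1 ∧ b ≠ 1 ∧ a ≠ b) ∧
    (∀ g ∈ Fl A x y, g ∈ Kl A x y → g = 1) ∧ 2 * Nat.card (Fl A x y) = p * (p ^ 2 - 1) ∧
      (Ln A x y).ncard = p + 1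

end Defs

def Q8 (G : Type) [Group G] : Prop :=
  ∃ a b : G, a * a = b * b ∧ a * a ≠ 1 ∧ a ^ 4 = 1 ∧ b * a * b⁻¹ = a⁻¹
def D8 (G : Type) [Group G] : Prop :=
  ∃ f u : G, u * u = 1 ∧ f * f ≠ 1 ∧ f ^ 4 = 1 ∧ u * f * u⁻¹ = f⁻¹

/-- **AUT** -/
def AutStmt : Prop := ∀ (F : Type) [Field F] [Fintype F], (Fintype.card F).Prime →
  Fintype.card F ≠ 2 → ∀ φ : Matrix.SpecialLinearGroup (Fin 2) F ≃* Matrix.SpecialLinearGroup (Fin 2) F,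
    ∃ M : Matrix (Fin 2) (Fin 2) F, M.det ≠ 0 ∧ ∀ f, M * f.1 = (φ f).1 * M
def CoStmt : Prop := AutStmt → All fun _ _ _ _ p A => p ≠ 2 → TyS p A → ∀ x y, x ≠ y → Co p A x y
def LfStmt : Prop := All fun _ _ _ _ p A => p ≠ 2 → Eps A → TyS p A → LFs p A
def P1Stmt : Prop := All fun _ _ _ _ p A => p ≠ 2 → Eps A → ∀ x y, x ≠ y → LF p A x y →
  Co p A x y → P1 A x y
def P2Stmt' : Prop := All fun _ _ _ _ p A => p ≠ 2 → Eps A → ∀ x y, x ≠ y → LF p A x y →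
  Co p A x y → P2 p A x y
def P3Stmt : Prop := All fun _ _ _ _ p A => p ≠ 2 → Eps A → ∀ x y, x ≠ y → LF p A x y →
  Co p A x y → P2 p A x y → P3 A x y
def P4Stmt : Prop := All fun _ _ _ _ p A => p ≠ 2 → Eps A → ∀ x y, x ≠ y → LF p A x y →
  Co p A x y → P2 p A x y → P4 p A x y
def P5Stmt : Prop := All fun _ _ _ _ p A => p ≠ 2 → Eps A → ∀ x y, x ≠ y → LF p A x y →
  Co p A x y → P2 p A x y → P5 A x y
def P6Stmt : Prop := All fun _ _ _ _ p A => p ≠ 2 → Eps A → ∀ x y, x ≠ y → LF p A x y →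
  Co p A x y → P2 p A x y → P6 A x y
def P7Stmt : Prop := All fun _ _ _ _ p A => p ≠ 2 → Eps A → ∀ x y, x ≠ y → LF p A x y →
  Co p A x y → P2 p A x y → P7 p A x y

def A1Stmt : Prop := All fun G _ Ω _ p A => p ≠ 2 → Eps A → LFs p A → ¬ Fz A →
  ∃ (S : Subgroup G) (Φ : Set Ω), Cf A S Φ
/-- the restricted system -/
def Rs (p : ℕ) (X : ∀ (G : Type) [Group G] (Ω : Type) [MulAction G Ω], (Ω → Subgroup G) → Prop) :
    Prop := ∃ (Y : Type) (_ : Group Y) (_ : Finite Y) (Φ : Type) (_ : Finite Φ) (_ : MulAction Y Φ)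
  (B : Φ → Subgroup Y), St p B ∧ X Y Φ B
def A2Stmt : Prop := ResStmt → All fun G _ Ω _ p A => Mc p A → LFs p A →
  ∀ (S : Subgroup G) (Φ : Set Ω), Cf A S Φ →
    Rs p fun _ _ Ψ _ B => Concl p B ∧ Lq p B ∧ p + 1 < Nat.card Ψ
def AuStmt : Prop := All fun G _ Ω _ p A => p ≠ 2 → Eps A → Lq p A → ∀ M : Subgroup G, M.Normal →
  (∀ x, A x ≤ M) → Nat.card Ω = p ^ 3 + 1 → IsU3 M p → False
def ArStmt : Prop := All fun G _ Ω _ p A => 5 ≤ p → Eps A → Lq p A → RNS G Ω → False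
/-- **FZ3** step A for `p = 3` -/
def Fz3Stmt : Prop := All fun _ _ _ _ p A => Mc p A → Multi A → TyS p A → LFs p A → PGs p A →
  p = 3 → Fz A

def CzStmt : Prop := All fun _ _ _ _ p A => p ≠ 2 → Eps A → LFs p A → Fz A → CZ A
def FiStmt : Prop := All fun _ _ _ _ p A => Hy p A → FI A
def L2tStmt : Prop := All fun _ _ _ _ p A => Hy p A → L2T A
def SzStmt : Prop := ResStmt → EpsStmt → All fun _ _ _ _ p A => Hy p A → L2T A → Sz p A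
def OtStmt : Prop := All fun G _ Ω _ p A => Hy p A → OT G Ω
def BwStmt : Prop := All fun G _ Ω _ p A => Hy p A → OT G Ω → BW p A
def SrStmt : Prop := All fun _ _ _ _ p A => Hy p A → FI A → SR p A
def UqStmt : Prop := All fun _ _ _ _ p A => Hy p A → Sz p A → BW p A → SR p A → Uq A
def HnStmt : Prop := All fun _ _ _ _ p A => Hy p A → BB A → HN A
def SimStmt : Prop := All fun G _ _ _ p A => Hy p A → L2T A → HN A →
  IsSimpleGroup G ∧ ¬ IsMulCommutative G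
def BbStmt : Prop := All fun _ _ _ _ p A => Hy p A → BB A
def W1Stmt : Prop := All fun _ _ _ _ p A => Hy p A → Uq A → FI A → BB A → W1 A
def N0Stmt : Prop := All fun _ _ _ _ p A => Hy p A → Uq A → FI A → BB A → N0 A
def C1Stmt : Prop := All fun _ _ _ _ p A => Hy p A → Uq A → BB A → C1 A
def C2Stmt : Prop := All fun _ _ _ _ p A => Hy p A → Uq A → FI A → W1 A → C2 A
def C3Stmt : Prop := All fun _ _ _ _ p A => Hy p A → BB A → C1 A → C2 A → C3 A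
def OdStmt : Prop := All fun _ _ _ _ p A => Hy p A → OD p A
def RkStmt : Prop := All fun G _ _ _ p A => Hy p A → IsSimpleGroup G → ¬ IsMulCommutative G →
  BB A → W1 A → N0 A → C3 A → OD p A → Cfsg.PRankLE 2 2 G
def QdStmt : Prop := All fun G _ _ _ p A => Hy p A → Q8 G ∧ D8 G
def X2Stmt : Prop := ∀ (G : Type) [Group G] (F : Type) [Field F] [Fintype F],
  Odd (Fintype.card F) → Nonempty (G ≃* Matrix.ProjectiveSpecialLinearGroup (Fin 2) F) → ¬ Q8 G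
def X7Stmt : Prop := ∀ (G : Type) [Group G], Nonempty (G ≃* alternatingGroup (Fin 7)) → ¬ Q8 G
def X4Stmt : Prop := ∀ (G : Type) [Group G] (F : Type) [Field F] [Fintype F],
  Fintype.card F = 16 → Nonempty (G ≃* Cfsg.PSU 3 F 4) → ¬ D8 G
/-- the three surviving families -/
def Fam (M : Type) [Group M] : Prop :=
  (∃ (F : Type) (_ : Field F) (_ : Fintype F), Odd (Fintype.card F) ∧
    Nonempty (M ≃* Matrix.ProjectiveSpecialLinearGroup (Fin 3) F)) ∨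
  (∃ (F : Type) (_ : Field F) (_ : Fintype F) (q : ℕ), Fintype.card F = q ^ 2 ∧ Odd q ∧
    Nonempty (M ≃* Cfsg.PSU 3 F q)) ∨ Cfsg.IsM11 M
/-- **END** -/
def EnStmt : Prop := ∀ (M : Type) [Group M] [Finite M] (p n : ℕ), p.Prime → p ≠ 2 →
  IsSimpleGroup M → Fam M → ∀ z : M, z ≠ 1 → z * z = 1 → ∀ F : Subgroup M, z ∈ F →
    centralizer ({z} : Set M) = normalizer (F : Set M) → IsSL2 F p →
    n * (n - 1) = p * (p + 1) * (centralizer ({z} : Set M)).index → p ∣ n - 1 →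
      n = p ^ 3 + 1 ∧ IsU3 M p
/-- row `S0482` in the lowest universe -/
def R2Stmt : Prop := ∀ (G : Type) [Group G] [Finite G], IsSimpleGroup G → ¬ IsMulCommutative G →
  Cfsg.PRankLE 2 2 G →
    (∃ (F : Type) (_ : Field F) (_ : Fintype F), Odd (Fintype.card F) ∧
      Nonempty (G ≃* Matrix.ProjectiveSpecialLinearGroup (Fin 2) F)) ∨
    (∃ (F : Type) (_ : Field F) (_ : Fintype F), Fintype.card F = 16 ∧
      Nonempty (G ≃* Cfsg.PSU 3 F 4)) ∨ Nonempty (G ≃* alternatingGroup (Fin 7)) ∨ Fam G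

theorem sp (res : ResStmt) (eps : EpsStmt) (aut : AutStmt) (co : CoStmt) (lf : LfStmt)
    (p1 : P1Stmt) (p2 : P2Stmt') (p3 : P3Stmt) (p4 : P4Stmt) (p5 : P5Stmt) (p6 : P6Stmt)
    (p7 : P7Stmt) (a1 : A1Stmt) (a2 : A2Stmt) (au : AuStmt) (ar : ArStmt) (fz3 : Fz3Stmt)
    (cz : CzStmt) (fi : FiStmt) (l2t : L2tStmt) (sz : SzStmt) (ot : OtStmt) (bw : BwStmt)
    (sr : SrStmt) (uq : UqStmt) (hn : HnStmt) (sim : SimStmt) (bb : BbStmt) (w1 : W1Stmt)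
    (n0 : N0Stmt) (c1 : C1Stmt) (c2 : C2Stmt) (c3 : C3Stmt) (od : OdStmt) (rk : RkStmt)
    (qd : QdStmt) (x2 : X2Stmt) (x7 : X7Stmt) (x4 : X4Stmt) (en : EnStmt) (r2 : R2Stmt) :
    SpStmt := by
  intro G _ _ Ω _ _ p A h mc ml ty
  have hl := lf G Ω p A h mc.p2 mc.ep ty
  have hp : PGs p A := by
    intro x y hxy
    have c := co aut G Ω p A h mc.p2 ty x y hxy
    have l := hl x y hxy
    have q2 := p2 G Ω p A h mc.p2 mc.ep x y hxy l c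
    exact ⟨p1 G Ω p A h mc.p2 mc.ep x y hxy l c, q2, p3 G Ω p A h mc.p2 mc.ep x y hxy l c q2,
      p4 G Ω p A h mc.p2 mc.ep x y hxy l c q2, p5 G Ω p A h mc.p2 mc.ep x y hxy l c q2,
      p6 G Ω p A h mc.p2 mc.ep x y hxy l c q2, p7 G Ω p A h mc.p2 mc.ep x y hxy l c q2⟩
  have hf : Fz A := by
    by_cases e3 : p = 3
    · exact fz3 G Ω p A h mc ml ty hl hp e3
    have p5' : 5 ≤ p := by
      have := h.pp.two_le
      have h4 : p ≠ 4 := fun e => by have := h.pp; rw [e] at this; exact absurd this (by decide)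
      have := mc.p2
      omega
    by_contra hf
    obtain ⟨S, Φ, cf⟩ := a1 G Ω p A h mc.p2 mc.ep hl hf
    obtain ⟨Y, _, _, Ψ, _, _, B, hB, hc, hq, hlt⟩ := a2 res G Ω p A h mc hl S Φ cf
    have eB := eps Y Ψ p B hB
    rcases hc with hr | ⟨M, hM, -, hAM, -, t | t | t⟩
    · exact ar Y Ψ p B hB p5' eB hq hr
    · omega
    · exact au Y Ψ p B hB mc.p2 eB hq M hM hAM t.1 t.2
    · exact e3 t.1
  have hy : Hy p A := ⟨mc, ml, ty, hl, hp, hf, cz G Ω p A h mc.p2 mc.ep hl hf⟩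
  have f := fi G Ω p A h hy
  have lt := l2t G Ω p A h hy
  have u := uq G Ω p A h hy (sz res eps G Ω p A h hy lt) (bw G Ω p A h hy (ot G Ω p A h hy))
    (sr G Ω p A h hy f)
  have b := bb G Ω p A h hy
  have n := hn G Ω p A h hy b
  obtain ⟨s, na⟩ := sim G Ω p A h hy lt n
  have w := w1 G Ω p A h hy u f b
  have o := od G Ω p A h hy
  have r := rk G Ω p A h hy s na b w (n0 G Ω p A h hy u f b)
    (c3 G Ω p A h hy b (c1 G Ω p A h hy u b) (c2 G Ω p A h hy u f w)) o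
  obtain ⟨q8, d8⟩ := qd G Ω p A h hy
  have fam : Fam G := by
    rcases r2 G s na r with ⟨F, _, _, h1, h2⟩ | ⟨F, _, _, h1, h2⟩ | h1 | h1
    · exact absurd q8 (x2 G F h1 h2)
    · exact absurd d8 (x4 G F h1 h2)
    · exact absurd q8 (x7 G h1)
    · exact h1
  haveI := h.nt
  obtain ⟨x, y, hxy⟩ := exists_pair_ne Ω
  obtain ⟨z, hz⟩ := (hl x y hxy).ex
  have ec := hy.cz.cz x y hxy z hz
  obtain ⟨-, o2, o3⟩ := o x y hxy
  obtain ⟨e1, F, _, _, hF, ⟨e⟩⟩ := en G p (Nat.card Ω) h.pp mc.p2 s fam z hz.2.1 hz.2.2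
    (Fl A x y) hz.1 ec (ty x y hxy).1 (by rw [ec]; exact o2) o3
  obtain ⟨c, g, g1, g2⟩ := n
  refine Or.inr ⟨⊤, inferInstance, ?_, fun _ => le_top, ⟨c, g, mem_top _, g1, g2⟩,
    Or.inr (Or.inl ⟨e1, F, inferInstance, inferInstance, hF, ⟨topEquiv.trans e⟩⟩)⟩
  exact (topEquiv (G := G)).isSimpleGroup

end Cfsg.Agent.H56.Sp
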