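import Mathlib

/-! Interface statements for rank 3 groups with a Frobenius point stabiliser (paper proof in
`stubs/notes/h56_twotrans2.md`, section 6). -/

set_option autoImplicit false

namespace Cfsg.Agent.H56.R3

open MulAction

universe u v

/-- A rank 3 graph whose point stabilisers act as Frobenius groups, with kernels `K x`, on the
neighbours. -/
structure Data (G : Type u) (X : Type v) [Group G] [MulAction G X] where
  /-- adjacency -/
  adj : X → X → Prop
  /-- the Frobenius kernels -/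
  K : X → Subgroup G
  /-- the valency -/
  k : ℕ
  /-- the order of an edge stabiliser -/
  h : ℕ
  symm : ∀ {x y : X}, adj x y → adj y x
  irrefl : ∀ x : X, ¬ adj x x
  inv : ∀ (g : G) {x y : X}, adj x y → adj (g • x) (g • y)
  tr1 : ∀ {x y z w : X}, adj x y → adj z w → ∃ g : G, g • x = z ∧ g • y = w
  tr2 : ∀ {x y z w : X}, x ≠ y → ¬ adj x y → z ≠ w → ¬ adj z w → ∃ g : G, g • x = z ∧ g • y = w
  ex1 : ∀ x : X, ∃ y, adj x y
  ex2 : ∀ x : X, ∃ y, x ≠ y ∧ ¬ adj x y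
  mu_pos : ∀ {x y : X}, x ≠ y → ¬ adj x y → ∃ z, adj x z ∧ adj y z
  mu_lt : ∀ {x y : X}, x ≠ y → ¬ adj x y → ∃ z, adj x z ∧ ¬ adj y z
  card_adj : ∀ x : X, Nat.card {y // adj x y} = k
  K_le : ∀ x : X, K x ≤ stabilizer G x
  K_conj : ∀ (g : G) (x : X), ∀ c ∈ K x, g * c * g⁻¹ ∈ K (g • x)
  K_nil : ∀ x : X, Group.IsNilpotent (K x)
  card_K : ∀ x : X, Nat.card (K x) = k
  K_tr : ∀ {x y z : X}, adj x y → adj x z → ∃ c ∈ K x, c • y = z
  K_free : ∀ {x y : X}, adj x y → ∀ c ∈ K x, c • y = y → c = 1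
  frob : ∀ {x y z : X} (g : G), adj x y → adj x z → y ≠ z → g • x = x → g • y = y → g • z = z →
    g = 1
  fix : ∀ {x : X} (g : G), g • x = x → g ∉ K x → ∃ y, adj x y ∧ g • y = y
  card_H : ∀ {x y : X}, adj x y → Nat.card ↥(stabilizer G x ⊓ stabilizer G y) = h
  card_stab : ∀ x : X, Nat.card (stabilizer G x) = k * h
  card_G : Nat.card G = Nat.card X * (k * h)
  one_lt : 1 < h
  dvd : ∃ e, 0 < e ∧ k = 1 + e * h
  mem_K : ∀ {x : X} (g : G), g • x = x → (orderOf g).Coprime h → g ∈ K x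
  fpf : ∀ {x : X} (g c : G), g • x = x → g ∉ K x → c ∈ K x → g * c = c * g → c = 1
  even : Even (Nat.card G)

variable {G : Type u} {X : Type v} [Group G] [MulAction G X]

/-- some central element of a kernel fixes a second point -/
def Data.Cen (D : Data G X) : Prop :=
  ∃ x y : X, x ≠ y ∧ ∃ z ∈ D.K x, z ≠ 1 ∧ (∀ c ∈ D.K x, c * z = z * c) ∧ z • y = y

/-- the kernels are semiregular -/
def Data.Semi (D : Data G X) : Prop := ∀ x y : X, x ≠ y → ∀ c ∈ D.K x, c • y = y → c = 1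

/-- The hypotheses of S2207 give the data. -/
def SetupStmt : Prop :=
  ∀ (G : Type u) (X : Type v) [Group G] [Finite G] [Fintype X] [MulAction G X] [FaithfulSMul G X],
    Even (Nat.card G) → IsPreprimitive G X → ∀ A : X,
      Nat.card (orbitRel.Quotient ↥(stabilizer G A) X) = 3 → ∀ B : X, B ≠ A →
      (∃ g ∈ stabilizer G A, g ≠ 1 ∧ g • B = B) →
      (∀ g ∈ stabilizer G A, (∀ h ∈ stabilizer G A, g • (h • B) = h • B) → g = 1) →
      (∀ g ∈ stabilizer G A, ∀ h ∈ stabilizer G A, g • B = B → g • (h • B) = h • B → h • B ≠ B →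
        g = 1) → Nonempty (Data G X)

/-- Even valency. -/
def EvenStmt : Prop :=
  ∀ (G : Type u) (X : Type v) [Group G] [Finite G] [Finite X] [MulAction G X] [FaithfulSMul G X],
    IsPreprimitive G X → ∀ D : Data G X, Even D.k → D.Cen

/-- The generalized quadrangle case. -/
def GridStmt : Prop :=
  ∀ (G : Type u) (X : Type v) [Group G] [Finite G] [Finite X] [MulAction G X] [FaithfulSMul G X]
    (D : Data G X), D.Cen → Nat.card X = 16 ∧ D.k = 9

/-- Integrality of the eigenvalues of a strongly regular graph. -/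
def SrgStmt : Prop :=
  ∀ (V : Type v) [Fintype V] (Γ : SimpleGraph V) [DecidableRel Γ.Adj] (n k l m : ℕ),
    Γ.IsSRGWith n k l m → m < k → k + 1 < n →
      2 * (k : ℤ) + (n - 1) * ((l : ℤ) - m) = 0 ∨
      ∃ (r s : ℤ) (f g : ℕ), s < r ∧ r + s = (l : ℤ) - m ∧ r * s = (m : ℤ) - k ∧ f + g + 1 = n ∧
        (k : ℤ) + f * r + g * s = 0

/-- The numbers in the semiregular case: `b` the order of the stabiliser of two non-adjacent points,
`h = v b`, `k = 1 + (u + w) h`, `lambda = w h`, `mu = u b`, `j1`, `j2` the numbers of involutions with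
fixed points that swap an adjacent (non-adjacent) pair, `th` the valency inside an orbit of `K` on
the non-neighbours. -/
structure Num (n k h b v u w j1 j2 th : ℕ) : Prop where
  hb : h = v * b
  bpos : 0 < b
  hk : k = 1 + (u + w) * h
  upos : 0 < u
  hn : n = 1 + k * (1 + v)
  veven : Even v
  vpos : 0 < v
  j1le : j1 ≤ h
  j2le : j2 ≤ b
  odd : Odd b → n = 2 * (1 + j1 + v * j2)
  ev : Even b → n = (v + 2) * (1 + j1 + v * j2) ∧ (v + 2) * j1 = w * h + v * th
  tq1 : j1 = h ∨ 4 * j1 ≤ 3 * h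
  tq2 : Even b → j2 = b ∨ 4 * j2 ≤ 3 * b
  four : b = 4 → j2 ≠ 3
  var : w = 0 → th * th + th * (u * b) ≤ th + (k - 1) * (u * b)
  nine : w = 0 → k = 9 → 2 < h → th = 0
  k21 : k = 21 → h ≤ 2
  srg : 2 * (k : ℤ) + (n - 1) * ((w * h : ℕ) - (u * b : ℕ) : ℤ) = 0 ∨
    ∃ (r s : ℤ) (f g : ℕ), s < r ∧ r + s = ((w * h : ℕ) : ℤ) - (u * b : ℕ) ∧
      r * s = ((u * b : ℕ) : ℤ) - k ∧ f + g + 1 = n ∧ (k : ℤ) + f * r + g * s = 0

/-- The arithmetic of the semiregular case. -/
def ArithStmt : Prop := ∀ n k h b v u w j1 j2 th : ℕ, Num n k h b v u w j1 j2 th →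
  (n = 10 ∧ k = 3 ∧ h = 2) ∨ (n = 16 ∧ k = 5 ∧ h = 4)

/-- The counts of the semiregular case. -/
def CountStmt : Prop :=
  ∀ (G : Type u) (X : Type v) [Group G] [Finite G] [Finite X] [MulAction G X] [FaithfulSMul G X]
    (D : Data G X), D.Semi → Odd D.k → Even D.h →
      ∃ b v u w j1 j2 th : ℕ, Num (Nat.card X) D.k D.h b v u w j1 j2 th

/-- The three quarters lemma for a coset of involutions. -/
def TQStmt : Prop :=
  ∀ (G : Type u) [Group G] [Finite G] (Y : Subgroup G) (s : G), s * s = 1 →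
    (∀ y ∈ Y, s * y * s ∈ Y) → (∀ x ∈ Y, ∀ y ∈ Y, orderOf x = 2 → orderOf y = 2 → x = y) →
    ∀ S : Set G, S ⊆ Y → (∀ y ∈ S, y * s * (y * s) = 1) →
      (∀ y ∈ S, ∀ g ∈ Y, g * (y * s) * g⁻¹ * s ∈ S) →
      (3 * Nat.card Y < 4 * S.ncard → S = Y) ∧ (Nat.card Y = 4 → S.ncard ≠ 3)

end Cfsg.Agent.H56.R3
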