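import Mathlib
import Cfsg.Agent.H42.FvDefs

/-! The action of the torus and of the Borel subgroup on the adjoint module of `E₈`. -/

set_option autoImplicit false

namespace Cfsg.Agent.H56.FvTact

open Equiv Cfsg.Lie H37 H40 H34 H29 Module H50.E83 Cfsg.Agent.H42.Fv
open scoped Matrix

theorem diagAct {D : ChevalleyDatum} {F : Type} [Field F] (χ : ℕ → Fˣ) (v : D.Idx → F) :
    (∀ i, (D.charDiag F χ *ᵥ v) (Sum.inl i) = v (Sum.inl i)) ∧
      ∀ r, (D.charDiag F χ *ᵥ v) (Sum.inr r) = χ r * v (Sum.inr r) := by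
  refine ⟨fun i => ?_, fun r => ?_⟩ <;>
    simp only [ChevalleyDatum.charDiag, Matrix.mulVec_diagonal, Sum.elim_inl, Sum.elim_inr, one_mul]

theorem tact : TactStmt := by
  intro F _ h hh
  obtain ⟨χ, -, e⟩ := C8.V.diag_le_hatH hh
  rw [Subgroup.coe_subtype] at e
  refine ⟨fun r => χ r, fun v => ?_⟩
  have e' : ac F h v = chevE8.charDiag F χ *ᵥ v := by
    unfold ac
    rw [e, coe_dG]
  rw [e']
  exact diagAct χ v

theorem bst (stab : StabStmt) : BstStmt := by
  intro F _ b hb y hy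
  obtain ⟨u, hu, h, hh, rfl⟩ := Split.mem_B.1 hb
  obtain ⟨c, hc⟩ := tact F h hh
  rw [ac_mul]
  refine (stab F Pos le_rfl clo_pos _ (fun r hr => hy r fun h0 => hr ?_) u hu).1
  rw [(hc y).2 r, h0, mul_zero]

end Cfsg.Agent.H56.FvTact
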