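import Mathlib
import Cfsg.Agent.H6.E82Defs

/-! An element of order `65` of `SL₂(64)` is transitive on the projective line. -/

set_option autoImplicit false

namespace Cfsg.Agent.H56.E82Auta

open Cfsg.Agent.H82 Cfsg.Agent.H6.E82
open scoped MatrixGroups

/-- The point of the projective line. -/
noncomputable def pt (g : SL) : Option F := if g 1 0 = 0 then none else some (g 0 0 / g 1 0)

theorem of_pt {g g' : SL} (h : pt g = pt g') : g⁻¹ * g' ∈ BB F := by
  rw [mem_BB]
  simp only [ent]
  unfold pt at h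
  split_ifs at h with h1 h2 h2
  · rw [h1, h2]; ring
  · have := Option.some.inj h
    rw [div_eq_div_iff h1 h2] at this
    linear_combination this

theorem pow_00 {y : SL} (hy : y ∈ BB F) (n : ℕ) : (y ^ n) 0 0 = y 0 0 ^ n := by
  induction n with
  | zero => rw [pow_zero, pow_zero]; rfl
  | succ n ih => rw [pow_succ, SL2_mul_apply, ih, mem_BB.1 hy, pow_succ]; ring

theorem eq_one {y : SL} (hy : y ∈ BB F) (h : y ^ 65 = 1) : y = 1 := by
  have h0 := ne_zero_of_mem_BB hy
  have h1 : y 0 0 ^ 65 = 1 := by rw [← pow_00 hy, h]; rfl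
  have h2 : y 0 0 ^ 63 = 1 := by
    have := FiniteField.pow_card_sub_one_eq_one _ h0
    rwa [card_F] at this
  have h3 : y 0 0 = 1 := by
    have := pow_gcd_eq_one.2 ⟨h1, h2⟩
    rwa [show Nat.gcd 65 63 = 1 by decide, pow_one] at this
  have h4 : y = uu (y 0 1) := by
    have hd := SL2_det y
    rw [h3, mem_BB.1 hy] at hd
    apply SL2_ext <;> simp only [ent]
    · exact h3
    · exact hy
    · linear_combination hd
  have h5 : y ^ 64 = 1 := by
    rw [h4, uu_pow, ← card_F, Nat.cast_card_eq_zero, zero_mul, uu_zero]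
  exact ((one_mul y).symm.trans (h5 ▸ (pow_succ y 64).symm)).trans h

theorem auta : AutaStmt := by
  intro x hx g
  have inj : Function.Injective fun k : Fin 65 => pt (x ^ (k : ℕ)) := fun a b e => by
    have h1 := eq_one (of_pt e) (by
      have h65 : ∀ n : ℕ, (x ^ n) ^ 65 = 1 := fun n => by
        rw [← pow_mul, mul_comm, pow_mul, ← hx, pow_orderOf_eq_one, one_pow]
      rw [((Commute.refl x).pow_pow _ _).inv_left.mul_pow, inv_pow, h65, h65, inv_one, one_mul])
    exact Fin.ext (pow_injOn_Iio_orderOf (by rw [hx]; exact a.2) (by rw [hx]; exact b.2)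
      (inv_mul_eq_one.1 h1))
  obtain ⟨k, hk⟩ := ((Fintype.bijective_iff_injective_and_card _).2
    ⟨inj, by rw [Fintype.card_option, card_F, Fintype.card_fin]⟩).2 (pt g)
  exact ⟨k, _, of_pt hk, (mul_inv_cancel_left _ _).symm⟩

end Cfsg.Agent.H56.E82Auta
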