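import Mathlib
import Cfsg.Agent.H6.E82Defs

/-! Fixed vectors of subsets of `E₈(2)` on the adjoint module. -/

set_option autoImplicit false

namespace Cfsg.Agent.H56.E82Vg

open Equiv Cfsg.Lie H37 H40 H34 H29 Module Finset Cfsg.Agent.H6.E82
open scoped Matrix

theorem br_ee_inl (brc : BrcStmt) (r : Rt) (v : V) (i : Ix) :
    br (ee r) v (Sum.inl i) = v (Sum.inr (ng r)) * (C8.R.co r i : K) := by
  rw [br_inl, sum_eq_single r, brc.2.2.2.2.1, if_pos rfl, one_mul]
  · intro s _ hs
    rw [brc.2.2.2.2.1, if_neg hs, zero_mul, zero_mul]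
  · exact fun h => absurd (mem_univ r) h

theorem desc {n : Type} [Fintype n] (M : Matrix n n (ZMod 2)) (l : K →ₗ[ZMod 2] ZMod 2) (v : n → K)
    (h : M.map (algebraMap (ZMod 2) K) *ᵥ v = v) :
    M.map (algebraMap (ZMod 2) K) *ᵥ (fun i => algebraMap (ZMod 2) K (l (v i))) =
      fun i => algebraMap (ZMod 2) K (l (v i)) := by
  funext i
  rw [← congrFun h i]
  simp only [Matrix.mulVec, dotProduct, Matrix.map_apply, map_sum, ← Algebra.smul_def, map_smul,
    smul_eq_mul, map_mul]

theorem vg (rf : RfStmt) (brb : BrbStmt) (brc : BrcStmt) (xact : XactStmt) : VgStmt := by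
  refine ⟨fun v hv => ?_, fun S v hv hS => ?_⟩
  · have h1 : ∀ r : Rt, br (ee r) v + v (Sum.inr (ng r)) • ee r = 0 := fun r => by
      have := hv (C8.xg (ZMod 2) r 1)
      rwa [xact.2, xact.1, one_smul, one_pow, one_mul, add_assoc, add_eq_left] at this
    have h2 : ∀ r : Rt, v (Sum.inr (ng r)) = 0 := fun r => by
      by_contra h
      refine (brc.2.2.2.2.2.2.2.2.2.2.2.1 r).2.2 (funext fun j => ?_)
      rcases j with i | s
      · have := congrFun (h1 r) (Sum.inl i)
        rw [Pi.add_apply, Pi.smul_apply, brc.2.2.2.2.2.1, smul_zero, add_zero, br_ee_inl brc] at this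
        rw [← brb.2.2.2.2.1, br_ee_inl brc, (mul_eq_zero.1 this).resolve_left h, mul_zero]
        rfl
      · exact brc.1 r s
    have h3 : v ∈ Cart := fun r => by
      have := h2 (ng r)
      rwa [(brc.2.2.2.2.2.2.2.2.2.2.2.1 r).1] at this
    refine rf.2.2.2.2.2.2.2.2.2.2.1 v h3 fun j => ?_
    have := congrFun (h1 (C8.R.simple j)) (Sum.inr (C8.R.simple j))
    rwa [h2, zero_smul, add_zero, brb.2.1, brb.2.2.2.1 v h3, Pi.smul_apply, brc.2.2.2.2.1, if_pos rfl,
      smul_eq_mul, mul_one] at this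
  · obtain ⟨i, hi⟩ := Function.ne_iff.1 hv
    obtain ⟨l, hl⟩ := not_forall.1 (mt (Module.forall_dual_apply_eq_zero_iff (ZMod 2) (v i)).1 hi)
    refine ⟨fun j => algebraMap (ZMod 2) K (l (v j)), fun h => hl ?_, funext fun j => ?_,
      fun g hg => ?_⟩
    · exact (algebraMap (ZMod 2) K).injective ((congrFun h i).trans (map_zero _).symm)
    · show algebraMap (ZMod 2) K (l (v j)) ^ 2 = _
      rw [← map_pow, ZMod.pow_card]
    · have := hS g hg
      rw [act_apply] at this ⊢
      exact desc _ l v this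

end Cfsg.Agent.H56.E82Vg
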