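import Mathlib
import Cfsg.Agent.H6.E82Defs

/-! The second order identity for a root element of `E₈` in characteristic two. -/

set_option autoImplicit false

namespace Cfsg.Agent.H56.E82X2

open Equiv Cfsg.Lie H37 H40 H34 H29 Module Finset Cfsg.Agent.H6.E82

theorem two : (2 : K) = 0 := CharTwo.two_eq_zero

theorem vv (a : V) : a + a = 0 := by rw [← two_smul K a, two, zero_smul]

theorem ind (brc : BrcStmt) (P : V → Prop) (h0 : ∀ h ∈ Cart, P h) (h1 : ∀ s, P (ee s))
    (hadd : ∀ a b, P a → P b → P (a + b)) (hs : ∀ (c : K) a, P a → P (c • a)) (v : V) : P v := by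
  obtain ⟨h, hh, -, e⟩ := brc.2.2.2.2.2.2.2.2.2.1 v
  rw [e]
  exact hadd _ _ (h0 h hh)
    (Finset.sum_induction _ P hadd (h0 0 (zero_mem _)) fun s _ => hs _ _ (h1 s))

theorem prr (r : Rt) : pr r r = 2 := C8.R.pair_self r

theorem sq0 (rf : RfStmt) (brb : BrbStmt) (brc : BrcStmt) (r : Rt) (b : V) :
    br (ee r) (br (ee r) b) = 0 := by
  obtain ⟨b1, b2, -, b4, b5, b6, b7, -⟩ := brb
  refine ind brc (fun b => br (ee r) (br (ee r) b) = 0) (fun h hh => ?_) (fun s => ?_)
    (fun a b ha hb => ?_) (fun c a ha => ?_) b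
  · rw [b2 _ h, b4 h hh, map_smul, b1, smul_zero]
  · rcases rf.1 r s with rfl | h | h
    · rw [b5, b2, b4 _ (brc.1 r), brc.2.1, prr]
      push_cast
      rw [two, zero_smul]
    · rw [b6 r s h, b7]
      rw [(brc.2.2.2.2.2.2.2.2.2.2.2.2.2.2.1 r s).2, h]
      decide
    · rw [b7 r s h, map_zero]
  · rw [map_add, map_add, ha, hb, add_zero]
  · rw [map_smul, map_smul, ha, smul_zero]

/-- The identity for one pair of vectors. -/
def Id2 (r : Rt) (a b : V) : Prop := br a b (Sum.inr (ng r)) • ee r =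
    a (Sum.inr (ng r)) • br (ee r) b + br (br (ee r) a) (br (ee r) b) +
      b (Sum.inr (ng r)) • br a (ee r)

theorem Id2.symm (brb : BrbStmt) {r : Rt} {a b : V} (h : Id2 r a b) : Id2 r b a := by
  unfold Id2 at h ⊢
  rw [brb.2.1 b a, h, brb.2.1 b (ee r), brb.2.1 (br (ee r) b), brb.2.1 a (ee r)]
  abel

theorem Id2.add {r : Rt} {a a' b : V} (h : Id2 r a b) (h' : Id2 r a' b) : Id2 r (a + a') b := by
  unfold Id2 at h h' ⊢
  simp only [map_add, LinearMap.add_apply, Pi.add_apply, add_smul, smul_add]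
  rw [h, h']
  abel

theorem Id2.smul {r : Rt} {a b : V} (c : K) (h : Id2 r a b) : Id2 r (c • a) b := by
  unfold Id2 at h ⊢
  simp only [map_smul, LinearMap.smul_apply, Pi.smul_apply, smul_eq_mul, mul_smul]
  rw [h, smul_add, smul_add, smul_comm c (b _)]

theorem id2_cart (rf : RfStmt) (brb : BrbStmt) (brc : BrcStmt) (r : Rt) {h : V} (hh : h ∈ Cart)
    (b : V) : Id2 r h b := by
  have h0 : ∀ s, h (Sum.inr s) = 0 := hh
  unfold Id2
  rw [brb.2.1 (ee r) h, brb.2.2.2.1 h hh, map_smul, LinearMap.smul_apply, sq0 rf brb brc, br_inr,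
    brc.2.2.2.2.2.2.2.1]
  simp only [h0, zero_mul, ite_self, sum_const_zero, add_zero, zero_smul, smul_zero, zero_add,
    smul_smul, mul_comm]

theorem id2_ng (rf : RfStmt) (brb : BrbStmt) (brc : BrcStmt) (r t : Rt) :
    Id2 r (ee (ng r)) (ee t) := by
  obtain ⟨b1, b2, b3, b4, b5, b6, b7, -⟩ := brb
  obtain ⟨c1, c2, -, -, c5, -, -, -, -, -, -, c12, c13, -, c15, -⟩ := brc
  have pn : pr r (ng r) = -2 := by rw [(c13 r r).1, prr]
  unfold Id2
  rw [b2 (ee (ng r)) (ee r), b5, c5, if_pos rfl, one_smul]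
  rcases rf.1 r t with rfl | h | h
  · rw [b1, b5, b1, c5, if_pos rfl, one_smul, add_zero, vv, Pi.zero_apply, zero_smul]
  · have ht : ng r ≠ t := fun e => by rw [← e, pn] at h; omega
    rw [b6 r t h, b4 _ (c1 r), c2, (c15 r t).2, h, c5, if_neg ht, b7 _ _ (by rw [(c13 r t).2, h]; decide)]
    simp only [neg_neg, Int.cast_one, one_smul, vv, zero_smul, add_zero, Pi.zero_apply]
  · have ht : ng r ≠ t := fun e => by rw [← e, pn] at h; omega
    rw [b7 r t h, map_zero, c5, if_neg ht, zero_smul, add_zero, add_zero]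
    rcases rf.1 (ng r) t with rfl | h' | h'
    · rw [b5, show hr (ng r) (Sum.inr (ng r)) = 0 from c1 _ _, zero_smul]
    · rw [b6 _ _ h', c5, if_neg, zero_smul]
      intro e
      have := (c15 (ng r) t).2
      rw [← e, prr, h'] at this
      omega
    · rw [b7 _ _ h', Pi.zero_apply, zero_smul]

theorem id2_root (rf : RfStmt) (brb : BrbStmt) (brc : BrcStmt) (r s t : Rt) :
    Id2 r (ee s) (ee t) := by
  by_cases hs : s = ng r
  · exact hs ▸ id2_ng rf brb brc r t
  by_cases ht : t = ng r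
  · exact ht ▸ (id2_ng rf brb brc r s).symm brb
  obtain ⟨b1, b2, b3, b4, b5, b6, b7, -⟩ := brb
  obtain ⟨c1, c2, -, -, c5, -, -, -, -, -, -, c12, c13, -, c15, c16, -⟩ := brc
  obtain ⟨r1, r2, r3, -⟩ := rf
  have pn : pr r (ng r) = -2 := by rw [(c13 r r).1, prr]
  have hp := (r1 r s).resolve_left hs
  have hq := (r1 r t).resolve_left ht
  unfold Id2
  rw [c5, c5, if_neg (Ne.symm hs), if_neg (Ne.symm ht), zero_smul, zero_smul, zero_add, add_zero]
  by_cases h : pr r s = -1 ∧ pr r t = -1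
  · obtain ⟨p, q⟩ := h
    have e : pr (C8.R.τ r s) (C8.R.τ r t) = pr s t := by
      rw [(c16 r t q).2, r3 _ r, (c15 r s).2, r3 _ t, (c16 r s p).2, r3 t r, r3 t s, p, q]
      ring
    rw [b6 r s p, b6 r t q]
    rcases r1 s t with rfl | h | h
    · rw [(c13 r s).1, p] at q
      omega
    · have e1 : C8.R.τ s t = ng r := by
        have := (c16 s t h).2 r
        rcases r1 r (C8.R.τ s t) with h' | h' | h'
        exacts [h', by omega, by omega]
      have e2 : C8.R.τ (C8.R.τ r s) (C8.R.τ r t) = r := by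
        have := (c16 _ _ (e.trans h)).2 r
        rw [(c15 r s).2, (c15 r t).2] at this
        exact (r2 r _).resolve_right (by omega)
      rw [b6 s t h, b6 _ _ (e.trans h), e1, e2, c5, if_pos rfl, one_smul]
    · rw [b7 s t h, b7 _ _ (e ▸ h), Pi.zero_apply, zero_smul]
  · have e : br (br (ee r) (ee s)) (br (ee r) (ee t)) = 0 := by
      rcases hp with p | p
      · rw [b7 r t (hq.resolve_left fun q => h ⟨p, q⟩), map_zero]
      · rw [b7 r s p, map_zero, LinearMap.zero_apply]
    rw [e]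
    rcases r1 s t with rfl | h' | h'
    · rw [b5, show hr s (Sum.inr (ng r)) = 0 from c1 _ _, zero_smul]
    · rw [b6 _ _ h', c5, if_neg, zero_smul]
      intro e'
      have := (c16 s t h').2 r
      rw [← e', pn] at this
      omega
    · rw [b7 _ _ h', Pi.zero_apply, zero_smul]

theorem x2 (rf : RfStmt) (brb : BrbStmt) (brc : BrcStmt) : X2Stmt := by
  refine ⟨fun r a b => ?_, sq0 rf brb brc⟩
  refine ind brc (fun a => Id2 r a b) (fun h hh => id2_cart rf brb brc r hh b) (fun s => ?_)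
    (fun _ _ => Id2.add) (fun c _ => Id2.smul c) a
  exact (ind brc (fun b => Id2 r b (ee s)) (fun h hh => id2_cart rf brb brc r hh _)
    (fun t => id2_root rf brb brc r t s) (fun _ _ => Id2.add) (fun c _ => Id2.smul c) b).symm brb

end Cfsg.Agent.H56.E82X2
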