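import Mathlib
import Cfsg.Agent.H2.FXDefs

/-! Class sums in `SL(2, 13)` for the Hecke algebra computation. -/

set_option autoImplicit false

namespace Cfsg.Agent.H56.FXCls

open Module Cfsg.Agent.H50.E83 Cfsg.Agent.H2FX
open scoped Matrix MatrixGroups

section
variable {A : Type} [Ring A] (φ : S13 →* A) (L : A →+ ℂ) (h1 : φ (-1) = 1)
  (hc : ∀ a b, L (a * b) = L (b * a)) (hs : ∀ g, g ^ 12 = 1 → g ^ 4 ≠ 1 → L (φ g) = 0)

include h1 hc in
theorem cl (g r : S13) (a b c d : ZMod 13) (hd : a * d - b * c = 1)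
    (H : g.1 * !![a, b; c, d] = !![a, b; c, d] * r.1 ∨
      g.1 * !![a, b; c, d] = -(!![a, b; c, d] * r.1)) : L (φ g) = L (φ r) := by
  let h : S13 := ⟨!![a, b; c, d], by rw [Matrix.det_fin_two_of]; exact hd⟩
  have e : φ (g * h) = φ (h * r) := by
    rcases H with H | H
    · exact congrArg φ (Subtype.ext H)
    · have : g * h = -1 * (h * r) := by
        rw [neg_one_mul]; exact Subtype.ext H
      rw [this, map_mul, h1, one_mul]
  calc L (φ g) = L (φ (g * h) * φ h⁻¹) := by rw [← map_mul, mul_inv_cancel_right]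
    _ = L (φ h⁻¹ * φ (h * r)) := by rw [e, hc]
    _ = L (φ r) := by rw [← map_mul, inv_mul_cancel_left]

theorem expQ (a : S13) : L (φ a * hQ φ) = ∑ i ∈ Finset.range 13, L (φ (a * gu ^ i)) := by
  simp only [hQ, Finset.mul_sum, map_sum, map_mul, map_pow]

theorem expE (a : S13) : L (φ a * hE φ) = L (φ a * hQ φ) + L (φ (a * gt) * hQ φ) := by
  rw [hE, add_mul, one_mul, mul_add, map_add, map_mul φ a gt, mul_assoc]

include h1 hc in
theorem vQ : L (φ 1 * hQ φ) = L (φ 1) + 6 * L (φ gu) + 6 * L (φ (gu ^ 2)) := by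
  have a0 : L (φ (1 * gu ^ 0)) = L (φ 1) :=
    cl φ L h1 hc _ _ 0 1 12 0 (by decide +kernel) (by decide +kernel)
  have a1 : L (φ (1 * gu ^ 1)) = L (φ gu) :=
    cl φ L h1 hc _ _ 1 0 0 1 (by decide +kernel) (by decide +kernel)
  have a2 : L (φ (1 * gu ^ 2)) = L (φ (gu ^ 2)) :=
    cl φ L h1 hc _ _ 1 0 0 1 (by decide +kernel) (by decide +kernel)
  have a3 : L (φ (1 * gu ^ 3)) = L (φ gu) :=
    cl φ L h1 hc _ _ 4 0 0 10 (by decide +kernel) (by decide +kernel)
  have a4 : L (φ (1 * gu ^ 4)) = L (φ gu) :=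
    cl φ L h1 hc _ _ 2 0 0 7 (by decide +kernel) (by decide +kernel)
  have a5 : L (φ (1 * gu ^ 5)) = L (φ (gu ^ 2)) :=
    cl φ L h1 hc _ _ 3 0 0 9 (by decide +kernel) (by decide +kernel)
  have a6 : L (φ (1 * gu ^ 6)) = L (φ (gu ^ 2)) :=
    cl φ L h1 hc _ _ 4 0 0 10 (by decide +kernel) (by decide +kernel)
  have a7 : L (φ (1 * gu ^ 7)) = L (φ (gu ^ 2)) :=
    cl φ L h1 hc _ _ 6 0 0 11 (by decide +kernel) (by decide +kernel)
  have a8 : L (φ (1 * gu ^ 8)) = L (φ (gu ^ 2)) :=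
    cl φ L h1 hc _ _ 2 0 0 7 (by decide +kernel) (by decide +kernel)
  have a9 : L (φ (1 * gu ^ 9)) = L (φ gu) :=
    cl φ L h1 hc _ _ 3 0 0 9 (by decide +kernel) (by decide +kernel)
  have a10 : L (φ (1 * gu ^ 10)) = L (φ gu) :=
    cl φ L h1 hc _ _ 6 0 0 11 (by decide +kernel) (by decide +kernel)
  have a11 : L (φ (1 * gu ^ 11)) = L (φ (gu ^ 2)) :=
    cl φ L h1 hc _ _ 5 0 0 8 (by decide +kernel) (by decide +kernel)
  have a12 : L (φ (1 * gu ^ 12)) = L (φ gu) :=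
    cl φ L h1 hc _ _ 5 0 0 8 (by decide +kernel) (by decide +kernel)
  rw [expQ]
  simp only [Finset.sum_range_succ, Finset.sum_range_zero]
  rw [a0, a1, a2, a3, a4, a5, a6, a7, a8, a9, a10, a11, a12]
  ring

include h1 hc in
theorem vT : L (φ (1 * gt) * hQ φ) = 13 * L (φ gt) := by
  have a0 : L (φ (1 * gt * gu ^ 0)) = L (φ gt) :=
    cl φ L h1 hc _ _ 0 1 12 0 (by decide +kernel) (by decide +kernel)
  have a1 : L (φ (1 * gt * gu ^ 1)) = L (φ gt) :=
    cl φ L h1 hc _ _ 1 6 0 1 (by decide +kernel) (by decide +kernel)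
  have a2 : L (φ (1 * gt * gu ^ 2)) = L (φ gt) :=
    cl φ L h1 hc _ _ 1 1 12 0 (by decide +kernel) (by decide +kernel)
  have a3 : L (φ (1 * gt * gu ^ 3)) = L (φ gt) :=
    cl φ L h1 hc _ _ 1 5 0 1 (by decide +kernel) (by decide +kernel)
  have a4 : L (φ (1 * gt * gu ^ 4)) = L (φ gt) :=
    cl φ L h1 hc _ _ 1 2 6 0 (by decide +kernel) (by decide +kernel)
  have a5 : L (φ (1 * gt * gu ^ 5)) = L (φ gt) :=
    cl φ L h1 hc _ _ 1 4 0 1 (by decide +kernel) (by decide +kernel)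
  have a6 : L (φ (1 * gt * gu ^ 6)) = L (φ gt) :=
    cl φ L h1 hc _ _ 1 3 4 0 (by decide +kernel) (by decide +kernel)
  have a7 : L (φ (1 * gt * gu ^ 7)) = L (φ gt) :=
    cl φ L h1 hc _ _ 1 3 0 1 (by decide +kernel) (by decide +kernel)
  have a8 : L (φ (1 * gt * gu ^ 8)) = L (φ gt) :=
    cl φ L h1 hc _ _ 1 4 3 0 (by decide +kernel) (by decide +kernel)
  have a9 : L (φ (1 * gt * gu ^ 9)) = L (φ gt) :=
    cl φ L h1 hc _ _ 1 2 0 1 (by decide +kernel) (by decide +kernel)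
  have a10 : L (φ (1 * gt * gu ^ 10)) = L (φ gt) :=
    cl φ L h1 hc _ _ 1 5 5 0 (by decide +kernel) (by decide +kernel)
  have a11 : L (φ (1 * gt * gu ^ 11)) = L (φ gt) :=
    cl φ L h1 hc _ _ 1 1 0 1 (by decide +kernel) (by decide +kernel)
  have a12 : L (φ (1 * gt * gu ^ 12)) = L (φ gt) :=
    cl φ L h1 hc _ _ 1 6 2 0 (by decide +kernel) (by decide +kernel)
  rw [expQ]
  simp only [Finset.sum_range_succ, Finset.sum_range_zero]
  rw [a0, a1, a2, a3, a4, a5, a6, a7, a8, a9, a10, a11, a12]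
  ring

include hs in
theorem vC : L (φ gc * hQ φ) = 0 := by
  have a0 : L (φ (gc * gu ^ 0)) = 0 := hs _ (by decide +kernel) (by decide +kernel)
  have a1 : L (φ (gc * gu ^ 1)) = 0 := hs _ (by decide +kernel) (by decide +kernel)
  have a2 : L (φ (gc * gu ^ 2)) = 0 := hs _ (by decide +kernel) (by decide +kernel)
  have a3 : L (φ (gc * gu ^ 3)) = 0 := hs _ (by decide +kernel) (by decide +kernel)
  have a4 : L (φ (gc * gu ^ 4)) = 0 := hs _ (by decide +kernel) (by decide +kernel)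
  have a5 : L (φ (gc * gu ^ 5)) = 0 := hs _ (by decide +kernel) (by decide +kernel)
  have a6 : L (φ (gc * gu ^ 6)) = 0 := hs _ (by decide +kernel) (by decide +kernel)
  have a7 : L (φ (gc * gu ^ 7)) = 0 := hs _ (by decide +kernel) (by decide +kernel)
  have a8 : L (φ (gc * gu ^ 8)) = 0 := hs _ (by decide +kernel) (by decide +kernel)
  have a9 : L (φ (gc * gu ^ 9)) = 0 := hs _ (by decide +kernel) (by decide +kernel)
  have a10 : L (φ (gc * gu ^ 10)) = 0 := hs _ (by decide +kernel) (by decide +kernel)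
  have a11 : L (φ (gc * gu ^ 11)) = 0 := hs _ (by decide +kernel) (by decide +kernel)
  have a12 : L (φ (gc * gu ^ 12)) = 0 := hs _ (by decide +kernel) (by decide +kernel)
  rw [expQ]
  simp only [Finset.sum_range_succ, Finset.sum_range_zero]
  rw [a0, a1, a2, a3, a4, a5, a6, a7, a8, a9, a10, a11, a12]
  ring

include hs in
theorem vCT : L (φ (gc * gt) * hQ φ) = 0 := by
  have a0 : L (φ (gc * gt * gu ^ 0)) = 0 := hs _ (by decide +kernel) (by decide +kernel)
  have a1 : L (φ (gc * gt * gu ^ 1)) = 0 := hs _ (by decide +kernel) (by decide +kernel)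
  have a2 : L (φ (gc * gt * gu ^ 2)) = 0 := hs _ (by decide +kernel) (by decide +kernel)
  have a3 : L (φ (gc * gt * gu ^ 3)) = 0 := hs _ (by decide +kernel) (by decide +kernel)
  have a4 : L (φ (gc * gt * gu ^ 4)) = 0 := hs _ (by decide +kernel) (by decide +kernel)
  have a5 : L (φ (gc * gt * gu ^ 5)) = 0 := hs _ (by decide +kernel) (by decide +kernel)
  have a6 : L (φ (gc * gt * gu ^ 6)) = 0 := hs _ (by decide +kernel) (by decide +kernel)
  have a7 : L (φ (gc * gt * gu ^ 7)) = 0 := hs _ (by decide +kernel) (by decide +kernel)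
  have a8 : L (φ (gc * gt * gu ^ 8)) = 0 := hs _ (by decide +kernel) (by decide +kernel)
  have a9 : L (φ (gc * gt * gu ^ 9)) = 0 := hs _ (by decide +kernel) (by decide +kernel)
  have a10 : L (φ (gc * gt * gu ^ 10)) = 0 := hs _ (by decide +kernel) (by decide +kernel)
  have a11 : L (φ (gc * gt * gu ^ 11)) = 0 := hs _ (by decide +kernel) (by decide +kernel)
  have a12 : L (φ (gc * gt * gu ^ 12)) = 0 := hs _ (by decide +kernel) (by decide +kernel)
  rw [expQ]
  simp only [Finset.sum_range_succ, Finset.sum_range_zero]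
  rw [a0, a1, a2, a3, a4, a5, a6, a7, a8, a9, a10, a11, a12]
  ring

include hs in
theorem vD : L (φ (gc ^ 2) * hQ φ) = 0 := by
  have a0 : L (φ (gc ^ 2 * gu ^ 0)) = 0 := hs _ (by decide +kernel) (by decide +kernel)
  have a1 : L (φ (gc ^ 2 * gu ^ 1)) = 0 := hs _ (by decide +kernel) (by decide +kernel)
  have a2 : L (φ (gc ^ 2 * gu ^ 2)) = 0 := hs _ (by decide +kernel) (by decide +kernel)
  have a3 : L (φ (gc ^ 2 * gu ^ 3)) = 0 := hs _ (by decide +kernel) (by decide +kernel)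
  have a4 : L (φ (gc ^ 2 * gu ^ 4)) = 0 := hs _ (by decide +kernel) (by decide +kernel)
  have a5 : L (φ (gc ^ 2 * gu ^ 5)) = 0 := hs _ (by decide +kernel) (by decide +kernel)
  have a6 : L (φ (gc ^ 2 * gu ^ 6)) = 0 := hs _ (by decide +kernel) (by decide +kernel)
  have a7 : L (φ (gc ^ 2 * gu ^ 7)) = 0 := hs _ (by decide +kernel) (by decide +kernel)
  have a8 : L (φ (gc ^ 2 * gu ^ 8)) = 0 := hs _ (by decide +kernel) (by decide +kernel)
  have a9 : L (φ (gc ^ 2 * gu ^ 9)) = 0 := hs _ (by decide +kernel) (by decide +kernel)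
  have a10 : L (φ (gc ^ 2 * gu ^ 10)) = 0 := hs _ (by decide +kernel) (by decide +kernel)
  have a11 : L (φ (gc ^ 2 * gu ^ 11)) = 0 := hs _ (by decide +kernel) (by decide +kernel)
  have a12 : L (φ (gc ^ 2 * gu ^ 12)) = 0 := hs _ (by decide +kernel) (by decide +kernel)
  rw [expQ]
  simp only [Finset.sum_range_succ, Finset.sum_range_zero]
  rw [a0, a1, a2, a3, a4, a5, a6, a7, a8, a9, a10, a11, a12]
  ring

include hs in
theorem vDT : L (φ (gc ^ 2 * gt) * hQ φ) = 0 := by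
  have a0 : L (φ (gc ^ 2 * gt * gu ^ 0)) = 0 := hs _ (by decide +kernel) (by decide +kernel)
  have a1 : L (φ (gc ^ 2 * gt * gu ^ 1)) = 0 := hs _ (by decide +kernel) (by decide +kernel)
  have a2 : L (φ (gc ^ 2 * gt * gu ^ 2)) = 0 := hs _ (by decide +kernel) (by decide +kernel)
  have a3 : L (φ (gc ^ 2 * gt * gu ^ 3)) = 0 := hs _ (by decide +kernel) (by decide +kernel)
  have a4 : L (φ (gc ^ 2 * gt * gu ^ 4)) = 0 := hs _ (by decide +kernel) (by decide +kernel)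
  have a5 : L (φ (gc ^ 2 * gt * gu ^ 5)) = 0 := hs _ (by decide +kernel) (by decide +kernel)
  have a6 : L (φ (gc ^ 2 * gt * gu ^ 6)) = 0 := hs _ (by decide +kernel) (by decide +kernel)
  have a7 : L (φ (gc ^ 2 * gt * gu ^ 7)) = 0 := hs _ (by decide +kernel) (by decide +kernel)
  have a8 : L (φ (gc ^ 2 * gt * gu ^ 8)) = 0 := hs _ (by decide +kernel) (by decide +kernel)
  have a9 : L (φ (gc ^ 2 * gt * gu ^ 9)) = 0 := hs _ (by decide +kernel) (by decide +kernel)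
  have a10 : L (φ (gc ^ 2 * gt * gu ^ 10)) = 0 := hs _ (by decide +kernel) (by decide +kernel)
  have a11 : L (φ (gc ^ 2 * gt * gu ^ 11)) = 0 := hs _ (by decide +kernel) (by decide +kernel)
  have a12 : L (φ (gc ^ 2 * gt * gu ^ 12)) = 0 := hs _ (by decide +kernel) (by decide +kernel)
  rw [expQ]
  simp only [Finset.sum_range_succ, Finset.sum_range_zero]
  rw [a0, a1, a2, a3, a4, a5, a6, a7, a8, a9, a10, a11, a12]
  ring

include h1 hc hs in
theorem vS : L (φ gs * hQ φ) = L (φ gt) + 2 * L (φ gu) +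
    2 * (L (φ gx) + L (φ (gx ^ 2)) + L (φ (gx ^ 3))) := by
  have a0 : L (φ (gs * gu ^ 0)) = L (φ gt) :=
    cl φ L h1 hc _ _ 1 4 8 7 (by decide +kernel) (by decide +kernel)
  have a1 : L (φ (gs * gu ^ 1)) = 0 := hs _ (by decide +kernel) (by decide +kernel)
  have a2 : L (φ (gs * gu ^ 2)) = L (φ gu) :=
    cl φ L h1 hc _ _ 5 0 8 8 (by decide +kernel) (by decide +kernel)
  have a3 : L (φ (gs * gu ^ 3)) = L (φ (gx ^ 3)) :=
    cl φ L h1 hc _ _ 0 4 3 3 (by decide +kernel) (by decide +kernel)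
  have a4 : L (φ (gs * gu ^ 4)) = 0 := hs _ (by decide +kernel) (by decide +kernel)
  have a5 : L (φ (gs * gu ^ 5)) = L (φ (gx ^ 2)) :=
    cl φ L h1 hc _ _ 1 9 1 10 (by decide +kernel) (by decide +kernel)
  have a6 : L (φ (gs * gu ^ 6)) = L (φ gx) :=
    cl φ L h1 hc _ _ 0 1 12 7 (by decide +kernel) (by decide +kernel)
  have a7 : L (φ (gs * gu ^ 7)) = L (φ gx) :=
    cl φ L h1 hc _ _ 0 5 5 4 (by decide +kernel) (by decide +kernel)
  have a8 : L (φ (gs * gu ^ 8)) = L (φ (gx ^ 2)) :=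
    cl φ L h1 hc _ _ 2 4 4 2 (by decide +kernel) (by decide +kernel)
  have a9 : L (φ (gs * gu ^ 9)) = 0 := hs _ (by decide +kernel) (by decide +kernel)
  have a10 : L (φ (gs * gu ^ 10)) = L (φ (gx ^ 3)) :=
    cl φ L h1 hc _ _ 0 6 2 2 (by decide +kernel) (by decide +kernel)
  have a11 : L (φ (gs * gu ^ 11)) = L (φ gu) :=
    cl φ L h1 hc _ _ 1 0 1 1 (by decide +kernel) (by decide +kernel)
  have a12 : L (φ (gs * gu ^ 12)) = 0 := hs _ (by decide +kernel) (by decide +kernel)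
  rw [expQ]
  simp only [Finset.sum_range_succ, Finset.sum_range_zero]
  rw [a0, a1, a2, a3, a4, a5, a6, a7, a8, a9, a10, a11, a12]
  ring

include h1 hc hs in
theorem vST : L (φ (gs * gt) * hQ φ) = L (φ gt) + 2 * L (φ (gu ^ 2)) +
    2 * (L (φ gx) + L (φ (gx ^ 2)) + L (φ (gx ^ 3))) := by
  have a0 : L (φ (gs * gt * gu ^ 0)) = L (φ gt) :=
    cl φ L h1 hc _ _ 1 6 1 7 (by decide +kernel) (by decide +kernel)
  have a1 : L (φ (gs * gt * gu ^ 1)) = L (φ (gx ^ 2)) :=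
    cl φ L h1 hc _ _ 0 4 3 11 (by decide +kernel) (by decide +kernel)
  have a2 : L (φ (gs * gt * gu ^ 2)) = L (φ (gx ^ 3)) :=
    cl φ L h1 hc _ _ 1 9 11 9 (by decide +kernel) (by decide +kernel)
  have a3 : L (φ (gs * gt * gu ^ 3)) = L (φ (gu ^ 2)) :=
    cl φ L h1 hc _ _ 3 0 11 9 (by decide +kernel) (by decide +kernel)
  have a4 : L (φ (gs * gt * gu ^ 4)) = L (φ gx) :=
    cl φ L h1 hc _ _ 1 3 2 7 (by decide +kernel) (by decide +kernel)
  have a5 : L (φ (gs * gt * gu ^ 5)) = 0 := hs _ (by decide +kernel) (by decide +kernel)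
  have a6 : L (φ (gs * gt * gu ^ 6)) = 0 := hs _ (by decide +kernel) (by decide +kernel)
  have a7 : L (φ (gs * gt * gu ^ 7)) = 0 := hs _ (by decide +kernel) (by decide +kernel)
  have a8 : L (φ (gs * gt * gu ^ 8)) = 0 := hs _ (by decide +kernel) (by decide +kernel)
  have a9 : L (φ (gs * gt * gu ^ 9)) = L (φ gx) :=
    cl φ L h1 hc _ _ 1 7 4 3 (by decide +kernel) (by decide +kernel)
  have a10 : L (φ (gs * gt * gu ^ 10)) = L (φ (gu ^ 2)) :=
    cl φ L h1 hc _ _ 2 0 10 7 (by decide +kernel) (by decide +kernel)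
  have a11 : L (φ (gs * gt * gu ^ 11)) = L (φ (gx ^ 3)) :=
    cl φ L h1 hc _ _ 2 4 10 1 (by decide +kernel) (by decide +kernel)
  have a12 : L (φ (gs * gt * gu ^ 12)) = L (φ (gx ^ 2)) :=
    cl φ L h1 hc _ _ 0 6 2 3 (by decide +kernel) (by decide +kernel)
  rw [expQ]
  simp only [Finset.sum_range_succ, Finset.sum_range_zero]
  rw [a0, a1, a2, a3, a4, a5, a6, a7, a8, a9, a10, a11, a12]
  ring

include h1 hc in
theorem vX : L (hX φ) = L (φ 1) + 2 * (L (φ gx) + L (φ (gx ^ 2)) + L (φ (gx ^ 3))) := by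
  have a0 : L (φ (gx ^ 0)) = L (φ 1) :=
    cl φ L h1 hc _ _ 0 1 12 0 (by decide +kernel) (by decide +kernel)
  have a1 : L (φ (gx ^ 1)) = L (φ gx) :=
    cl φ L h1 hc _ _ 0 1 12 7 (by decide +kernel) (by decide +kernel)
  have a2 : L (φ (gx ^ 2)) = L (φ (gx ^ 2)) :=
    cl φ L h1 hc _ _ 0 1 12 7 (by decide +kernel) (by decide +kernel)
  have a3 : L (φ (gx ^ 3)) = L (φ (gx ^ 3)) :=
    cl φ L h1 hc _ _ 0 1 12 7 (by decide +kernel) (by decide +kernel)
  have a4 : L (φ (gx ^ 4)) = L (φ (gx ^ 3)) :=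
    cl φ L h1 hc _ _ 0 5 5 0 (by decide +kernel) (by decide +kernel)
  have a5 : L (φ (gx ^ 5)) = L (φ (gx ^ 2)) :=
    cl φ L h1 hc _ _ 0 5 5 0 (by decide +kernel) (by decide +kernel)
  have a6 : L (φ (gx ^ 6)) = L (φ gx) :=
    cl φ L h1 hc _ _ 0 5 5 0 (by decide +kernel) (by decide +kernel)
  have e : L (hX φ) = ∑ i ∈ Finset.range 7, L (φ (gx ^ i)) := by
    simp only [hX, map_sum, map_pow]
  rw [e]
  simp only [Finset.sum_range_succ, Finset.sum_range_zero]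
  rw [a0, a1, a2, a3, a4, a5, a6]
  ring

end

theorem cls : ClsStmt := by
  intro A _ φ L h1 _ hc hs
  have hQ1 := vQ φ L h1 hc
  have hT := vT φ L h1 hc
  have hE1 := expE φ L 1
  have hX1 := vX φ L h1 hc
  have hS := expE φ L gs
  rw [vS φ L h1 hc hs, vST φ L h1 hc hs] at hS
  rw [hT] at hE1
  rw [map_one, one_mul] at hQ1
  rw [map_one, one_mul, one_mul] at hE1
  rw [map_one] at hX1
  refine ⟨hE1, ?_, ?_, ?_⟩
  · rw [expE, vC φ L hs, vCT φ L hs, add_zero]
  · rw [← map_pow, expE, vD φ L hs, vDT φ L hs, add_zero]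
  · rw [hS, hQ1, hX1]; ring

end Cfsg.Agent.H56.FXCls
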