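import Mathlib
import Cfsg.Agent.H98.GbH
import Cfsg.Agent.Eqn.Cfsg_Agent_H98_GB_pm

/-! Project GB, piece GRAM: the Gram matrix of the Schur elements only depends on the Gram matrix
of the primitive elements. -/

set_option autoImplicit false
open Cfsg Finset
open scoped ComplexConjugate MatrixGroups

namespace Cfsg.Agent.H56.GbGram

open Cfsg.Agent.H98.GB

universe u

theorem pm_congr {ι : Type} [DecidableEq ι] (G G' : ι → ι → ℂ) (J : Set ι)
    (h : ∀ i ∈ J, ∀ j ∈ J, G i j = G' i j) (s : List ι) : ∀ t : Multiset ι, (∀ i ∈ s, i ∈ J) →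
    (∀ i ∈ t, i ∈ J) → pm G s t = pm G' s t := by
  induction s with
  | nil => intro t _ _; rfl
  | cons i s ih =>
    intro t hs ht
    simp only [pm]
    refine sum_congr rfl fun j hj => ?_
    rw [h i (hs i List.mem_cons_self) j (ht j (Multiset.mem_toFinset.1 hj)),
      ih _ (fun a ha => hs a (List.mem_cons_of_mem _ ha))
        fun a ha => ht a (Multiset.mem_of_mem_erase ha)]

theorem inner_sum_sum {G : Type u} [Group G] [Fintype G] {ι : Type} (S T : Finset ι)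
    (a b : ι → ℂ) (x y : ι → G → ℂ) :
    classInner (∑ i ∈ S, a i • x i) (∑ j ∈ T, b j • y j) =
      ∑ i ∈ S, ∑ j ∈ T, a i * conj (b j) * classInner (x i) (y j) := by
  simp only [classInner, Finset.sum_apply, Pi.smul_apply, smul_eq_mul, map_sum, map_mul]
  simp only [sum_mul_sum]
  simp only [mul_sum]
  rw [sum_comm]
  refine sum_congr rfl fun i _ => ?_
  rw [sum_comm]
  exact sum_congr rfl fun j _ => sum_congr rfl fun g _ => by ring

theorem map_fsum {α β γ : Type*} (S : Finset γ) (m : γ → Multiset α) (f : α → β) :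
    (∑ c ∈ S, m c).map f = ∑ c ∈ S, (m c).map f :=
  map_sum (Multiset.mapAddMonoidHom f) m S

variable {Φ : Type} [Fintype Φ]

/-- The multiset of pairs of a monomial. -/
noncomputable def tm (μ : Φ → Multiset ℕ) : Multiset (Φ × ℕ) := ∑ φ, (μ φ).map fun r => (φ, r)

theorem mem_tm {μ : Φ → Multiset ℕ} {i : Φ × ℕ} (h : i ∈ tm μ) : i.2 ∈ μ i.1 := by
  simp only [tm, Multiset.mem_sum, Multiset.mem_map] at h
  obtain ⟨φ, -, r, hr, rfl⟩ := h
  exact hr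

theorem mon_eq {A : Type u} [CommRing A] (P : Φ → ℕ → A) (μ : Φ → Multiset ℕ) :
    mon P μ = ((tm μ).map fun i => P i.1 i.2).prod := by
  simp only [mon, tm, map_fsum, Multiset.prod_sum, Multiset.map_map, Function.comp_def]

theorem wm_eq (dg : Φ → ℕ) (μ : Φ → Multiset ℕ) :
    wm dg μ = ((tm μ).map fun i => dg i.1 * i.2).sum := by
  simp only [wm, tm, map_fsum, Multiset.sum_sum, Multiset.map_map, Function.comp_def]
  exact sum_congr rfl fun φ _ => by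
    rw [Multiset.sum_map_mul_left (f := fun x => x), Multiset.map_id']

section
variable {F : Type u} [Field F] [Fintype F] [DecidableEq F] {η : Fˣ →* ℂˣ} (H : Hall η)

theorem ip_sum {ι : Type} (n : ℕ) (v : H.A) (S T : Finset ι) (a b : ι → ℂ) (x y : ι → H.A) :
    H.ip n (v * ∑ i ∈ S, a i • x i) (v * ∑ j ∈ T, b j • y j) =
      ∑ i ∈ S, ∑ j ∈ T, a i * conj (b j) * H.ip n (v * x i) (v * y j) := by
  simp only [Hall.ip, mul_sum, mul_smul_comm, map_sum, map_smul, Finset.sum_apply, Pi.smul_apply]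
  exact inner_sum_sum S T a b _ _

theorem ip_mon (hP : PERMStmt.{u}) [DecidableEq Φ] {dg : Φ → ℕ} {In : Φ → Prop} {n0 : ℕ}
    {P : Φ → ℕ → H.A} {k0 : ℕ} {v : H.A} (S : H.Sys dg In n0 P k0 v) {μ μ' : Φ → Multiset ℕ}
    (h : ∀ i ∈ tm μ, In i.1 ∧ 0 < i.2 ∧ dg i.1 * i.2 ≤ n0)
    (h' : ∀ i ∈ tm μ', In i.1 ∧ 0 < i.2 ∧ dg i.1 * i.2 ≤ n0) :
    H.ip (k0 + wm dg μ) (v * mon P μ) (v * mon P μ') = H.ip k0 v v *
      pm (fun i j : Φ × ℕ => H.ip (dg i.1 * i.2) (P i.1 i.2) (P j.1 j.2)) (tm μ).toList (tm μ') := by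
  have := hP F η H (Φ × ℕ) (fun i => P i.1 i.2) (fun i => dg i.1 * i.2)
    {i | In i.1 ∧ 0 < i.2 ∧ dg i.1 * i.2 ≤ n0} (fun i hi => S.pr _ _ hi.1 hi.2.1 hi.2.2) k0 k0 v v
    S.hv S.hv (fun i hi => ⟨S.vac _ _ hi.1 hi.2.1 hi.2.2, S.vac _ _ hi.1 hi.2.1 hi.2.2⟩)
    (tm μ).toList (tm μ') (fun i hi => h i (Multiset.mem_toList.1 hi)) h'
  rwa [Multiset.sum_map_toList, Multiset.prod_map_toList, ← wm_eq, ← mon_eq, ← mon_eq] at this

end

theorem good [DecidableEq Φ] {dg : Φ → ℕ} {In : Φ → Prop} {n0 N : ℕ} {Λ : Φ → Finset ℕ}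
    (hL : LabOn N In Λ) (hw : wt dg Λ ≤ n0) {μ : Φ → Multiset ℕ}
    (hμ : μ ∈ Fintype.piFinset fun φ => H19.Par (H19.wtS (Λ φ))) :
    wm dg μ = wt dg Λ ∧ ∀ i ∈ tm μ, In i.1 ∧ 0 < i.2 ∧ dg i.1 * i.2 ≤ n0 := by
  have h := fun φ => H19.mem_Par.1 (Fintype.mem_piFinset.1 hμ φ)
  refine ⟨sum_congr rfl fun φ _ => by rw [(h φ).1], fun i hi => ?_⟩
  have h1 := mem_tm hi
  have h2 := (h _).2 _ h1
  have h3 : i.2 ≤ H19.wtS (Λ i.1) := (h _).1 ▸ Multiset.single_le_sum (fun _ _ => Nat.zero_le _) _ h1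
  refine ⟨by_contra fun hn => ?_, h2, ?_⟩
  · rw [(hL _).2 hn, H19.wtS_range] at h3
    omega
  · exact ((Nat.mul_le_mul_left _ h3).trans (single_le_sum (f := fun φ => dg φ * H19.wtS (Λ φ))
      (fun _ _ => Nat.zero_le _) (mem_univ i.1))).trans hw

theorem gram (hM : MONStmt.{u}) (hP : PERMStmt.{u}) : GRAMStmt.{u} := by
  intro F _ _ _ η η' H H' Φ _ dg In n0 N P P' k0 v v' S S' hv hG Λ Λ' hL hL' hw hw'
  classical
  rw [(hM H.A Φ N P).1 Λ, (hM H.A Φ N P).1 Λ', (hM H'.A Φ N P').1 Λ, (hM H'.A Φ N P').1 Λ',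
    ip_sum, ip_sum]
  refine sum_congr rfl fun μ hμ => sum_congr rfl fun μ' hμ' => ?_
  obtain ⟨e, h⟩ := good hL hw hμ
  obtain ⟨-, h'⟩ := good hL' hw' hμ'
  rw [← e, ip_mon H hP S h h', ip_mon H' hP S' h h', hv,
    pm_congr _ (fun i j : Φ × ℕ => H'.ip (dg i.1 * i.2) (P' i.1 i.2) (P' j.1 j.2))
      {i | In i.1 ∧ 0 < i.2 ∧ dg i.1 * i.2 ≤ n0}
      (fun i hi j hj => hG _ _ _ _ hi.1 hj.1 hi.2.1 hj.2.1 hi.2.2 hj.2.2) _ _
      (fun i hi => h i (Multiset.mem_toList.1 hi)) h']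

end Cfsg.Agent.H56.GbGram
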