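import Mathlib
import Cfsg.Agent.H98.GbL
import Cfsg.Agent.H19.DgCu

/-! Project GB, piece ROOT: the lifted eigenvalues of an invertible matrix. -/

set_option autoImplicit false
open Cfsg Finset Polynomial
open scoped MatrixGroups

namespace Cfsg.Agent.H56.GbRoot

open Cfsg.Agent.H98.GB H22.Cusp H19.DgCu

universe u

section field
variable {F : Type u} [Field F] {k : Type} [Field k] [Algebra F k] {m : ℕ}

theorem ar_eq (A : Matrix (Fin m) (Fin m) F) :
    A.charpoly.aroots k = (A.map (algebraMap F k)).charpoly.roots := by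
  rw [Matrix.charpoly_map]

theorem ar_pow [IsAlgClosed k] (A : Matrix (Fin m) (Fin m) F) (j : ℕ) :
    (A ^ j).charpoly.aroots k = (A.charpoly.aroots k).map (· ^ j) := by
  rw [ar_eq, ar_eq, ← Matrix.charpoly_toLin', ← Matrix.charpoly_toLin', ← roots_charpoly_pow,
    ← Matrix.toLin'_pow, Matrix.map_pow]

theorem ar_ord [IsAlgClosed k] [Finite F] (g : GL (Fin m) F) {x : k}
    (hx : x ∈ g.1.charpoly.aroots k) : x ^ orderOf g = 1 := by
  have h : x ^ orderOf g ∈ (g.1 ^ orderOf g).charpoly.aroots k := by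
    rw [ar_pow]; exact Multiset.mem_map_of_mem _ hx
  rw [← Units.val_pow_eq_pow_val, pow_orderOf_eq_one, Units.val_one, Matrix.charpoly_one,
    mem_aroots] at h
  have := h.2
  rw [map_pow, map_sub, aeval_X, map_one] at this
  exact sub_eq_zero.1 (eq_zero_of_pow_eq_zero this)

theorem unip [IsAlgClosed k] {p : ℕ} (hp : p.Prime) [CharP k p] (A : Matrix (Fin m) (Fin m) F)
    (h : ∀ x ∈ A.charpoly.aroots k, x = 1) : A ^ p ^ m = 1 := by
  have : Fact p.Prime := ⟨hp⟩
  rw [ar_eq] at h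
  set B := A.map (algebraMap F k) with hB
  have e : B.charpoly = (X - 1) ^ m := by
    rw [(IsAlgClosed.splits B.charpoly).eq_prod_roots_of_monic B.charpoly_monic,
      Multiset.eq_replicate_card.2 h, IsAlgClosed.card_roots_eq_natDegree,
      Matrix.charpoly_natDegree_eq_dim, Fintype.card_fin, Multiset.map_replicate,
      Multiset.prod_replicate, C_1]
  have e2 : aeval B ((X - 1 : k[X]) ^ p ^ m) = 0 := by
    obtain ⟨r, hr⟩ := Nat.exists_eq_add_of_le (Nat.lt_pow_self hp.one_lt (n := m)).le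
    rw [hr, pow_add, map_mul, ← e, Matrix.aeval_self_charpoly, zero_mul]
  rw [sub_pow_char_pow, one_pow, map_sub, map_pow, aeval_X, map_one, sub_eq_zero, hB,
    ← Matrix.map_pow] at e2
  exact Matrix.map_injective (algebraMap F k).injective
    (e2.trans (Matrix.map_one _ (map_zero _) (map_one _)).symm)

theorem npd {p : ℕ} (hp : p.Prime) [CharP k p] {x : k} {n : ℕ} (hn : n ≠ 0) (hx : x ^ n = 1) :
    ¬ p ∣ orderOf x := by
  have : Fact p.Prime := ⟨hp⟩
  rintro ⟨t, ht⟩
  have h0 : 0 < orderOf x := (isOfFinOrder_iff_pow_eq_one.2 ⟨n, Nat.pos_of_ne_zero hn, hx⟩).orderOf_pos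
  have h1 : (x ^ t - 1) ^ p = 0 := by
    rw [sub_pow_char, one_pow, ← pow_mul, mul_comm, ← ht, pow_orderOf_eq_one, sub_self]
  have h2 := Nat.le_of_dvd (Nat.pos_of_ne_zero (by rintro rfl; omega))
    (orderOf_dvd_of_pow_eq_one (sub_eq_zero.1 (pow_eq_zero_iff hp.ne_zero |>.1 h1)))
  have := hp.two_le
  nlinarith

end field

section teich
variable {p : ℕ} {M : Ideal AlgInt} (hM : IsPModular p M) {x y : H19.kk M} {n : ℕ} (hn : n ≠ 0)
  (hx : x ^ n = 1)
include hM hn hx

theorem t_pow (j : ℕ) : teich p M (x ^ j) = teich p M x ^ j :=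
  have := H19.charP_kk hM
  teich_pow hM (npd hM.1 hn hx) (pow_orderOf_eq_one x) j

theorem t_red : H19.red M (teich p M x) = x :=
  have := H19.charP_kk hM
  (teich_spec hM (npd hM.1 hn hx) (pow_orderOf_eq_one x)).2

theorem t_one : teich p M x = 1 ↔ x = 1 :=
  ⟨fun h => by rw [← t_red hM hn hx, h, H19.red_one], fun h => by rw [h, teich_one hM]⟩

theorem t_ord : orderOf (teich p M x) = orderOf x :=
  orderOf_eq_orderOf_iff.2 fun j => by
    rw [← t_pow hM hn hx, t_one hM hn (by rw [← pow_mul, mul_comm, pow_mul, hx, one_pow])]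

end teich

theorem root : ROOTStmt.{u} := by
  intro F _ _ _ C
  let := C.alg
  have := H19.charP_kk C.hM0
  have ro : ∀ {m : ℕ} (g : GL (Fin m) F),
      C.roots g = (g.1.charpoly.aroots (H19.kk C.M0)).map (teich C.p0 C.M0) := fun _ => rfl
  have o0 : ∀ {m : ℕ} (g : GL (Fin m) F), orderOf g ≠ 0 := fun g => (orderOf_pos g).ne'
  have h7 : ∀ m (g : GL (Fin m) F), ∀ z ∈ C.roots g, z ^ orderOf g = 1 := fun m g z hz => by
    obtain ⟨x, hx, rfl⟩ := Multiset.mem_map.1 hz
    rw [← t_pow C.hM0 (o0 g) (ar_ord g hx), ar_ord g hx, teich_one C.hM0]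
  refine ⟨fun m g x => ?_, fun m g => ?_, fun a b n h u c v => ?_, fun m g k => ?_, fun m g => ?_,
    fun m g => ?_, h7, fun a b u v h => ?_⟩
  · rw [ro, ro, Units.val_mul, Units.val_mul, Matrix.coe_units_inv, Matrix.charpoly_units_conj]
  · rw [ro, Multiset.card_map, ar_eq, IsAlgClosed.card_roots_eq_natDegree,
      Matrix.charpoly_natDegree_eq_dim, Fintype.card_fin]
  · rw [ro, ro, ro, coe_tri, Matrix.charpoly_reindex, Matrix.charpoly_fromBlocks_zero₂₁,
      aroots_mul (mul_ne_zero (Matrix.charpoly_monic _).ne_zero (Matrix.charpoly_monic _).ne_zero),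
      Multiset.map_add]
  · rw [ro, ro, Units.val_pow_eq_pow_val, ar_pow, Multiset.map_map, Multiset.map_map]
    exact Multiset.map_congr rfl fun x hx => t_pow C.hM0 (o0 g) (ar_ord g hx) k
  · refine ⟨fun h => by_contra fun hn => ?_, fun ⟨z, hz, h⟩ =>
      h.trans (orderOf_dvd_of_pow_eq_one (h7 m g z hz))⟩
    let N := ((g.1.charpoly.aroots (H19.kk C.M0)).map orderOf).prod
    have h1 := unip (k := H19.kk C.M0) C.hM0.1 (g.1 ^ N) fun y hy => by
      rw [ar_pow] at hy
      obtain ⟨x, hx, rfl⟩ := Multiset.mem_map.1 hy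
      exact orderOf_dvd_iff_pow_eq_one.1 (Multiset.dvd_prod (Multiset.mem_map_of_mem _ hx))
    have h2 : g ^ (N * C.p0 ^ m) = 1 := Units.ext (by
      rw [Units.val_pow_eq_pow_val, pow_mul, h1, Units.val_one])
    rcases (C.hp.dvd_mul).1 (h.trans (orderOf_dvd_of_pow_eq_one h2)) with h3 | h3
    · obtain ⟨_, ha, h4⟩ := C.hp.prime.exists_mem_multiset_dvd h3
      obtain ⟨x, hx, rfl⟩ := Multiset.mem_map.1 ha
      exact hn ⟨_, Multiset.mem_map_of_mem _ hx, by rwa [t_ord C.hM0 (o0 g) (ar_ord g hx)]⟩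
    · have := C.ch
      exact C.hpF (((Nat.prime_dvd_prime_iff_eq C.hp C.hM0.1).1 (C.hp.dvd_of_dvd_pow h3)).trans
        (ringChar.eq F C.p0).symm)
  · have e : (1 : ℂ) ∈ C.roots g ↔ (1 : H19.kk C.M0) ∈ g.1.charpoly.aroots (H19.kk C.M0) :=
      ⟨fun h => by
        obtain ⟨x, hx, e⟩ := Multiset.mem_map.1 h
        rwa [(t_one C.hM0 (o0 g) (ar_ord g hx)).1 e] at hx,
      fun h => Multiset.mem_map.2 ⟨1, h, teich_one C.hM0⟩⟩
    rw [e, mem_aroots, ← map_one (algebraMap F (H19.kk C.M0)), aeval_algebraMap_apply,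
      coe_aeval_eq_eval, Matrix.eval_charpoly, map_one, map_eq_zero, ← IsUnit.neg_iff, neg_sub,
      Matrix.isUnit_iff_isUnit_det, isUnit_iff_ne_zero]
    exact ⟨fun h h' => h h'.2, fun h h' => h ⟨(Matrix.charpoly_monic _).ne_zero, h'⟩⟩
  · refine (isCoprime_iff_aeval_ne_zero_of_isAlgClosed _ (H19.kk C.M0) _ _).2 fun x => ?_
    by_contra hn
    obtain ⟨h1, h2⟩ := not_or.1 hn
    exact Multiset.disjoint_left.1 h
      (Multiset.mem_map_of_mem _ (mem_aroots.2 ⟨(Matrix.charpoly_monic _).ne_zero, not_not.1 h1⟩))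
      (Multiset.mem_map_of_mem _ (mem_aroots.2 ⟨(Matrix.charpoly_monic _).ne_zero, not_not.1 h2⟩))

end Cfsg.Agent.H56.GbRoot
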