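import Mathlib
import Cfsg.Agent.H10.ElemCent
import Cfsg.Agent.H85.Basic

/-!
Elementary facts about involutions.
-/

set_option autoImplicit false

namespace Cfsg.Agent.H56

open Subgroup Cfsg.Agent.H85

variable {G : Type*} [Group G]

/-- a normal subgroup on which all involutions of a four-group act fixed point freely -/
theorem eq_bot_of_four_group [Finite G] {z : G} {E N : Subgroup G} [hN : N.Normal]
    (hE : IsKleinFour E) (hz : orderOf z = 2) (hzE : z ∈ E) (hc : ∀ e ∈ E, e ≠ 1 → IsConj z e)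
    (h : N ⊓ centralizer ({z} : Set G) = ⊥) : N = ⊥ := by
  have hz1 := H10.ne_one_of_orderOf_two hz
  have hfix : ∀ e ∈ E, e ≠ 1 → ∀ d ∈ N, Commute d e → d = 1 := by
    intro e he he1 d hd hde
    obtain ⟨g, rfl⟩ := isConj_iff.1 (hc e he he1)
    have h1 : g⁻¹ * d * g ∈ N ⊓ centralizer ({z} : Set G) := by
      refine ⟨hN.conj_mem' d hd g, mem_centralizer_singleton_iff.2 ?_⟩
      calc g⁻¹ * d * g * z = g⁻¹ * (d * (g * z * g⁻¹)) * g := by group
        _ = _ := by rw [hde.eq]; group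
    rw [h, mem_bot] at h1
    calc d = g * (g⁻¹ * d * g) * g⁻¹ := by group
      _ = 1 := by rw [h1]; group
  have hinv : ∀ e ∈ E, e ≠ 1 → ∀ d ∈ N, e * d * e⁻¹ = d⁻¹ := fun e he he1 =>
    H10.inverts_of_fixedPointFree (congrArg Subtype.val (IsKleinFour.mul_self (⟨e, he⟩ : E)))
      (fun d hd => hN.conj_mem d hd e) (hfix e he he1)
  obtain ⟨t, ht1, htz⟩ : ∃ t : E, t ≠ 1 ∧ t ≠ ⟨z, hzE⟩ := by
    by_contra h'
    push Not at h'
    have h1 : Nat.card E ≤ Nat.card Bool := Nat.card_le_card_of_surjective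
      (fun b => if b = true then (1 : E) else ⟨z, hzE⟩) fun t => by
        by_cases h1 : t = 1
        · exact ⟨true, h1.symm⟩
        · exact ⟨false, (h' t h1).symm⟩
    simp at h1
  have h2 : z * t ≠ 1 := fun h' => htz (Subtype.ext
    ((eq_inv_of_mul_eq_one_right h').trans (H10.inv_eq_of_orderOf_two hz)))
  rw [eq_bot_iff]
  intro d hd
  refine hfix _ (E.mul_mem hzE t.2) h2 d hd ?_
  have h3 := hinv t t.2 (fun h => ht1 (Subtype.ext h)) d hd
  have h4 := hinv z hzE hz1 _ (N.inv_mem hd)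
  rw [← h3, h3, inv_inv] at h4
  calc d * (z * t) = z * d⁻¹ * z⁻¹ * (z * t) := by rw [h4]
    _ = z * (t * d * (t : G)⁻¹) * z⁻¹ * (z * t) := by rw [h3]
    _ = _ := by group

/-- an involution of `M` and an involution outside `M` are conjugate when `M` contains the
centralizers of its involutions -/
theorem isConj_of_centralizer_le [Finite G] {M : Subgroup G}
    (hC : ∀ i ∈ M, orderOf i = 2 → centralizer ({i} : Set G) ≤ M) {i u : G} (hi : i ∈ M)
    (hi2 : orderOf i = 2) (hu : u ∉ M) (hu2 : orderOf u = 2) : IsConj i u := by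
  have h1 := H10.mul_self_of_orderOf_two hi2
  have h2 := H10.mul_self_of_orderOf_two hu2
  rcases Nat.even_or_odd (orderOf (u * i)) with ⟨m, hm⟩ | h
  · have hm0 : m ≠ 0 := by rintro rfl; exact (orderOf_pos _).ne' hm
    obtain ⟨h3, h4, h5, h6⟩ := H10.central_involution h1 h2 hm0 (hm.trans (two_mul m).symm)
    exact absurd (hC _ (hC i hi hi2 (mem_centralizer_singleton_iff.2 h5))
      (H10.orderOf_eq_two_of h4 h3) (mem_centralizer_singleton_iff.2 h6.symm)) hu
  · obtain ⟨a, ha⟩ := H10.exists_pow_conj_of_odd h1 h2 h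
    exact isConj_iff.2 ⟨_, ha⟩

theorem exists_involution_notMem [Finite G] {M : Subgroup G} (hM : Even (Nat.card M))
    (hcore : Odd (Nat.card M.normalCore)) : ∃ u ∉ M, orderOf u = 2 := by
  by_contra h
  push Not at h
  obtain ⟨i, -, hi2⟩ := H10.even_card_iff.1 hM
  refine H10.odd_card_iff.1 hcore i (fun g => ?_) hi2
  by_contra h'
  exact h _ h' (by rw [H10.orderOf_conj, hi2])

end Cfsg.Agent.H56
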