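import Cfsg.Agent.H9.KCDefs
import Cfsg.Agent.H58.Count

/-!
Involution counts for the class data of a finite group.
-/

set_option autoImplicit false

namespace Cfsg.Agent.H56.KcA3

open Subgroup Cfsg.Agent.H9.KC

universe u

variable {G : Type u} [Group G] [Finite G]

theorem four_dvd_of_pgroup {T : Type*} [Group T] [Finite T] (hT : IsPGroup 2 T)
    (h4 : 4 ∣ Nat.card T) (x : T) : 4 ∣ Nat.card (centralizer ({x} : Set T)) := by
  obtain ⟨k, hk⟩ := IsPGroup.iff_card.1 (hT.to_subgroup (centralizer ({x} : Set T)))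
  by_cases hk2 : 2 ≤ k
  · rw [hk]; exact pow_dvd_pow 2 hk2
  have hle : Nat.card (centralizer ({x} : Set T)) ≤ 2 := by
    rw [hk]; calc 2 ^ k ≤ 2 ^ 1 := Nat.pow_le_pow_right (by norm_num) (by omega)
      _ = 2 := rfl
  have h4' : 4 ≤ Nat.card T := Nat.le_of_dvd Nat.card_pos h4
  have : Nontrivial T := Finite.one_lt_card_iff_nontrivial.1 (by omega)
  have hcn := hT.center_nontrivial
  obtain ⟨z, hz1⟩ := exists_ne (1 : center T)
  have hx : x ∈ center T := by
    by_contra hx
    classical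
    have := Fintype.ofFinite (centralizer ({x} : Set T))
    have : 2 < Fintype.card (centralizer ({x} : Set T)) :=
      Fintype.two_lt_card_iff.2 ⟨1, ⟨x, mem_centralizer_singleton_iff.2 rfl⟩,
        ⟨z, mem_centralizer_singleton_iff.2 (mem_center_iff.1 z.2 x).symm⟩,
        fun h => hx (by rw [← show (1 : T) = x from congrArg Subtype.val h]; exact one_mem _),
        fun h => hz1 (Subtype.ext (congrArg Subtype.val h).symm),
        fun h => hx (by rw [show x = z from congrArg Subtype.val h]; exact z.2)⟩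
    rw [← Nat.card_eq_fintype_card] at this
    omega
  have : centralizer ({x} : Set T) = ⊤ := by
    rw [eq_top_iff]; intro a _
    exact mem_centralizer_singleton_iff.2 (mem_center_iff.1 hx a)
  rw [this, card_top]; exact h4

theorem four_dvd {H : Type*} [Group H] [Finite H] (h4 : 4 ∣ Nat.card H) {x : H}
    (hx : orderOf x = 2) : 4 ∣ Nat.card (centralizer ({x} : Set H)) := by
  have hp : IsPGroup 2 (zpowers x) := IsPGroup.of_card (n := 1) (by rw [Nat.card_zpowers, hx]; rfl)
  obtain ⟨S, hS⟩ := hp.exists_le_sylow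
  have hS4 : 4 ∣ Nat.card (S : Subgroup H) := by
    have h := (S : Subgroup H).card_mul_index
    rw [← h] at h4
    refine Nat.Coprime.dvd_of_dvd_mul_right ?_ h4
    exact Nat.Coprime.pow_left 2 ((Nat.Prime.coprime_iff_not_dvd Nat.prime_two).2 S.not_dvd_index)
  refine (four_dvd_of_pgroup S.isPGroup' hS4 ⟨x, hS (mem_zpowers x)⟩).trans ?_
  rw [← card_map_of_injective (S : Subgroup H).subtype_injective]
  apply card_dvd_of_le
  rintro _ ⟨y, hy, rfl⟩
  exact mem_centralizer_singleton_iff.2 (congrArg Subtype.val (mem_centralizer_singleton_iff.1 hy))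

theorem conj_of_not_four {H : Type*} [Group H] [Finite H] (h4 : ¬ 4 ∣ Nat.card H) {s t : H}
    (hs : orderOf s = 2) (ht : orderOf t = 2) : ∃ h : H, h * s * h⁻¹ = t := by
  have hp : ∀ x : H, orderOf x = 2 → ∃ S : Sylow 2 H, x ∈ (S : Subgroup H) ∧
      ∀ y ∈ (S : Subgroup H), y = 1 ∨ y = x := by
    intro x hx
    have hp : IsPGroup 2 (zpowers x) :=
      IsPGroup.of_card (n := 1) (by rw [Nat.card_zpowers, hx]; rfl)
    obtain ⟨S, hS⟩ := hp.exists_le_sylow
    refine ⟨S, hS (mem_zpowers x), fun y hy => ?_⟩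
    obtain ⟨k, hk⟩ := IsPGroup.iff_card.1 S.isPGroup'
    have hk1 : k ≤ 1 := by
      by_contra h
      exact h4 (((pow_dvd_pow 2 (show 2 ≤ k by omega)).trans (hk ▸ dvd_rfl)).trans
        (card_subgroup_dvd_card (S : Subgroup H)))
    have he : zpowers x = (S : Subgroup H) := by
      refine eq_of_le_of_card_ge hS ?_
      rw [Nat.card_zpowers, hx, hk]
      calc 2 ^ k ≤ 2 ^ 1 := Nat.pow_le_pow_right (by norm_num) hk1
        _ = 2 := rfl
    rw [← he] at hy
    obtain ⟨i, rfl⟩ := (mem_powers_iff_mem_zpowers.2 hy)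
    have h2 : x ^ 2 = 1 := hx ▸ pow_orderOf_eq_one x
    rcases Nat.even_or_odd' i with ⟨j, rfl | rfl⟩
    · left; show x ^ (2 * j) = 1; rw [pow_mul, h2, one_pow]
    · right; show x ^ (2 * j + 1) = x; rw [pow_succ, pow_mul, h2, one_pow, one_mul]
  obtain ⟨S, hsS, -⟩ := hp s hs
  obtain ⟨T, -, hT⟩ := hp t ht
  obtain ⟨h, hh⟩ := MulAction.exists_smul_eq H S T
  have hm : h * s * h⁻¹ ∈ (T : Subgroup H) := by
    rw [← hh, Sylow.coe_subgroup_smul]
    exact smul_mem_pointwise_smul _ (MulAut.conj h) _ hsS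
  rcases hT _ hm with h1 | h1
  · exfalso
    have : s = 1 := by
      calc s = h⁻¹ * (h * s * h⁻¹) * h := by group
        _ = 1 := by rw [h1]; group
    rw [this, orderOf_one] at hs; omega
  · exact ⟨h, h1⟩

theorem six_data {y : G} (ho : orderOf y = 6) (hc : Nat.card (centralizer ({y} : Set G)) = 6) :
    orderOf (y ^ 2) = 3 ∧ 2 ∣ Nat.card (centralizer ({y ^ 2} : Set G)) ∧
      ¬ 4 ∣ Nat.card (centralizer ({y ^ 2} : Set G)) := by
  have hy : y ∈ centralizer ({y ^ 2} : Set G) := mem_centralizer_singleton_iff.2 (by group)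
  have h6 : y ^ 6 = 1 := ho ▸ pow_orderOf_eq_one y
  refine ⟨by rw [orderOf_pow' _ (by norm_num), ho]; rfl, ?_, fun h4 => ?_⟩
  · exact (show 2 ∣ 6 by norm_num).trans (ho ▸ orderOf_dvd_natCard _ hy)
  · have ht : orderOf (⟨y ^ 3, pow_mem hy 3⟩ : centralizer ({y ^ 2} : Set G)) = 2 := by
      rw [orderOf_mk, orderOf_pow' _ (by norm_num), ho]; rfl
    have h := four_dvd h4 ht
    rw [← card_map_of_injective (centralizer ({y ^ 2} : Set G)).subtype_injective] at h
    have hle : (centralizer ({(⟨y ^ 3, pow_mem hy 3⟩ : centralizer ({y ^ 2} : Set G))} : Set _)).map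
        (centralizer ({y ^ 2} : Set G)).subtype ≤ centralizer ({y} : Set G) := by
      rintro _ ⟨a, ha, rfl⟩
      have h3 : (a : G) * y ^ 3 = y ^ 3 * a :=
        congrArg Subtype.val (mem_centralizer_singleton_iff.1 ha)
      have h2 : (a : G) * y ^ 2 = y ^ 2 * a := mem_centralizer_singleton_iff.1 a.2
      refine mem_centralizer_singleton_iff.2 ?_
      have c : Commute (a : G) (y ^ 3 * (y ^ 2)⁻¹) := Commute.mul_right h3 (Commute.inv_right h2)
      have e : y ^ 3 * (y ^ 2)⁻¹ = y := by group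
      rw [e] at c; exact c
    have := h.trans (card_dvd_of_le hle)
    rw [hc] at this; omega

theorem six_inj {x y : G} (hx : orderOf x = 6) (hy : orderOf y = 6)
    (hc : Nat.card (centralizer ({y} : Set G)) = 6) (h : IsConj (x ^ 2) (y ^ 2)) : IsConj x y := by
  obtain ⟨g, hg⟩ := isConj_iff.1 h
  refine (isConj_iff.2 ⟨g, rfl⟩ : IsConj x (g * x * g⁻¹)).trans ?_
  have hx' : orderOf (g * x * g⁻¹) = 6 := hx ▸ (MulAut.conj g).orderOf_eq x
  have hsq : (g * x * g⁻¹) ^ 2 = y ^ 2 := by rw [conj_pow, hg]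
  generalize g * x * g⁻¹ = x at hx' hsq
  have hym : y ∈ centralizer ({y ^ 2} : Set G) := mem_centralizer_singleton_iff.2 (by group)
  have hxm : x ∈ centralizer ({y ^ 2} : Set G) := by
    rw [← hsq]; exact mem_centralizer_singleton_iff.2 (by group)
  obtain ⟨h, hh⟩ := conj_of_not_four (six_data hy hc).2.2
    (s := ⟨x ^ 3, pow_mem hxm 3⟩) (t := ⟨y ^ 3, pow_mem hym 3⟩)
    (by rw [orderOf_mk, orderOf_pow' _ (by norm_num), hx']; rfl)
    (by rw [orderOf_mk, orderOf_pow' _ (by norm_num), hy]; rfl)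
  have h3 : (h : G) * x ^ 3 * (h : G)⁻¹ = y ^ 3 := congrArg Subtype.val hh
  have h2 : (h : G) * y ^ 2 = y ^ 2 * h := mem_centralizer_singleton_iff.1 h.2
  refine isConj_iff.2 ⟨h, ?_⟩
  calc (h : G) * x * (h : G)⁻¹ = (h * x ^ 3 * (h : G)⁻¹) * (h * x ^ 2 * (h : G)⁻¹)⁻¹ := by group
    _ = y := by rw [h3, hsq, h2]; group

open Finset in
theorem count_ord [Fintype G] [Fintype (ConjClasses G)] (n : ℕ) :
    ∑ i ∈ univ.filter (fun i : ConjClasses G => co i = n), Nat.card G / cc i =
      #{g : G | orderOf g = n} := by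
  rw [sum_cc (fun i : ConjClasses G => co i = n), Nat.card_eq_fintype_card, Fintype.card_subtype]
  simp only [co_mk]

open Finset in
theorem bf [Fintype G] [Fintype (ConjClasses G)] :
    #{g : G | orderOf g = 2} * #{g : G | orderOf g = 2} ≤
      #{g : G | orderOf g = 2} + (Fintype.card (ConjClasses G) - 1) * Nat.card G := by
  classical
  set I : Finset G := univ.filter (fun g : G => orderOf g = 2) with hI
  have hsq : ∀ u ∈ I, u * u = 1 := fun u hu => by
    rw [← pow_two, ← (mem_filter.1 hu).2]; exact pow_orderOf_eq_one u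
  let b : G → G := fun x => if h : ∃ u : G, u * x * u⁻¹ = x⁻¹ then h.choose else 1
  have hb : ∀ x u : G, u * x * u⁻¹ = x⁻¹ → b x * x * (b x)⁻¹ = x⁻¹ := fun x u hu => by
    have h : ∃ u : G, u * x * u⁻¹ = x⁻¹ := ⟨u, hu⟩
    simp only [b, dif_pos h]; exact h.choose_spec
  set P : Finset (G × G) := univ.filter (fun p : G × G => Commute p.1 p.2) with hP
  have hPc : #P = Fintype.card (ConjClasses G) * Nat.card G := by
    rw [← Nat.card_eq_fintype_card, ← card_comm_eq_card_conjClasses_mul_card,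
      Nat.card_eq_fintype_card, Fintype.card_subtype]
  have h1 : #(P.filter (fun p => p.1 = 1)) = Nat.card G := by
    rw [Nat.card_eq_fintype_card, ← card_univ]
    refine card_bij (fun p _ => p.2) (fun _ _ => mem_univ _) (fun p hp q hq h => ?_)
      (fun g _ => ⟨(1, g), by simp [hP], rfl⟩)
    exact Prod.ext ((mem_filter.1 hp).2.trans (mem_filter.1 hq).2.symm) h
  have h2 := card_filter_add_card_filter_not (s := P) (fun p => p.1 = 1)
  have h3 : #I.offDiag ≤ #(P.filter (fun p => ¬ p.1 = 1)) := by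
    refine card_le_card_of_injOn (fun p => (p.1 * p.2, (b (p.1 * p.2))⁻¹ * p.1)) (fun p hp => ?_)
      (fun p _ q _ h => ?_)
    · obtain ⟨hu, hv, huv⟩ := mem_offDiag.1 (mem_coe.1 hp)
      have iu : p.1⁻¹ = p.1 := inv_eq_of_mul_eq_one_right (hsq _ hu)
      have iv : p.2⁻¹ = p.2 := inv_eq_of_mul_eq_one_right (hsq _ hv)
      have hinv : p.1 * (p.1 * p.2) * p.1⁻¹ = (p.1 * p.2)⁻¹ := by
        rw [← mul_assoc, hsq _ hu, one_mul, mul_inv_rev, iv]
      have hb' := hb _ _ hinv
      refine mem_coe.2 (mem_filter.2 ⟨mem_filter.2 ⟨mem_univ _, ?_⟩, fun h => huv ?_⟩)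
      · show (p.1 * p.2) * ((b (p.1 * p.2))⁻¹ * p.1) = ((b (p.1 * p.2))⁻¹ * p.1) * (p.1 * p.2)
        generalize p.1 * p.2 = x at hinv hb' ⊢
        generalize b x = c at hb' ⊢
        have e1 : x = c⁻¹ * x⁻¹ * c := by rw [← hb']; group
        have e2 : p.1 * x = x⁻¹ * p.1 := by rw [← hinv]; group
        calc x * (c⁻¹ * p.1) = (c⁻¹ * x⁻¹ * c) * (c⁻¹ * p.1) := by rw [← e1]
          _ = c⁻¹ * (x⁻¹ * p.1) := by group
          _ = c⁻¹ * p.1 * x := by rw [← e2]; group
      · rw [← iv]; exact eq_inv_of_mul_eq_one_left h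
    · have e1 : p.1 * p.2 = q.1 * q.2 := congrArg Prod.fst h
      have e2 : (b (p.1 * p.2))⁻¹ * p.1 = (b (q.1 * q.2))⁻¹ * q.1 := congrArg Prod.snd h
      rw [e1] at e2
      have e3 : p.1 = q.1 := mul_left_cancel e2
      rw [e3] at e1
      exact Prod.ext e3 (mul_left_cancel e1)
  rw [offDiag_card] at h3
  have hk : 1 ≤ Fintype.card (ConjClasses G) := Fintype.card_pos_iff.2 ⟨1⟩
  obtain ⟨k, hk⟩ := Nat.exists_eq_add_of_le hk
  rw [hk] at hPc ⊢
  rw [h1, hPc] at h2
  have : (1 + k - 1) * Nat.card G = k * Nat.card G := by congr 1; omega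
  rw [this]
  have e : (1 + k) * Nat.card G = Nat.card G + k * Nat.card G := by ring
  omega

open Finset in
theorem lb [Fintype G] {p : ℕ} (hp2 : p ≠ 2) (hp : p.Prime)
    (hinv : ∀ x : G, orderOf x = p → ∃ t : G, t * t = 1 ∧ t * x * t⁻¹ = x⁻¹) :
    #{g : G | orderOf g = p} * p ≤ #{g : G | orderOf g = 2} * #{g : G | orderOf g = 2} := by
  classical
  let b : G → G := fun x => if h : orderOf x = p then (hinv x h).choose else 1
  have hb : ∀ x, orderOf x = p → b x * b x = 1 ∧ b x * x * (b x)⁻¹ = x⁻¹ := fun x h => by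
    simp only [b, dif_pos h]; exact (hinv x h).choose_spec
  have ho : ∀ x, orderOf x = p → ∀ i : ℕ, orderOf (b x * x ^ i) = 2 := by
    intro x hx i
    obtain ⟨h1, h2⟩ := hb x hx
    generalize b x = t at h1 h2
    refine orderOf_eq_prime ?_ fun h => ?_
    · have h3 : t * x ^ i * t⁻¹ = (x ^ i)⁻¹ := by rw [← conj_pow, h2, inv_pow]
      have ht : t⁻¹ = t := inv_eq_of_mul_eq_one_right h1
      calc (t * x ^ i) ^ 2 = t * x ^ i * t⁻¹ * x ^ i := by rw [ht, pow_two]; group
        _ = 1 := by rw [h3]; group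
    · have ht : t = (x ^ i)⁻¹ := eq_inv_of_mul_eq_one_left h
      have h4 : x ^ 2 = 1 := by
        have : x = x⁻¹ := by rw [← h2, ht]; group
        rw [pow_two]; nth_rewrite 1 [this]; group
      have := orderOf_dvd_of_pow_eq_one h4
      rw [hx] at this
      exact hp2 ((Nat.prime_dvd_prime_iff_eq hp Nat.prime_two).1 this)
  have hr : #{g : G | orderOf g = p} * p = #(({g : G | orderOf g = p} : Finset G) ×ˢ range p) := by
    rw [card_product, card_range]
  rw [hr, ← card_product]
  have hprod : ∀ x, orderOf x = p → ∀ i : ℕ, b x * x ^ i * (b x * x ^ (i + 1)) = x := by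
    intro x hx i
    have h := ho x hx i
    have h2 : (b x * x ^ i) * (b x * x ^ i) = 1 := by rw [← pow_two, ← h]; exact pow_orderOf_eq_one _
    calc _ = (b x * x ^ i) * (b x * x ^ i) * x := by group
      _ = x := by rw [h2, one_mul]
  refine card_le_card_of_injOn (fun q => (b q.1 * q.1 ^ q.2, b q.1 * q.1 ^ (q.2 + 1)))
    (fun q hq => ?_) (fun q hq r hr h => ?_)
  · have hx := (mem_filter.1 (mem_product.1 (mem_coe.1 hq)).1).2
    exact mem_coe.2 (mem_product.2 ⟨mem_filter.2 ⟨mem_univ _, ho _ hx _⟩,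
      mem_filter.2 ⟨mem_univ _, ho _ hx _⟩⟩)
  · obtain ⟨hq1, hq2⟩ := mem_product.1 (mem_coe.1 hq)
    obtain ⟨hr1, hr2⟩ := mem_product.1 (mem_coe.1 hr)
    have hx := (mem_filter.1 hq1).2
    have hy := (mem_filter.1 hr1).2
    have e1 : b q.1 * q.1 ^ q.2 = b r.1 * r.1 ^ r.2 := congrArg Prod.fst h
    have e2 : b q.1 * q.1 ^ (q.2 + 1) = b r.1 * r.1 ^ (r.2 + 1) := congrArg Prod.snd h
    have e3 : q.1 = r.1 := by rw [← hprod _ hx q.2, ← hprod _ hy r.2, e1, e2]
    refine Prod.ext e3 ?_
    rw [e3] at e1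
    exact pow_injOn_Iio_orderOf (by rw [hy]; exact mem_range.1 hq2)
      (by rw [hy]; exact mem_range.1 hr2) (mul_left_cancel e1)

theorem card_cent {p : ℕ} (hp : p.Prime) (hN : ¬ p * p ∣ Nat.card G)
    (hall : ∀ g : G, p ∣ orderOf g → orderOf g = p) {x : G} (hx : orderOf x = p) :
    Nat.card (centralizer ({x} : Set G)) = p := by
  have hxm : x ∈ centralizer ({x} : Set G) := mem_centralizer_singleton_iff.2 rfl
  obtain ⟨m, hm⟩ : p ∣ Nat.card (centralizer ({x} : Set G)) := hx ▸ orderOf_dvd_natCard _ hxm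
  by_cases h1 : m = 1
  · rw [hm, h1, mul_one]
  exfalso
  obtain ⟨q, hq, hqm⟩ := Nat.exists_prime_and_dvd h1
  by_cases hqp : q = p
  · exact hN (((Nat.mul_dvd_mul_left p (hqp ▸ hqm)).trans (dvd_of_eq hm.symm)).trans
      (card_subgroup_dvd_card _))
  have := Fact.mk hq
  obtain ⟨y, hy⟩ := exists_prime_orderOf_dvd_card' (G := centralizer ({x} : Set G)) q
    (hm ▸ hqm.mul_left p)
  have hc : Commute (y : G) x := mem_centralizer_singleton_iff.1 y.2
  have hy' : orderOf (y : G) = q := by rw [orderOf_coe, hy]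
  have h := hc.orderOf_mul_eq_mul_orderOf_of_coprime (by
    rw [hy', hx]; exact (Nat.coprime_primes hq hp).2 hqp)
  rw [hy', hx] at h
  have h2 := hall _ (h ▸ dvd_mul_left p q)
  rw [h] at h2
  exact hq.one_lt.ne' (Nat.eq_of_mul_eq_mul_right hp.pos (by rw [h2, one_mul]))

theorem exists_inv {p : ℕ} (hp : p.Prime) (hp2 : p ≠ 2) {x : G} (hx : orderOf x = p)
    (hc : Nat.card (centralizer ({x} : Set G)) = p)
    (hN : 2 ∣ Nat.card (normalizer (zpowers x : Set G))) :
    ∃ t : G, t * t = 1 ∧ t * x * t⁻¹ = x⁻¹ := by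
  obtain ⟨t, ht⟩ := exists_prime_orderOf_dvd_card' (G := normalizer (zpowers x : Set G)) 2 hN
  have ht' : orderOf (t : G) = 2 := by rw [orderOf_coe, ht]
  have htt : (t : G) * t = 1 := by rw [← pow_two, ← ht']; exact pow_orderOf_eq_one _
  refine ⟨t, htt, ?_⟩
  have hm : (t : G) * x * (t : G)⁻¹ ∈ zpowers x := (mem_normalizer_iff.1 t.2 x).1 (mem_zpowers x)
  -- `w = x * x ^ t` is centralized by `t`
  set y := (t : G) * x * (t : G)⁻¹ with hy
  have hcomm : x * y = y * x := by
    obtain ⟨i, hi⟩ := mem_zpowers_iff.1 hm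
    rw [← hi]; group
  by_contra hne
  have hw1 : x * y ≠ 1 := fun h => hne (eq_inv_of_mul_eq_one_right h)
  have hwm : x * y ∈ zpowers x := mul_mem (mem_zpowers x) hm
  have := Fact.mk hp
  have hwo : orderOf (x * y) = p := by
    refine orderOf_eq_prime ?_ hw1
    rw [← orderOf_dvd_iff_pow_eq_one, ← hx]; exact orderOf_dvd_of_mem_zpowers hwm
  have hxw : x ∈ zpowers (x * y) := by
    have : zpowers (x * y) = zpowers x :=
      eq_of_le_of_card_ge (zpowers_le.2 hwm) (by rw [Nat.card_zpowers, Nat.card_zpowers, hx, hwo])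
    rw [this]; exact mem_zpowers x
  have ti : (t : G)⁻¹ = t := inv_eq_of_mul_eq_one_right htt
  have hct : Commute (t : G) (x * y) := by
    have h1 : (t : G) * y * (t : G)⁻¹ = x := by
      rw [hy]
      calc _ = ((t : G) * t) * x * ((t : G) * t)⁻¹ := by group
        _ = x := by rw [htt]; group
    have h2 : (t : G) * (x * y) * (t : G)⁻¹ = x * y := by
      calc _ = ((t : G) * x * (t : G)⁻¹) * ((t : G) * y * (t : G)⁻¹) := by group
        _ = x * y := by rw [h1, ← hy, hcomm]
    show (t : G) * (x * y) = (x * y) * t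
    rw [← h2]; nth_rewrite 1 [h2]; rw [← h2]; group
  have hcx : (t : G) ∈ centralizer ({x} : Set G) := by
    obtain ⟨i, hi⟩ := mem_zpowers_iff.1 hxw
    have := hct.zpow_right i
    rw [hi] at this
    exact mem_centralizer_singleton_iff.2 this
  have h2 := orderOf_dvd_natCard _ hcx
  rw [ht', hc] at h2
  exact hp2 ((Nat.prime_dvd_prime_iff_eq Nat.prime_two hp).1 h2).symm

open Finset in
theorem a3 : A3Stmt.{u} := by
  intro G _ _ _
  classical
  have := Fintype.ofFinite G
  have htot : tot (Nat.card G) (co (G := G)) cc = #{g : G | orderOf g = 2} := count_ord 2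
  refine ⟨?_, ?_, ?_, ?_⟩
  · refine card_le_card_of_injOn (fun i => ConjClasses.mk ((Quotient.out i : G) ^ 2))
      (fun i hi => ?_) (fun i hi j hj h => ?_)
    · obtain ⟨h1, h2⟩ := (mem_filter.1 (mem_coe.1 hi)).2
      refine mem_coe.2 (mem_filter.2 ⟨mem_univ _, ?_⟩)
      rw [co_mk, cc_mk]
      exact six_data h1 h2
    · obtain ⟨h1, -⟩ := (mem_filter.1 (mem_coe.1 hi)).2
      obtain ⟨h3, h4⟩ := (mem_filter.1 (mem_coe.1 hj)).2
      have := ConjClasses.mk_eq_mk_iff_isConj.2
        (six_inj h1 h3 h4 (ConjClasses.mk_eq_mk_iff_isConj.1 h))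
      exact (Quotient.out_eq i).symm.trans (this.trans (Quotient.out_eq j))
  · rw [htot]; exact bf
  · intro p e hp hp2 hN hs hm he
    rw [htot]
    have hF : (univ.filter fun i : ConjClasses G => co i = p) =
        univ.filter fun i : ConjClasses G => p ∣ co i := by
      refine eq_of_subset_of_card_le (fun i hi => ?_) (le_of_eq hs)
      exact mem_filter.2 ⟨mem_univ _, (mem_filter.1 hi).2 ▸ dvd_rfl⟩
    have hall : ∀ g : G, p ∣ orderOf g → orderOf g = p := fun g hg => by
      have h1 : ConjClasses.mk g ∈ univ.filter fun i : ConjClasses G => p ∣ co i :=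
        mem_filter.2 ⟨mem_univ _, by rw [co_mk]; exact hg⟩
      rw [← hF] at h1
      rw [← co_mk]; exact (mem_filter.1 h1).2
    have hcnt : #{g : G | orderOf g = p} * p = mC (co (G := G)) p * Nat.card G := by
      rw [← count_ord, sum_mul, mC, card_eq_sum_ones, sum_mul]
      refine sum_congr rfl fun i hi => ?_
      have hc : cc i = p := card_cent hp hN hall (mem_filter.1 hi).2
      rw [one_mul, ← hc]
      exact Nat.div_mul_cancel (card_subgroup_dvd_card _)
    rw [← hcnt]
    refine lb hp2 hp fun x hx => exists_inv hp hp2 hx (card_cent hp hN hall hx) ?_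
    have := Fact.mk hp
    have hpg : IsPGroup p (zpowers x) :=
      IsPGroup.of_card (n := 1) (by rw [Nat.card_zpowers, hx, pow_one])
    obtain ⟨P, hP⟩ := hpg.exists_le_sylow
    obtain ⟨k, hk⟩ := IsPGroup.iff_card.1 P.isPGroup'
    have hk1 : k ≤ 1 := by
      by_contra h
      exact hN ((by rw [← pow_two, hk]; exact pow_dvd_pow p (by omega) :
        p * p ∣ Nat.card (P : Subgroup G)).trans (card_subgroup_dvd_card _))
    have hPe : zpowers x = (P : Subgroup G) := by
      refine eq_of_le_of_card_ge hP ?_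
      rw [Nat.card_zpowers, hx, hk]
      calc p ^ k ≤ p ^ 1 := Nat.pow_le_pow_right hp.pos hk1
        _ = p := pow_one p
    have hPc : Nat.card (P : Subgroup G) = p := by rw [← hPe, Nat.card_zpowers, hx]
    have h1 := H58.ncard_orderOf_eq_prime P hPc
    have h2 : {y : G | orderOf y = p}.ncard = #{g : G | orderOf g = p} := by
      rw [← Set.ncard_coe_finset]; congr 1; ext; simp
    have h0 : Nat.card (Sylow p G) = (normalizer ((P : Subgroup G) : Set G)).index :=
      P.card_eq_index_normalizer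
    rw [h2, h0] at h1
    have h3 := (normalizer ((P : Subgroup G) : Set G)).card_mul_index
    rw [hPe]
    have hi : 0 < (normalizer ((P : Subgroup G) : Set G)).index := Nat.pos_of_ne_zero index_ne_zero_of_finite
    have hp1 : p - 1 = mC (co (G := G)) p * e := by omega
    have hm0 : 0 < mC (co (G := G)) p := Nat.pos_of_ne_zero fun h => by
      rw [h] at hm; exact hp.one_lt.ne (by omega)
    rw [h1, hp1, ← h3] at hcnt
    have h4 : Nat.card (normalizer ((P : Subgroup G) : Set G)) = e * p := by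
      refine Nat.eq_of_mul_eq_mul_left (Nat.mul_pos hm0 hi) ?_
      calc _ = mC (co (G := G)) p * (Nat.card (normalizer ((P : Subgroup G) : Set G)) *
          (normalizer ((P : Subgroup G) : Set G)).index) := by ring
        _ = _ := by rw [← hcnt]; ring
    rw [h4]
    exact he.two_dvd.mul_right p
  · intro h4 i hi
    have hx : orderOf (Quotient.out i : G) = 2 := hi
    rw [cc]
    generalize (Quotient.out i : G) = x at hx
    have hp : IsPGroup 2 (zpowers x) :=
      IsPGroup.of_card (n := 1) (by rw [Nat.card_zpowers, hx]; rfl)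
    obtain ⟨S, hS⟩ := hp.exists_le_sylow
    have hsq : ∀ s ∈ (S : Subgroup G), s * s = 1 := by
      intro s hs
      obtain ⟨k, hk⟩ := IsPGroup.iff_orderOf.1 S.isPGroup' ⟨s, hs⟩
      rw [orderOf_mk] at hk
      have hk1 : k ≤ 1 := by
        by_contra h
        apply h4 (ConjClasses.mk (s ^ 2 ^ (k - 2)))
        rw [co_mk, orderOf_pow' _ (by positivity), hk,
          Nat.gcd_eq_right (pow_dvd_pow 2 (by omega)), Nat.pow_div (by omega) (by norm_num),
          show k - (k - 2) = 2 by omega]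
      rw [← pow_two, ← orderOf_dvd_iff_pow_eq_one, hk]
      exact (pow_dvd_pow 2 hk1).trans (by norm_num)
    have hle : (S : Subgroup G) ≤ centralizer ({x} : Set G) := by
      intro s hs
      have hxS := hS (mem_zpowers x)
      rw [mem_centralizer_singleton_iff]
      have h1 := hsq _ (mul_mem hs hxS)
      calc s * x = (s * x)⁻¹ := (inv_eq_of_mul_eq_one_right h1).symm
        _ = x * s := by
          rw [mul_inv_rev, inv_eq_of_mul_eq_one_right (hsq _ hs),
            inv_eq_of_mul_eq_one_right (hsq _ hxS)]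
    rw [← (centralizer ({x} : Set G)).card_mul_index, Nat.mul_div_cancel_left _ Nat.card_pos]
    exact fun h => S.not_dvd_index (h.trans (index_dvd_of_le hle))

end Cfsg.Agent.H56.KcA3
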