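import Mathlib
import Cfsg.Agent.H4.CoprimeAction

/-! The relative norm map of a group acting on an abelian group. -/

set_option autoImplicit false

namespace Cfsg.Agent.H56

open Subgroup

/-- Relative norm (trace) from a subgroup `S` of finite index. -/
theorem exists_norm_map {N A : Type*} [Group N] [Finite N] [CommGroup A] (φ : N →* MulAut A)
    (S : Subgroup N) : ∃ τ : A →* A, (∀ z, (∀ s ∈ S, φ s z = z) → ∀ n, φ n (τ z) = τ z) ∧
      ∀ z, (∀ n, φ n z = z) → τ z = z ^ S.index := by
  classical
  have : Fintype (N ⧸ S) := Fintype.ofFinite _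
  refine ⟨∏ q : N ⧸ S, (φ q.out).toMonoidHom, ?_, ?_⟩
  · intro z hz n
    rw [MonoidHom.finsetProd_apply, map_prod]
    refine Fintype.prod_equiv (MulAction.toPerm n) _ _ fun q => ?_
    simp only [MulEquiv.coe_toMonoidHom, MulAction.toPerm_apply]
    have h1 : ((n * q.out : N) : N ⧸ S) = ((n • q).out : N) := by
      rw [QuotientGroup.out_eq', ← smul_eq_mul, ← MulAction.Quotient.smul_coe, QuotientGroup.out_eq']
    have h2 := QuotientGroup.eq.1 h1
    have h3 : (n • q).out = n * q.out * ((n * q.out)⁻¹ * (n • q).out) := by group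
    rw [h3, map_mul, map_mul, MulAut.mul_apply, MulAut.mul_apply, hz _ h2]
  · intro z hz
    rw [MonoidHom.finsetProd_apply]
    simp only [MulEquiv.coe_toMonoidHom, hz, Finset.prod_const, Finset.card_univ]
    rw [Subgroup.index, Nat.card_eq_fintype_card]

/-- The norm map inside a group: `N` normalizes the abelian subgroup `A`, `S ≤ N`. -/
theorem exists_norm_map_sub {G : Type*} [Group G] [Finite G] {N A : Subgroup G} (S : Subgroup G)
    [IsMulCommutative A] (hN : N ≤ normalizer (A : Set G)) :
    ∃ τ : A →* A, (∀ z : A, (z : G) ∈ centralizer (S : Set G) → (τ z : G) ∈ centralizer (N : Set G)) ∧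
      ∀ z : A, (z : G) ∈ centralizer (N : Set G) → τ z = z ^ S.relIndex N := by
  open scoped IsMulCommutative in
  obtain ⟨τ, h1, h2⟩ := exists_norm_map (A := A) (A.normalizerMonoidHom.comp (inclusion hN))
    (S.subgroupOf N)
  have key : ∀ (n : N) (z : A), ((A.normalizerMonoidHom.comp (inclusion hN)) n z : G) =
      n * z * (n : G)⁻¹ := fun n z => rfl
  refine ⟨τ, fun z hz n hn => ?_, fun z hz => h2 z fun n => Subtype.ext ?_⟩
  · have := congrArg Subtype.val (h1 z (fun s hs => Subtype.ext (by
      rw [key, hz s hs]; group)) ⟨n, hn⟩)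
    rw [key] at this
    exact mul_inv_eq_iff_eq_mul.1 this
  · rw [key, hz n n.2]; group

end Cfsg.Agent.H56
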