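import Mathlib
import Cfsg.Agent.H54.O84Defs
import Cfsg.Agent.H30.OrthForms

/-! The sum of four norm forms over the field with four elements is of plus type. -/

set_option autoImplicit false

namespace Cfsg.Agent.H56.O84X0

open Cfsg.Agent.H54.O84

universe u

variable {F : Type u} [Field F] (o : F)

/-- The change of coordinates. -/
def fw (y : UV F o) : Fin 4 ⊕ Fin 4 → F :=
  Sum.elim ![(y 0).re + (y 1).re, (y 0).im + (y 1).im, (y 2).re + (y 3).re, (y 2).im + (y 3).im]
    ![(y 0).re + (y 1).re + ((y 0).im + (y 1).im) + (y 0).im, o * ((y 0).im + (y 1).im) + (y 0).re,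
      (y 2).re + (y 3).re + ((y 2).im + (y 3).im) + (y 2).im, o * ((y 2).im + (y 3).im) + (y 2).re]

/-- The inverse change of coordinates. -/
def bw (v : Fin 4 ⊕ Fin 4 → F) : UV F o :=
  ![⟨v (.inr 1) - o * v (.inl 1), v (.inr 0) - v (.inl 0) - v (.inl 1)⟩,
    ⟨v (.inl 0) - (v (.inr 1) - o * v (.inl 1)), v (.inl 1) - (v (.inr 0) - v (.inl 0) - v (.inl 1))⟩,
    ⟨v (.inr 3) - o * v (.inl 3), v (.inr 2) - v (.inl 2) - v (.inl 3)⟩,
    ⟨v (.inl 2) - (v (.inr 3) - o * v (.inl 3)), v (.inl 3) - (v (.inr 2) - v (.inl 2) - v (.inl 3))⟩]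

/-- The change of coordinates as a linear equivalence. -/
def eqv : UV F o ≃ₗ[F] (Fin 4 ⊕ Fin 4 → F) where
  toFun := fw o
  invFun := bw o
  map_add' y y' := by
    funext j
    rcases j with j | j <;> fin_cases j <;> simp [fw] <;> ring
  map_smul' c y := by
    funext j
    rcases j with j | j <;> fin_cases j <;> simp [fw] <;> ring
  left_inv y := by
    funext j
    fin_cases j <;> ext <;> simp [fw, bw] <;> ring
  right_inv v := by
    funext j
    rcases j with j | j <;> fin_cases j <;> simp [fw, bw]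

theorem iso (h2 : (2 : F) = 0) : Nonempty ((Qn F o).IsometryEquiv (H30.qPlus F 4)) :=
  ⟨{ eqv o with
    map_app' := fun y => by
      show H30.qPlus F 4 (fw o y) = _
      rw [H30.qPlus_apply, Qn_apply]
      simp only [Fin.sum_univ_four, QuadraticAlgebra.norm_def, fw, Sum.elim_inl, Sum.elim_inr,
        Matrix.cons_val_zero, Matrix.cons_val_one, Matrix.cons_val]
      linear_combination ((y 0).re * (y 1).re + (y 0).re * (y 0).im + (y 0).re * (y 1).im +
        (y 1).re * (y 0).im + o * ((y 0).im ^ 2 + (y 0).im * (y 1).im + (y 1).im ^ 2) +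
        ((y 2).re * (y 3).re + (y 2).re * (y 2).im + (y 2).re * (y 3).im +
        (y 3).re * (y 2).im + o * ((y 2).im ^ 2 + (y 2).im * (y 3).im + (y 3).im ^ 2))) * h2 }⟩

theorem x0 : X0Stmt.{u} := by
  intro F _ _ o hF _
  have h2 : (2 : F) = 0 := by
    have h4 : ((Fintype.card F : ℕ) : F) = 0 := Nat.cast_card_eq_zero F
    rw [hF] at h4
    have : (2 : F) * 2 = 0 := by rw [← h4]; norm_num
    exact mul_self_eq_zero.1 this
  obtain ⟨e⟩ := iso o h2
  exact ⟨H30.nondegenerate_congr e.symm (H30.qPlus_nondegenerate 4),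
    H30.not_isExc_of_card (Or.inl (by omega)), ⟨e⟩⟩

end Cfsg.Agent.H56.O84X0
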