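import Mathlib
import Cfsg.Agent.H56.Control

/-!
A conjugacy functor together with a central functor (Alperin--Gorenstein).
-/

set_option autoImplicit false

namespace Cfsg.Agent.H56

open Subgroup Cfsg.Agent.H85

variable {G : Type*} [Group G] {p : ℕ}

theorem take_succ_prod {n : ℕ} (b : Fin n → G) (i : Fin n) :
    ((List.ofFn b).take (i + 1)).prod = ((List.ofFn b).take i).prod * b i :=
  Fin.partialProd_succ b i

theorem reach_closure_iff_prod {R : Set G} (hR : ∀ x ∈ R, x⁻¹ ∈ R) {Q : Subgroup G} {X : Set G}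
    (hX : X ⊆ Q) {a : G} :
    Reach R Q (closure X) a⁻¹ ↔ ∃ c ∈ centralizer X, ∃ (n : ℕ) (b : Fin n → G), (∀ i, b i ∈ R) ∧
      a = c * (List.ofFn b).prod ∧ ∀ k : ℕ, k ≤ n →
        (fun x => (((List.ofFn b).take k).prod)⁻¹ * x * ((List.ofFn b).take k).prod) ''
          ((fun x => c⁻¹ * x * c) '' X) ⊆ Q := by
  have him : ∀ c ∈ centralizer X, (fun x => c⁻¹ * x * c) '' X = X := by
    intro c hc
    conv_rhs => rw [← Set.image_id X]
    refine Set.image_congr fun x hx => ?_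
    rw [mul_assoc, mem_centralizer_iff.1 hc x hx]; simp
  have hcj : ∀ g : G, cj g⁻¹ (closure X) ≤ Q ↔ (fun x => g⁻¹ * x * g) '' X ⊆ Q := by
    intro g; rw [cj_closure_le_iff, inv_inv]
  constructor
  · rintro ⟨d, hd1, hd2⟩
    rw [centralizer_closure] at hd2
    have hc : a * d ∈ centralizer X := by simpa using (centralizer X).inv_mem hd2
    have h1 := rtg_lift (s := fun c d => (fun c x => x ∈ R ∧ cj (c * x)⁻¹ (closure X) ≤ Q)
      c (c⁻¹ * d)) (fun x => x⁻¹) (fun x y h => ⟨by simpa using hR _ h.1, by simpa using h.2.2⟩) hd1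
    rw [inv_one, reflTransGen_iff_prod (fun c x => x ∈ R ∧ cj (c * x)⁻¹ (closure X) ≤ Q)] at h1
    obtain ⟨n, b, h2, h3⟩ := h1
    refine ⟨a * d, hc, n, b, fun i => (h3 i).1, by rw [h2]; group, fun k hk => ?_⟩
    rw [him _ hc]
    rcases k with _ | k
    · simpa using hX
    · have := (h3 ⟨k, hk⟩).2
      rwa [← take_succ_prod, hcj] at this
  · rintro ⟨c, hc, n, b, h1, rfl, h2⟩
    rw [him _ hc] at h2
    refine ⟨((List.ofFn b).prod)⁻¹, ?_, by
      rw [centralizer_closure]; simpa using (centralizer X).inv_mem hc⟩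
    have h3 := (reflTransGen_iff_prod (fun c x => x ∈ R ∧ cj c⁻¹ (closure X) ≤ Q ∧
      cj (c * x)⁻¹ (closure X) ≤ Q) _).2 ⟨n, b, rfl, fun i => ⟨h1 i, (hcj _).2 (h2 i i.2.le), by
        rw [← take_succ_prod]; exact (hcj _).2 (h2 (i + 1) i.2)⟩⟩
    have h4 := rtg_lift (s := fun c d => d * c⁻¹ ∈ R ∧ cj c (closure X) ≤ Q ∧ cj d (closure X) ≤ Q)
      (fun x => x⁻¹) (fun x y h => ⟨by simpa using hR _ h.1, h.2.1, by simpa using h.2.2⟩) h3
    rwa [inv_one] at h4

/-- abstract local-to-global theorem for a pair (conjugacy functor, central functor) -/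
theorem local_to_global_pair [Fact p.Prime] [Finite G] {Good : Subgroup G → G → Prop}
    (hG : IsGood Good) (hcent : ∀ (A : Subgroup G), ∀ c ∈ centralizer (A : Set G), Good A c)
    {S : Subgroup G} (hS : IsSyl p S ⊤) (hS0 : S ≠ ⊥) {W V : Subgroup G → Subgroup G}
    (hW : IsConjugacyFunctor p W)
    (hWZ : ∀ H : Subgroup G, IsPGroup p H → H ⊓ centralizer (H : Set G) ≤ W H)
    (hVmono : ∀ H K : Subgroup G, IsPGroup p H → IsPGroup p K → H ≠ ⊥ → K ≠ ⊥ →
      H ⊓ centralizer (H : Set G) ≤ K ⊓ centralizer (K : Set G) → V H ≤ V K)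
    (hloc : ∀ U ≤ S, S ⊓ centralizer (S : Set G) ≤ U → Extremal p ⊤ S U →
      GoodIn Good (normalizer ((W (S ⊓ normalizer (U : Set G)) : Subgroup G) : Set G))
        (S ⊓ normalizer (U : Set G)) →
      GoodIn Good (centralizer ((V (S ⊓ normalizer (U : Set G)) : Subgroup G) : Set G))
        (S ⊓ normalizer (U : Set G)) →
      GoodIn Good (normalizer (U : Set G)) (S ⊓ normalizer (U : Set G)))
    (htopW : GoodIn Good (normalizer ((W S : Subgroup G) : Set G)) S)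
    (htopV : GoodIn Good (centralizer ((V S : Subgroup G) : Set G)) S) :
    GoodIn Good ⊤ S := by
  have hZ : ∀ U, U ≤ S → S ⊓ centralizer (S : Set G) ≤ U → S ⊓ centralizer (S : Set G) ≤
      (S ⊓ normalizer (U : Set G)) ⊓
        centralizer ((S ⊓ normalizer (U : Set G) : Subgroup G) : Set G) := fun U h1 h2 =>
    le_inf (h2.trans (le_inf h1 le_normalizer)) (inf_le_right.trans (centralizer_le inf_le_left))
  have hZ0 := inf_centralizer_ne_bot hS.isPGroup hS0
  refine local_to_global_wp hG hS hW (fun U => S ⊓ centralizer (S : Set G) ≤ U)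
    (fun U hU h => (hZ U hU.le h).trans (hWZ _ hS.isPGroup.to_inf_left)) (fun U hU h h1 => ?_)
    (by rwa [top_inf_eq]) (fun U hU h ih y hy hyU => ?_)
  · rw [top_inf_eq] at h1 ⊢
    refine hloc U hU.le h hU.extremal (h1.mono le_rfl (le_inf inf_le_left
      (le_normalizer.trans (functor_normalizer hW hS.isPGroup.to_inf_left))))
      (htopV.mono (centralizer_le (hVmono _ _ hS.isPGroup hS.isPGroup.to_inf_left hS0 ?_
        (hZ U hU.le h))) inf_le_left)
    intro h2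
    exact hZ0 (le_bot_iff.1 (h2 ▸ (hZ U hU.le h).trans inf_le_left))
  · exact hG.of_not_centric hcent hS hU.le hU.extremal
      (fun h' => h ((inf_le_inf_left _ (centralizer_le hU.le)).trans h')) ih hy hyU

theorem mem_sup_inf_commutator_iff {S N C : Subgroup G} (hN : S ≤ N) {x : G} :
    x ∈ (S ⊓ ⁅N, N⁆) ⊔ (S ⊓ C) ↔ ∃ a ∈ S ⊓ ⁅N, N⁆, ∃ b ∈ S ⊓ C, x = a * b := by
  rw [mem_sup_of_le_normalizer (inf_le_left.trans (le_normalizer_inf le_normalizer
    (hN.trans (le_normalizer_commutator le_normalizer le_normalizer))))]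
  simp only [eq_comm]

/-- the union `N_H(W Q) ∪ C_H(V Q)` -/
def pairSteps (W V : Subgroup G → Subgroup G) (H Q : Subgroup G) : Set G :=
  {x | x ∈ H ⊓ normalizer ((W Q : Subgroup G) : Set G) ∨
    x ∈ H ⊓ centralizer ((V Q : Subgroup G) : Set G)}

theorem pairSteps_inv {W V : Subgroup G → Subgroup G} {H Q : Subgroup G} :
    ∀ x ∈ pairSteps W V H Q, x⁻¹ ∈ pairSteps W V H Q :=
  fun _ h => h.imp inv_mem inv_mem

theorem GoodIn.reach_cj {R : Set G} {H T : Subgroup G} (h : GoodIn (Reach R T) H T) (g : G) :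
    GoodIn (Reach ((fun x => g * x * g⁻¹) '' R) (cj g T)) (cj g H) (cj g T) := by
  intro A hA y hy hyA
  have h1 := h (H85.cj g⁻¹ A) ((le_cj_iff_cj_inv_le g).1 hA) (g⁻¹ * y * g) (mem_cj.1 hy) (by
    rw [← cj_mul, mul_inv_cancel_right, cj_mul]
    exact (le_cj_iff_cj_inv_le g).1 hyA)
  have h2 := h1.map (MulAut.conj g).toMonoidHom
  change Reach _ (H85.cj g T) (H85.cj g (H85.cj g⁻¹ A)) (g * (g⁻¹ * y * g) * g⁻¹) at h2
  rwa [cj_cj_inv, show g * (g⁻¹ * y * g) * g⁻¹ = y by group] at h2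

theorem pair_fusion [Fact p.Prime] [Finite G] {S : Subgroup G} (hS : IsSyl p S ⊤) (hS0 : S ≠ ⊥)
    {W V : Subgroup G → Subgroup G} (hW : IsConjugacyFunctor p W) (hV : IsConjugacyFunctor p V)
    (hWZ : ∀ H : Subgroup G, IsPGroup p H → H ⊓ centralizer (H : Set G) ≤ W H)
    (hVmono : ∀ H K : Subgroup G, IsPGroup p H → IsPGroup p K → H ≠ ⊥ → K ≠ ⊥ →
      H ⊓ centralizer (H : Set G) ≤ K ⊓ centralizer (K : Set G) → V H ≤ V K)
    (hloc : ∀ U ≤ S, S ⊓ centralizer (S : Set G) ≤ U → ∃ Q, IsSyl p Q (normalizer (U : Set G)) ∧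
      GoodIn (Reach (pairSteps W V (normalizer (U : Set G)) Q) Q) (normalizer (U : Set G)) Q) :
    GoodIn (Reach (pairSteps W V ⊤ S) S) ⊤ S := by
  refine local_to_global_pair (isGood_reach pairSteps_inv S) (fun _ _ => Reach.of_mem_centralizer)
    hS hS0 hW hWZ hVmono (fun U h1 h2 h3 h4 h5 => ?_)
    (fun A hA y hy hyA => Reach.single (Or.inl ⟨trivial, hy⟩) hA hyA)
    (fun A hA y hy hyA => Reach.single (Or.inr ⟨trivial, hy⟩) hA hyA)
  obtain ⟨Q, hQ, h6⟩ := hloc U h1 h2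
  rw [Extremal, top_inf_eq] at h3
  obtain ⟨g, hg, he⟩ := hQ.exists_cj_eq h3
  have h7 := h6.reach_cj g
  rw [he, cj_eq_of_mem hg] at h7
  intro A hA y hy hyA
  refine (h7 A hA y hy hyA).good (isGood_reach pairSteps_inv S)
    (fun _ _ => Reach.of_mem_centralizer) ?_
  rintro B hB _ ⟨x, hx | hx, rfl⟩ hxB
  · refine h4 B hB _ ?_ hxB
    rw [← he, functor_cj hW hQ.isPGroup, ← cj_normalizer]
    exact conj_mem_cj hx.2
  · refine h5 B hB _ ?_ hxB
    rw [← he, functor_cj hV hQ.isPGroup, ← cj_centralizer]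
    exact conj_mem_cj hx.2

theorem pair_transfer [Fact p.Prime] [Finite G] {S : Subgroup G} (hS : IsSyl p S ⊤) (hS0 : S ≠ ⊥)
    {W V : Subgroup G → Subgroup G} (hW : IsConjugacyFunctor p W) (hV : IsConjugacyFunctor p V)
    (hWZ : ∀ H : Subgroup G, IsPGroup p H → H ⊓ centralizer (H : Set G) ≤ W H)
    (hVZ : ∀ H : Subgroup G, IsPGroup p H → V H ≤ H ⊓ centralizer (H : Set G))
    (hVmono : ∀ H K : Subgroup G, IsPGroup p H → IsPGroup p K → H ≠ ⊥ → K ≠ ⊥ →
      H ⊓ centralizer (H : Set G) ≤ K ⊓ centralizer (K : Set G) → V H ≤ V K)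
    (hloc : ∀ U ≤ S, S ⊓ centralizer (S : Set G) ≤ U → ∃ Q, IsSyl p Q (normalizer (U : Set G)) ∧
      Q ⊓ ⁅normalizer (U : Set G), normalizer (U : Set G)⁆ ≤
        (Q ⊓ ⁅normalizer (U : Set G) ⊓ normalizer ((W Q : Subgroup G) : Set G),
          normalizer (U : Set G) ⊓ normalizer ((W Q : Subgroup G) : Set G)⁆) ⊔
        (Q ⊓ ⁅normalizer (U : Set G) ⊓ centralizer ((V Q : Subgroup G) : Set G),
          normalizer (U : Set G) ⊓ centralizer ((V Q : Subgroup G) : Set G)⁆)) :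
    S ⊓ ⁅(⊤ : Subgroup G), ⊤⁆ ≤
      (S ⊓ ⁅normalizer ((W S : Subgroup G) : Set G), normalizer ((W S : Subgroup G) : Set G)⁆) ⊔
      (S ⊓ ⁅centralizer ((V S : Subgroup G) : Set G), centralizer ((V S : Subgroup G) : Set G)⁆) := by
  have hC : ∀ N : Subgroup G, IsPGroup p N → N ≤ centralizer ((V N : Subgroup G) : Set G) :=
    fun N hN => le_centralizer_iff.1 ((hVZ N hN).trans inf_le_right)
  rw [← goodIn_foc_iff hS]
  refine local_to_global_pair (isGood_foc _) (focGood_of_mem_centralizer _)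
    hS hS0 hW hWZ hVmono (fun U h1 h2 h3 h4 h5 => ?_)
    (goodIn_foc_of_le (le_normalizer.trans (functor_normalizer hW hS.isPGroup)) le_sup_left)
    (goodIn_foc_of_le (hC S hS.isPGroup) le_sup_right)
  obtain ⟨Q, hQ, h6⟩ := hloc U h1 h2
  rw [Extremal, top_inf_eq] at h3
  obtain ⟨g, hg, he⟩ := hQ.exists_cj_eq h3
  have h7 := cj_mono g h6
  simp only [cj_inf, cj_sup, cj_commutator, cj_eq_of_mem hg, cj_normalizer g (W Q),
    cj_centralizer g (V Q), ← functor_cj hW hQ.isPGroup, ← functor_cj hV hQ.isPGroup, he] at h7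
  refine goodIn_foc_of_le h3.le (h7.trans (sup_le ?_ ?_))
  · exact (goodIn_foc_iff (h3.of_le (le_inf h3.le (le_normalizer.trans
      (functor_normalizer hW h3.isPGroup))) inf_le_left)).1 (h4.mono inf_le_right le_rfl)
  · exact (goodIn_foc_iff (h3.of_le (le_inf h3.le (hC _ h3.isPGroup)) inf_le_left)).1
      (h5.mono inf_le_right le_rfl)

end Cfsg.Agent.H56
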