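import Cfsg.Agent.H56.R3Kit

/-! Rank 3 groups with a Frobenius point stabiliser, semiregular kernels: the parameters of the
strongly regular graph. -/

set_option autoImplicit false

namespace Cfsg.Agent.H56.R3

open MulAction

universe u v

theorem dc_le {α β : Type*} [Finite α] [Finite β] (S : Set α) (T : Set β) (r : α → β → Prop)
    {m n : ℕ} (hm : ∀ a ∈ S, m ≤ {b | b ∈ T ∧ r a b}.ncard)
    (hn : ∀ b ∈ T, {a | a ∈ S ∧ r a b}.ncard ≤ n) : S.ncard * m ≤ T.ncard * n := by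
  classical
  have := Fintype.ofFinite α
  have := Fintype.ofFinite β
  rw [Set.ncard_eq_toFinset_card' S, Set.ncard_eq_toFinset_card' T]
  refine Finset.card_mul_le_card_mul r (fun a ha => ?_) fun b hb => ?_
  · refine (hm a (by simpa using ha)).trans (le_of_eq ?_)
    rw [Set.ncard_eq_toFinset_card']
    congr 1
    ext b
    simp [Finset.mem_bipartiteAbove]
  · refine (le_of_eq ?_).trans (hn b (by simpa using hb))
    rw [Set.ncard_eq_toFinset_card']
    congr 1
    ext a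
    simp [Finset.mem_bipartiteBelow]

theorem dc {α β : Type*} [Finite α] [Finite β] (S : Set α) (T : Set β) (r : α → β → Prop)
    {m n : ℕ} (hm : ∀ a ∈ S, {b | b ∈ T ∧ r a b}.ncard = m)
    (hn : ∀ b ∈ T, {a | a ∈ S ∧ r a b}.ncard = n) : S.ncard * m = T.ncard * n :=
  le_antisymm (dc_le S T r (fun a ha => (hm a ha).ge) fun b hb => (hn b hb).le)
    (dc_le T S (fun b a => r a b) (fun b hb => (hn b hb).ge) fun a ha => (hm a ha).le)

theorem split {α : Type*} [Finite α] (S : Set α) (p : α → Prop) :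
    S.ncard = {x | x ∈ S ∧ p x}.ncard + {x | x ∈ S ∧ ¬ p x}.ncard := by
  rw [← Set.ncard_union_eq (Set.disjoint_left.2 fun x h1 h2 => h2.2 h1.2)]
  congr 1
  ext x
  by_cases h : p x <;> simp [h]

theorem ncard_eqv {α β : Type*} (e : α ≃ β) {S : Set α} {T : Set β}
    (h : ∀ a, a ∈ S ↔ e a ∈ T) : S.ncard = T.ncard :=
  Nat.card_congr (e.subtypeEquiv h)

variable {G : Type u} {X : Type v} [Group G] [MulAction G X]

theorem ncard_smul (g : G) {S T : Set X} (h : ∀ a, a ∈ S ↔ g • a ∈ T) : S.ncard = T.ncard :=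
  ncard_eqv (MulAction.toPerm g) h

theorem ncard_cj (g : G) {S T : Set G} (h : ∀ a, a ∈ S ↔ g * a * g⁻¹ ∈ T) : S.ncard = T.ncard :=
  ncard_eqv (MulAut.conj g).toEquiv h

theorem cj_smul (g c : G) (x y : X) : (g * c * g⁻¹) • g • x = g • y ↔ c • x = y := by
  rw [mul_smul, mul_smul, inv_smul_smul, smul_left_cancel_iff]

theorem dvd_of_free (H : Subgroup G) (S : Set X)
    (hS : ∀ g ∈ H, ∀ c ∈ S, g • c ∈ S) (hf : ∀ g ∈ H, ∀ c ∈ S, g • c = c → g = 1) :
    Nat.card H ∣ S.ncard := by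
  let T : SubMulAction H X := ⟨S, fun g _ hc => hS g g.2 _ hc⟩
  have e := MulAction.selfEquivOrbitsQuotientProd (G := H) (X := T) fun c =>
    (Subgroup.eq_bot_iff_forall _).2 fun g hg =>
      Subtype.ext (hf g g.2 c c.2 (congrArg Subtype.val hg))
  have := Nat.card_congr e
  rw [Nat.card_prod] at this
  exact Dvd.intro_left _ this.symm

/-- the stabiliser of two points -/
abbrev st2 (G : Type u) {X : Type v} [Group G] [MulAction G X] (x y : X) : Subgroup G :=
  stabilizer G x ⊓ stabilizer G y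

theorem card_st2 (g : G) (x y : X) : Nat.card (st2 G (g • x) (g • y)) = Nat.card (st2 G x y) := by
  refine (ncard_cj g (S := (st2 G x y : Set G)) (T := (st2 G (g • x) (g • y) : Set G))
    fun a => ?_).symm
  simp only [SetLike.mem_coe, Subgroup.mem_inf, mem_stabilizer_iff, cj_smul]

namespace Data

variable (D : Data G X)

/-- distinct and not adjacent -/
def nadj (x y : X) : Prop := x ≠ y ∧ ¬ D.adj x y

theorem nadj_symm {x y : X} (h : D.nadj x y) : D.nadj y x := ⟨h.1.symm, fun e => h.2 (D.symm e)⟩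

theorem nadj_iff (g : G) {x y : X} : D.nadj (g • x) (g • y) ↔ D.nadj x y := by
  rw [nadj, nadj, D.inv_iff, Ne, smul_left_cancel_iff]

theorem ntr {x y z w : X} (h : D.nadj x y) (h' : D.nadj z w) : ∃ g : G, g • x = z ∧ g • y = w :=
  D.tr2 h.1 h.2 h'.1 h'.2

theorem ncard_adj (x : X) : {y | D.adj x y}.ncard = D.k := D.card_adj x

theorem ncard_K (x : X) : (D.K x : Set G).ncard = D.k := D.card_K x

theorem k_pos : 0 < D.k := by have := D.h_lt_k; omega

include D in
theorem nonempty [Finite G] : Nonempty X := by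
  have h := D.card_G
  have h1 : 0 < Nat.card G := Nat.card_pos
  have h2 : Nat.card X ≠ 0 := fun e => by rw [e] at h; omega
  exact (Nat.card_ne_zero.1 h2).1

/-- The parameters. -/
structure Par (b v u w : ℕ) : Prop where
  hb : D.h = v * b
  bpos : 0 < b
  upos : 0 < u
  vpos : 0 < v
  hk : D.k = 1 + (u + w) * D.h
  hn : Nat.card X = 1 + D.k * (1 + v)
  cardL : ∀ {x y : X}, D.nadj x y → Nat.card (st2 G x y) = b
  cardJ : ∀ x : X, {y | D.nadj x y}.ncard = D.k * v
  lam : ∀ {x y : X}, D.adj x y → {z | D.adj x z ∧ D.adj y z}.ncard = w * D.h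
  mu : ∀ {x y : X}, D.nadj x y → {z | D.adj x z ∧ D.adj y z}.ncard = u * b
  mult : u * b < D.k

theorem com_smul (g : G) (x y : X) : {z | D.adj (g • x) z ∧ D.adj (g • y) z}.ncard =
    {z | D.adj x z ∧ D.adj y z}.ncard :=
  (ncard_smul g fun a => by simp only [Set.mem_setOf_eq, D.inv_iff]).symm

theorem card_X [Finite X] (x : X) : Nat.card X = 1 + D.k + {y | D.nadj x y}.ncard := by
  have h1 := split (Set.univ : Set X) (D.adj x)
  have h2 := split {y | y ∈ Set.univ ∧ ¬ D.adj x y} (x = ·)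
  have e1 : {y | y ∈ Set.univ ∧ D.adj x y} = {y | D.adj x y} := by simp
  have e2 : {y | y ∈ {y | y ∈ Set.univ ∧ ¬ D.adj x y} ∧ x = y} = {x} := by
    ext y
    simp only [Set.mem_setOf_eq, Set.mem_univ, true_and, Set.mem_singleton_iff]
    exact ⟨fun h => h.2.symm, fun h => by rw [h]; exact ⟨D.irrefl x, rfl⟩⟩
  have e3 : {y | y ∈ {y | y ∈ Set.univ ∧ ¬ D.adj x y} ∧ ¬ x = y} = {y | D.nadj x y} := by
    ext y
    simp only [Set.mem_setOf_eq, Set.mem_univ, true_and, nadj, and_comm]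
  rw [e2, e3, Set.ncard_singleton] at h2
  rw [e1, D.ncard_adj, h2, Set.ncard_univ] at h1
  omega

theorem orb_J [Finite G] [Finite X] {x y : X} (h : D.nadj x y) :
    {z | D.nadj x z}.ncard * Nat.card (st2 G x y) = D.k * D.h := by
  have := dc {z | D.nadj x z} (stabilizer G x : Set G) (fun z g => g • y = z)
    (m := Nat.card (st2 G x y)) (n := 1) (fun z hz => ?_) fun g hg => ?_
  · rw [this, mul_one]
    exact D.card_stab x
  · obtain ⟨g, hg1, hg2⟩ := D.ntr h hz
    refine (ncard_eqv (Equiv.mulLeft g) (S := (st2 G x y : Set G)) fun a => ?_).symm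
    simp only [SetLike.mem_coe, Subgroup.mem_inf, mem_stabilizer_iff, Equiv.coe_mulLeft,
      Set.mem_setOf_eq, mul_smul]
    rw [← hg2, smul_left_cancel_iff]
    conv_rhs => rw [← hg1, smul_left_cancel_iff, hg1]
  · rw [Set.ncard_eq_one]
    refine ⟨g • y, Set.ext fun z => ⟨fun hz => hz.2.symm, fun hz => ⟨?_, hz.symm⟩⟩⟩
    have h1 := (D.nadj_iff g).2 h
    rw [show g • x = x from hg] at h1
    exact hz ▸ h1

theorem exists_par [Finite G] [Finite X] (hS : D.Semi) : ∃ b v u w, D.Par b v u w := by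
  classical
  obtain ⟨A⟩ := D.nonempty
  obtain ⟨B, hB⟩ := D.ex1 A
  obtain ⟨C, hC⟩ := D.ex2 A
  have hL : ∀ {x y : X}, D.nadj x y → Nat.card (st2 G x y) = Nat.card (st2 G A C) := fun h => by
    obtain ⟨g, rfl, rfl⟩ := D.ntr hC h
    exact card_st2 g A C
  have hl : ∀ {x y : X}, D.adj x y → {z | D.adj x z ∧ D.adj y z}.ncard =
      {z | D.adj A z ∧ D.adj B z}.ncard := fun h => by
    obtain ⟨g, rfl, rfl⟩ := D.tr1 hB h
    exact D.com_smul g A B
  have hm : ∀ {x y : X}, D.nadj x y → {z | D.adj x z ∧ D.adj y z}.ncard =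
      {z | D.adj A z ∧ D.adj C z}.ncard := fun h => by
    obtain ⟨g, rfl, rfl⟩ := D.ntr hC h
    exact D.com_smul g A C
  generalize hb : Nat.card (st2 G A C) = b at hL
  have bpos : 0 < b := hb ▸ Nat.card_pos
  have hco : b.Coprime D.k := by
    refine Nat.coprime_of_dvd fun p hp h1 h2 => ?_
    have := Fact.mk hp
    obtain ⟨t, ht⟩ := exists_prime_orderOf_dvd_card' (G := st2 G A C) p (hb ▸ h1)
    rw [← Subgroup.orderOf_coe] at ht
    have h3 := hS A C hC.1 t (D.mem_K t t.2.1 (ht ▸ D.coprime.coprime_dvd_left h2)) t.2.2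
    rw [h3, orderOf_one] at ht
    exact hp.one_lt.ne ht
  have hJ := D.orb_J hC
  rw [hb] at hJ
  obtain ⟨v, hv⟩ : b ∣ D.h := hco.dvd_of_dvd_mul_left (Dvd.intro_left _ hJ)
  have hJ' : ∀ x : X, {y | D.nadj x y}.ncard = D.k * v := fun x => by
    obtain ⟨y, hy⟩ := D.ex2 x
    have h1 := D.orb_J hy
    rw [hL hy, hv, mul_comm b v, ← mul_assoc] at h1
    exact Nat.eq_of_mul_eq_mul_right bpos h1
  have hw : D.h ∣ {z | D.adj A z ∧ D.adj B z}.ncard := by
    rw [← D.card_H hB]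
    refine dvd_of_free _ _ (fun g hg c hc => ?_) fun g hg c hc h => ?_
    · have h1 := D.inv g hc.1
      have h2 := D.inv g hc.2
      rw [show g • A = A from hg.1] at h1
      rw [show g • B = B from hg.2] at h2
      exact ⟨h1, h2⟩
    · exact D.frob g hB hc.1 (D.ne_of_adj hc.2) hg.1 hg.2 h
  have hu : D.h ∣ {z | D.adj A z ∧ D.nadj B z}.ncard := by
    rw [← D.card_H hB]
    refine dvd_of_free _ _ (fun g hg c hc => ?_) fun g hg c hc h => ?_
    · have h1 := D.inv g hc.1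
      have h2 := (D.nadj_iff g).2 hc.2
      rw [show g • A = A from hg.1] at h1
      rw [show g • B = B from hg.2] at h2
      exact ⟨h1, h2⟩
    · exact D.frob g hB hc.1 hc.2.1 hg.1 hg.2 h
  obtain ⟨w, hw⟩ := hw
  obtain ⟨u, hu⟩ := hu
  have hk : D.k = 1 + (u + w) * D.h := by
    have h1 := split {z | D.adj A z} (D.adj B)
    have h2 := split {z | z ∈ {z | D.adj A z} ∧ ¬ D.adj B z} (B = ·)
    have e2 : {y | y ∈ {z | z ∈ {z | D.adj A z} ∧ ¬ D.adj B z} ∧ B = y} = {B} := by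
      ext y
      simp only [Set.mem_setOf_eq, Set.mem_singleton_iff]
      exact ⟨fun h => h.2.symm, fun h => by rw [h]; exact ⟨⟨hB, D.irrefl B⟩, rfl⟩⟩
    have e3 : {y | y ∈ {z | z ∈ {z | D.adj A z} ∧ ¬ D.adj B z} ∧ ¬ B = y} =
        {z | D.adj A z ∧ D.nadj B z} := by
      ext y
      simp only [Set.mem_setOf_eq, nadj]
      tauto
    rw [e2, e3, Set.ncard_singleton, hu] at h2
    rw [D.ncard_adj, h2] at h1
    have e4 : {x | x ∈ {z | D.adj A z} ∧ D.adj B x}.ncard = D.h * w := hw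
    rw [e4] at h1
    rw [h1]
    ring
  have hv0 : 0 < v := by
    refine Nat.pos_of_ne_zero fun e => ?_
    have := D.one_lt
    rw [hv, e] at this
    omega
  have hmu : {z | D.adj A z ∧ D.adj C z}.ncard = u * b := by
    have := dc {z | D.adj A z} {y | D.nadj A y} D.adj (m := D.h * u)
      (n := {z | D.adj A z ∧ D.adj C z}.ncard) (fun z hz => ?_) fun y hy => ?_
    · rw [D.ncard_adj, hJ', hv] at this
      refine Nat.eq_of_mul_eq_mul_left (Nat.mul_pos D.k_pos hv0) ?_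
      rw [← this]
      ring
    · obtain ⟨g, hg1, hg2⟩ := D.tr1 (D.symm hB) hz
      rw [← hu]
      refine (ncard_smul g fun a => ?_).symm
      simp only [Set.mem_setOf_eq]
      rw [← D.inv_iff g (x := A), ← D.nadj_iff g (x := B), hg1, hg2, and_comm]
    · rw [← hm hy]
      congr 1
      ext z
      exact ⟨fun h => ⟨h.1, D.symm h.2⟩, fun h => ⟨h.1, D.symm h.2⟩⟩
  have hu0 : 0 < u := by
    refine Nat.pos_of_ne_zero fun e => ?_
    obtain ⟨z, hz⟩ := D.mu_pos hC.1 hC.2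
    rw [e, zero_mul, Set.ncard_eq_zero] at hmu
    exact (hmu ▸ hz : z ∈ (∅ : Set X))
  refine ⟨b, v, u, w, by rw [hv, mul_comm], bpos, hu0, hv0, hk, ?_, hL, hJ',
    fun h => by rw [hl h, hw, mul_comm], fun h => by rw [hm h, hmu], ?_⟩
  · rw [D.card_X A, hJ']
    ring
  · obtain ⟨z, hz1, hz2⟩ := D.mu_lt hC.1 hC.2
    rw [← hmu, ← D.ncard_adj A]
    exact Set.ncard_lt_ncard ⟨fun y hy => hy.1, fun h => hz2 (h hz1).2⟩

theorem Par.srg [Finite X] {b v u w : ℕ} (P : D.Par b v u w) (hS : SrgStmt.{v}) :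
    2 * (D.k : ℤ) + (Nat.card X - 1) * ((w * D.h : ℕ) - (u * b : ℕ) : ℤ) = 0 ∨
    ∃ (r s : ℤ) (f g : ℕ), s < r ∧ r + s = ((w * D.h : ℕ) : ℤ) - (u * b : ℕ) ∧
      r * s = ((u * b : ℕ) : ℤ) - D.k ∧ f + g + 1 = Nat.card X ∧
        (D.k : ℤ) + f * r + g * s = 0 := by
  classical
  have := Fintype.ofFinite X
  let Γ : SimpleGraph X := ⟨D.adj, ⟨fun _ _ h => D.symm h⟩, ⟨D.irrefl⟩⟩
  refine hS X Γ _ _ _ _ ⟨Nat.card_eq_fintype_card.symm, fun x => ?_, fun x y h => ?_,
    fun x y h1 h2 => ?_⟩ P.mult ?_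
  · rw [← SimpleGraph.card_neighborSet_eq_degree, ← Nat.card_eq_fintype_card]
    exact D.card_adj x
  · rw [← Nat.card_eq_fintype_card]
    exact P.lam h
  · rw [← Nat.card_eq_fintype_card]
    exact P.mu ⟨h1, h2⟩
  · have h1 := P.hn
    have h2 := Nat.mul_pos D.k_pos P.vpos
    rw [mul_add] at h1
    omega

end Data

end Cfsg.Agent.H56.R3
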