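import Cfsg.Agent.H56.R3C1

/-! Rank 3 groups with a Frobenius point stabiliser, semiregular kernels: counting involutions. -/

set_option autoImplicit false

namespace Cfsg.Agent.H56.R3

open MulAction

universe u v

/-- the involutions with a fixed point -/
def IS (G : Type u) (X : Type v) [Group G] [MulAction G X] : Set G :=
  {s | orderOf s = 2 ∧ ∃ x : X, s • x = x}

variable {G : Type u} {X : Type v} [Group G] [MulAction G X]

theorem orderOf_cj (g s : G) : orderOf (g * s * g⁻¹) = orderOf s :=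
  MulEquiv.orderOf_eq (MulAut.conj g) s

theorem IS_cj (g : G) {s : G} (hs : s ∈ IS G X) : g * s * g⁻¹ ∈ IS G X := by
  obtain ⟨h1, x, hx⟩ := hs
  exact ⟨by rw [orderOf_cj, h1], g • x, (cj_smul g s x x).2 hx⟩

theorem IS_cj_iff (g : G) {s : G} : g * s * g⁻¹ ∈ IS G X ↔ s ∈ IS G X :=
  ⟨fun h => by simpa [mul_assoc] using IS_cj g⁻¹ h, IS_cj g⟩

theorem sq_of_two {t : G} (ht : orderOf t = 2) : t * t = 1 := by
  rw [← sq, ← ht, pow_orderOf_eq_one]

theorem ne_of_two {t : G} (ht : orderOf t = 2) : t ≠ 1 := fun e => by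
  rw [e, orderOf_one] at ht
  omega

/-- The three quarters lemma for the involutions moving `x` to `y`. -/
theorem tq [Finite G] (hT : TQStmt.{u}) (x y : X)
    (h1 : ∀ s ∈ st2 G x y, ∀ t ∈ st2 G x y, orderOf s = 2 → orderOf t = 2 → s = t) {j m : ℕ}
    (hj : {s | s ∈ IS G X ∧ s • x = y}.ncard = j) (hm : Nat.card (st2 G x y) = m) :
    j ≤ m ∧ (j = m ∨ 4 * j ≤ 3 * m) ∧ (m = 4 → j ≠ 3) := by
  by_cases he : {s | s ∈ IS G X ∧ s • x = y} = ∅
  · rw [he, Set.ncard_empty] at hj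
    omega
  obtain ⟨s, hs, hsx⟩ := Set.nonempty_iff_ne_empty.2 he
  have hss := sq_of_two hs.1
  have sw : ∀ {t : G}, t ∈ IS G X → t • x = y → t • y = x := fun ht h => by
    rw [← h, ← mul_smul, sq_of_two ht.1, one_smul]
  have hsy := sw hs hsx
  let S : Set G := {a | a * s ∈ IS G X ∧ (a * s) • x = y}
  have hSj : S.ncard = j := hj ▸ ncard_eqv (Equiv.mulRight s) fun a => Iff.rfl
  have hSY : S ⊆ st2 G x y := fun a ha => by
    have e1 := ha.2
    have e2 := sw ha.1 ha.2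
    rw [mul_smul, hsx] at e1
    rw [mul_smul, hsy] at e2
    exact ⟨e2, e1⟩
  have := hT G (st2 G x y) s hss (fun a ha => ⟨?_, ?_⟩) (fun a ha b hb => h1 a ha b hb) S hSY
    (fun a ha => sq_of_two ha.1.1) fun a ha g hg => ?_
  · rw [hSj, hm] at this
    have hle : j ≤ m := by
      rw [← hSj, ← hm]
      exact Set.ncard_le_ncard hSY
    refine ⟨hle, ?_, this.2⟩
    by_cases h : 3 * m < 4 * j
    · left
      rw [← hSj, this.1 h, ← hm]
      rfl
    · omega
  · show (s * a * s) • x = x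
    rw [mul_smul, mul_smul, hsx, show a • y = y from ha.2, hsy]
  · show (s * a * s) • y = y
    rw [mul_smul, mul_smul, hsy, show a • x = x from ha.1, hsx]
  · have e : g * (a * s) * g⁻¹ * s * s = g * (a * s) * g⁻¹ := by rw [mul_assoc _ s, hss, mul_one]
    refine ⟨by rw [e]; exact IS_cj g ha.1, ?_⟩
    rw [e]
    have := (cj_smul g (a * s) x y).2 ha.2
    rwa [show g • x = x from hg.1, show g • y = y from hg.2] at this

namespace Data

variable (D : Data G X)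

theorem exists_nb (hk : Odd D.k) {t : G} (ht : orderOf t = 2) {x : X} (hx : t • x = x) :
    ∃ y, D.adj x y ∧ t • y = y := D.fix t hx (D.not_mem_K hk ht)

theorem nb_unique {t : G} (ht : t ≠ 1) {x y z : X} (hx : t • x = x) (hy : D.adj x y)
    (hz : D.adj x z) (hty : t • y = y) (htz : t • z = z) : y = z := by
  by_contra h
  exact ht (D.frob t hy hz h hx hty htz)

theorem IS_conj [Finite G] (hk : Odd D.k) {s t : G} (hs : s ∈ IS G X) (ht : t ∈ IS G X) :
    ∃ g : G, g * s * g⁻¹ = t := by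
  obtain ⟨hs, x, hx⟩ := hs
  obtain ⟨ht, z, hz⟩ := ht
  obtain ⟨y, hxy, hy⟩ := D.exists_nb hk hs hx
  obtain ⟨w, hzw, hw⟩ := D.exists_nb hk ht hz
  obtain ⟨g, rfl, rfl⟩ := D.tr1 hxy hzw
  exact ⟨g, D.inv_unique hk hzw (by rw [orderOf_cj, hs]) ht ((cj_smul g s x x).2 hx) hz
    ((cj_smul g s y y).2 hy) hw⟩

theorem cnt_eq [Finite G] (hk : Odd D.k) (ρ : X → X → Prop)
    (hinv : ∀ (g : G) (x y : X), ρ (g • x) (g • y) ↔ ρ x y) {s t : G} (hs : s ∈ IS G X)
    (ht : t ∈ IS G X) : {x | ρ x (s • x)}.ncard = {x | ρ x (t • x)}.ncard := by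
  obtain ⟨g, rfl⟩ := D.IS_conj hk hs ht
  refine ncard_smul g fun a => ?_
  simp only [Set.mem_setOf_eq]
  rw [(cj_smul g s a _).2 rfl, hinv]

theorem dcount [Finite G] [Finite X] (hk : Odd D.k) (ρ : X → X → Prop)
    (hinv : ∀ (g : G) (x y : X), ρ (g • x) (g • y) ↔ ρ x y)
    (htr : ∀ {x y z w : X}, ρ x y → ρ z w → ∃ g : G, g • x = z ∧ g • y = w) {κ : ℕ}
    (hκ : ∀ x, {y | ρ x y}.ncard = κ) {x0 y0 : X} (h0 : ρ x0 y0) {t : G} (ht : t ∈ IS G X) :
    (IS G X).ncard * {x | ρ x (t • x)}.ncard =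
      Nat.card X * (κ * {s | s ∈ IS G X ∧ s • x0 = y0}.ncard) := by
  rw [← Set.ncard_univ]
  refine dc _ _ (fun s x => ρ x (s • x)) (fun s hs => ?_) fun x _ => ?_
  · rw [← D.cnt_eq hk ρ hinv hs ht]
    simp
  · rw [← hκ x, ← dc {s | s ∈ IS G X ∧ ρ x (s • x)} {y | ρ x y} (fun s y => s • x = y)
      (m := 1) (fun s hs => ?_) fun y hy => ?_, mul_one]
    · rw [Set.ncard_eq_one]
      exact ⟨s • x, Set.ext fun z => ⟨fun h => h.2.symm, fun h => by rw [h]; exact ⟨hs.2, rfl⟩⟩⟩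
    · obtain ⟨g, rfl, rfl⟩ := htr h0 hy
      refine (ncard_cj g fun a => ?_).symm
      simp only [Set.mem_setOf_eq, IS_cj_iff, cj_smul]
      refine ⟨fun h => ⟨⟨h.1, ?_⟩, h.2⟩, fun h => ⟨h.1.1, h.2⟩⟩
      rw [(cj_smul g a x0 y0).2 h.2]
      exact hy

theorem card_inv [Finite G] [Finite X] (hh : Even D.h) (x : X) :
    {s | s ∈ IS G X ∧ s • x = x}.ncard = D.k := by
  have hk := D.odd_k hh
  have := dc {s | s ∈ IS G X ∧ s • x = x} {y | D.adj x y} (fun s y => s • y = y) (m := 1) (n := 1)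
    (fun s hs => ?_) fun y hy => ?_
  · rwa [mul_one, mul_one, D.ncard_adj] at this
  · obtain ⟨y, hy, hsy⟩ := D.exists_nb hk hs.1.1 hs.2
    rw [Set.ncard_eq_one]
    exact ⟨y, Set.ext fun z => ⟨fun h => D.nb_unique (ne_of_two hs.1.1) hs.2 h.1 hy h.2 hsy,
      fun h => by rw [h]; exact ⟨hy, hsy⟩⟩⟩
  · obtain ⟨t, ht, htx, hty⟩ := D.exists_inv hh hy
    rw [Set.ncard_eq_one]
    exact ⟨t, Set.ext fun s => ⟨fun h => D.inv_unique hk hy h.1.1.1 ht h.1.2 htx h.2 hty,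
      fun h => by rw [h]; exact ⟨⟨⟨ht, x, htx⟩, htx⟩, hty⟩⟩⟩

theorem fix_two [Finite X] (hk : Odd D.k) {t : G} (ht : orderOf t = 2) {A : X} (hA : t • A = A) :
    {x : X | x = t • x}.ncard = 2 + {y | D.nadj A y ∧ t • y = y}.ncard := by
  obtain ⟨B, hB, htB⟩ := D.exists_nb hk ht hA
  have e : {x : X | x = t • x} = insert A (insert B {y | D.nadj A y ∧ t • y = y}) := by
    ext x
    simp only [Set.mem_setOf_eq, Set.mem_insert_iff]
    refine ⟨fun h => ?_, ?_⟩
    · by_cases h1 : x = A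
      · exact Or.inl h1
      by_cases h2 : D.adj A x
      · exact Or.inr (Or.inl (D.nb_unique (ne_of_two ht) hA h2 hB h.symm htB))
      · exact Or.inr (Or.inr ⟨⟨Ne.symm h1, h2⟩, h.symm⟩)
    · rintro (rfl | rfl | h)
      exacts [hA.symm, htB.symm, h.2.symm]
  rw [e, Set.ncard_insert_of_notMem, Set.ncard_insert_of_notMem]
  · omega
  · exact fun h => h.1.2 hB
  · rintro (h | h)
    exacts [D.ne_of_adj hB h, h.1.1 rfl]

theorem even_fix [Finite X] (hk : Odd D.k) {t : G} (ht : orderOf t = 2) :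
    Even {x : X | x = t • x}.ncard := by
  classical
  have := Fintype.ofFinite X
  have h : ∀ x : X, x = t • x → ∃ y, D.adj x y ∧ t • y = y := fun x hx =>
    D.exists_nb hk ht hx.symm
  choose! φ h1 h2 using h
  have := Finset.sum_involution (s := {x : X | x = t • x}.toFinset) (f := fun _ => (1 : ZMod 2))
    (fun x _ => φ x) (fun _ _ => rfl)
    (fun x hx _ => (D.ne_of_adj (h1 x (by simpa using hx))).symm)
    (fun x hx => by simpa using (h2 x (by simpa using hx)).symm) fun x hx => by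
      have hx' : x = t • x := by simpa using hx
      exact D.nb_unique (ne_of_two ht) (h2 x hx') (h1 _ (h2 x hx').symm) (D.symm (h1 x hx'))
        (h2 _ (h2 x hx').symm) hx'.symm
  rw [Finset.sum_const, nsmul_one, ZMod.natCast_eq_zero_iff_even] at this
  rwa [Set.ncard_eq_toFinset_card']

theorem inv_uniq2 [Finite G] (hS : D.Semi) (hk : Odd D.k) {x y : X} (hxy : x ≠ y) :
    ∀ s ∈ st2 G x y, ∀ t ∈ st2 G x y, orderOf s = 2 → orderOf t = 2 → s = t :=
  fun s hs t ht h1 h2 => mul_right_cancel ((hS x y hxy _ (D.mul_mem_K hk h1 h2 hs.1 ht.1)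
    (by rw [mul_smul, show t • y = y from ht.2, show s • y = y from hs.2])).trans
      (sq_of_two h2).symm)

variable {D} {b v u w : ℕ}

theorem Par.fix_J [Finite G] [Finite X] (P : D.Par b v u w) (hS : D.Semi) (hh : Even D.h) {t : G}
    (ht : orderOf t = 2) {A : X} (hA : t • A = A) :
    {y | D.nadj A y ∧ t • y = y}.ncard = if Even b then v else 0 := by
  have hk := D.odd_k hh
  have := dc {s | s ∈ IS G X ∧ s • A = A} {y | D.nadj A y} (fun s y => s • y = y)
    (m := {y | D.nadj A y ∧ t • y = y}.ncard) (n := if Even b then 1 else 0)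
    (fun s hs => ?_) fun y hy => ?_
  · rw [D.card_inv hh, P.cardJ, mul_assoc] at this
    rw [Nat.eq_of_mul_eq_mul_left D.k_pos this]
    split_ifs <;> simp
  · have h1 := D.cnt_eq hk Eq (fun g x y => smul_left_cancel_iff g) hs.1 ⟨ht, A, hA⟩
    rw [D.fix_two hk ht hA, D.fix_two hk hs.1.1 hs.2] at h1
    exact Nat.add_left_cancel h1
  · have hc := P.cardL hy
    split_ifs with he
    · have : Fact (Nat.Prime 2) := ⟨Nat.prime_two⟩
      obtain ⟨s, hs⟩ := exists_prime_orderOf_dvd_card' (G := st2 G A y) 2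
        (hc ▸ even_iff_two_dvd.1 he)
      rw [← Subgroup.orderOf_coe] at hs
      rw [Set.ncard_eq_one]
      exact ⟨s, Set.ext fun r => ⟨fun h => D.inv_uniq2 hS hk hy.1 r ⟨h.1.2, h.2⟩ s s.2 h.1.1.1 hs,
        fun h => by rw [h]; exact ⟨⟨⟨hs, A, s.2.1⟩, s.2.1⟩, s.2.2⟩⟩⟩
    · rw [Set.ncard_eq_zero, Set.eq_empty_iff_forall_notMem]
      intro s hs
      refine he (even_iff_two_dvd.2 ?_)
      rw [← hc, ← hs.1.1.1]
      exact Subgroup.orderOf_dvd_natCard _ ⟨hs.1.2, hs.2⟩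

theorem Par.counts [Finite G] [Finite X] (P : D.Par b v u w) (hh : Even D.h) {t : G}
    (ht : t ∈ IS G X) {A B C : X} (hB : D.adj A B) (hC : D.nadj A C) :
    {x | D.adj x (t • x)}.ncard =
      {x : X | x = t • x}.ncard * {s | s ∈ IS G X ∧ s • A = B}.ncard ∧
    Nat.card X = {x : X | x = t • x}.ncard * (1 + {s | s ∈ IS G X ∧ s • A = B}.ncard +
      v * {s | s ∈ IS G X ∧ s • A = C}.ncard) := by
  have hk := D.odd_k hh
  have h0 := D.dcount hk Eq (fun g x y => smul_left_cancel_iff g) (κ := 1) (fun {x y z w} h h' => by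
    obtain ⟨a, ha⟩ := D.ex1 x
    obtain ⟨c, hc⟩ := D.ex1 z
    obtain ⟨g, hg, -⟩ := D.tr1 ha hc
    exact ⟨g, hg, by rw [← h, ← h', hg]⟩) (fun x => by simp) (rfl : A = A) ht
  have h1 := D.dcount hk D.adj (fun g x y => D.inv_iff g) D.tr1 D.ncard_adj hB ht
  have h2 := D.dcount hk D.nadj (fun g x y => D.nadj_iff g) D.ntr P.cardJ hC ht
  rw [D.card_inv hh, one_mul] at h0
  have hp : 0 < (IS G X).ncard := (Set.ncard_pos).2 ⟨t, ht⟩
  have e1 : {x | D.adj x (t • x)}.ncard =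
      {x : X | x = t • x}.ncard * {s | s ∈ IS G X ∧ s • A = B}.ncard := by
    refine Nat.eq_of_mul_eq_mul_left hp ?_
    rw [h1, ← mul_assoc, ← mul_assoc, h0]
  have e2 : {x | D.nadj x (t • x)}.ncard =
      {x : X | x = t • x}.ncard * (v * {s | s ∈ IS G X ∧ s • A = C}.ncard) := by
    refine Nat.eq_of_mul_eq_mul_left hp ?_
    rw [h2, ← mul_assoc (IS G X).ncard, h0]
    ring
  refine ⟨e1, ?_⟩
  have s1 := split (Set.univ : Set X) fun x => D.adj x (t • x)
  have s2 := split {x | x ∈ Set.univ ∧ ¬ D.adj x (t • x)} fun x => x = t • x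
  have e3 : {x | x ∈ {x | x ∈ Set.univ ∧ ¬ D.adj x (t • x)} ∧ x = t • x} = {x : X | x = t • x} :=
    Set.ext fun x => ⟨fun h => h.2, fun h => ⟨⟨trivial, fun h' => D.ne_of_adj h' h⟩, h⟩⟩
  have e4 : {x | x ∈ {x | x ∈ Set.univ ∧ ¬ D.adj x (t • x)} ∧ ¬ x = t • x} =
      {x | D.nadj x (t • x)} :=
    Set.ext fun x => ⟨fun h => ⟨h.2, h.1.2⟩, fun h => ⟨⟨trivial, h.2⟩, h.1⟩⟩
  have e5 : {x | x ∈ Set.univ ∧ D.adj x (t • x)} = {x | D.adj x (t • x)} := by simp
  rw [e3, e4, e2] at s2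
  rw [e5, e1, s2, Set.ncard_univ] at s1
  rw [s1]
  ring

end Data

end Cfsg.Agent.H56.R3
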