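import Cfsg.Agent.H56.R3C2

/-! Rank 3 groups with a Frobenius point stabiliser, semiregular kernels: the counts. -/

set_option autoImplicit false

namespace Cfsg.Agent.H56.R3

open MulAction

universe u v

variable {G : Type u} {X : Type v} [Group G] [MulAction G X]

namespace Data

variable (D : Data G X)

/-- the valency inside the orbit of `y` under `K x` -/
noncomputable def th (x y : X) : ℕ := {c | c ∈ D.K x ∧ D.adj y (c • y)}.ncard

theorem th_smul (g : G) (x y : X) : D.th (g • x) (g • y) = D.th x y :=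
  (ncard_cj g fun a => by
    simp only [Set.mem_setOf_eq, D.K_conj_iff]
    rw [(cj_smul g a y _).2 rfl, D.inv_iff]).symm

theorem adj_K {x y : X} {c : G} (hc : c ∈ D.K x) (h : D.adj x y) : D.adj x (c • y) := by
  have := D.inv c h
  rwa [D.K_fix hc] at this

theorem nadj_K {x y : X} {c : G} (hc : c ∈ D.K x) (h : D.nadj x y) : D.nadj x (c • y) := by
  have := (D.nadj_iff c).2 h
  rwa [D.K_fix hc] at this

theorem semi_inj (hS : D.Semi) {x y : X} (hxy : x ≠ y) {c d : G} (hc : c ∈ D.K x)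
    (hd : d ∈ D.K x) (h : c • y = d • y) : c = d := by
  have := hS x y hxy (d⁻¹ * c) (mul_mem (inv_mem hd) hc) (by rw [mul_smul, h, inv_smul_smul])
  rw [inv_mul_eq_one] at this
  exact this.symm

theorem th_adj (hS : D.Semi) {x y : X} (h : D.adj x y) :
    D.th x y = {z | D.adj x z ∧ D.adj y z}.ncard := by
  refine Set.ncard_congr (fun c _ => c • y) (fun c hc => ⟨D.adj_K hc.1 h, hc.2⟩)
    (fun c d hc hd e => D.semi_inj hS (D.ne_of_adj h) hc.1 hd.1 e) fun z hz => ?_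
  obtain ⟨c, hc, rfl⟩ := D.K_tr h hz.1
  exact ⟨c, ⟨hc, hz.2⟩, rfl⟩

theorem sqrt (hk : Odd D.k) {x : X} : ∃ m : ℕ, ∀ c ∈ D.K x, (c * c) ^ m = c := by
  obtain ⟨m, hm⟩ := hk
  refine ⟨m + 1, fun c hc => ?_⟩
  have h1 : c ^ D.k = 1 := orderOf_dvd_iff_pow_eq_one.1 (D.orderOf_dvd hc)
  rw [← sq, ← pow_mul, show 2 * (m + 1) = D.k + 1 by omega, pow_succ, h1, one_mul]

theorem smul_inv [Finite G] (hk : Odd D.k) {t : G} (ht : orderOf t = 2) {A y : X} (hA : t • A = A)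
    (hy : t • y = y) {c : G} (hc : c ∈ D.K A) : t • c • y = c⁻¹ • y := by
  rw [← D.inverts hk ht hA hc]
  conv_rhs => rw [← hy]
  rw [(cj_smul t c y _).2 rfl]

theorem orb_cnt [Finite G] (hS : D.Semi) (hk : Odd D.k) {t : G} (ht : orderOf t = 2) {A y : X}
    (hA : t • A = A) (hAy : A ≠ y) (hy : t • y = y) :
    {x | (∃ d ∈ D.K A, d • y = x) ∧ D.adj x (t • x)}.ncard = D.th A y := by
  obtain ⟨m, hm⟩ := D.sqrt hk (x := A)
  have key : ∀ d ∈ D.K A, D.adj (d • y) (t • d • y) ↔ D.adj y ((d⁻¹ * d⁻¹) • y) := fun d hd => by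
    rw [D.smul_inv hk ht hA hy hd, ← D.inv_iff d⁻¹, inv_smul_smul, mul_smul]
  have e1 : {d | d ∈ D.K A ∧ D.adj (d • y) (t • d • y)}.ncard =
      {x | (∃ d ∈ D.K A, d • y = x) ∧ D.adj x (t • x)}.ncard := by
    refine Set.ncard_congr (fun c _ => c • y) (fun c hc => ⟨⟨c, hc.1, rfl⟩, hc.2⟩)
      (fun c d hc hd e => D.semi_inj hS hAy hc.1 hd.1 e) ?_
    rintro z ⟨⟨c, hc, rfl⟩, hz⟩
    exact ⟨c, ⟨hc, hz⟩, rfl⟩
  rw [← e1]
  refine Set.ncard_congr (fun d _ => d⁻¹ * d⁻¹)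
    (fun d hd => ⟨mul_mem (inv_mem hd.1) (inv_mem hd.1), (key d hd.1).1 hd.2⟩)
    (fun c d hc hd e => ?_) fun c hc => ?_
  · rw [← inv_inj, ← hm _ (inv_mem hc.1), ← hm _ (inv_mem hd.1)]
    exact congrArg (· ^ m) e
  · have e : (c ^ m)⁻¹⁻¹ * (c ^ m)⁻¹⁻¹ = c := by
      rw [inv_inv, ← (Commute.refl c).mul_pow, hm c hc.1]
    have h1 := inv_mem (pow_mem hc.1 m)
    exact ⟨(c ^ m)⁻¹, ⟨h1, (key _ h1).2 (by rw [e]; exact hc.2)⟩, e⟩

theorem orb_uniq [Finite G] (hS : D.Semi) (hk : Odd D.k) {t : G} (ht : orderOf t = 2) {A y z : X}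
    (hA : t • A = A) (hAy : A ≠ y) (hy : t • y = y) (hz : t • z = z) {c d : G} (hc : c ∈ D.K A)
    (hd : d ∈ D.K A) (h : c • y = d • z) : y = z := by
  obtain ⟨m, hm⟩ := D.sqrt hk (x := A)
  have h1 : d⁻¹ * c ∈ D.K A := mul_mem (inv_mem hd) hc
  have h2 : (d⁻¹ * c) • y = z := by rw [mul_smul, h, inv_smul_smul]
  generalize d⁻¹ * c = e at h1 h2
  have h3 := D.smul_inv hk ht hA hy h1
  rw [h2, hz, ← h2] at h3
  have h4 := D.semi_inj hS hAy h1 (inv_mem h1) h3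
  have h5 := hm e h1
  rw [show e * e = 1 by nth_rewrite 2 [h4]; exact mul_inv_cancel e, one_pow] at h5
  rw [← h2, ← h5, one_smul]

theorem h_le_two [Finite G] (hh : Even D.h) (A : X) (h3 : 3 ∣ D.k)
    (h9 : 9 ∣ D.k → D.k = 9 ∧ ∃ c ∈ D.K A, c ^ 3 ≠ 1) : D.h ≤ 2 := by
  have : Fact (Nat.Prime 3) := ⟨Nat.prime_three⟩
  let Z : Subgroup G :=
    { carrier := {c | c ∈ D.K A ∧ c ^ 3 = 1}
      mul_mem' := fun {a b} ha hb => ⟨mul_mem ha.1 hb.1, by
        rw [Commute.mul_pow (D.K_comm hh ha.1 hb.1), ha.2, hb.2, one_mul]⟩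
      one_mem' := ⟨one_mem _, one_pow 3⟩
      inv_mem' := fun {a} ha => ⟨inv_mem ha.1, by rw [inv_pow, ha.2, inv_one]⟩ }
  have hZK : Z ≤ D.K A := fun c hc => hc.1
  have hp : IsPGroup 3 Z := fun g => ⟨1, Subtype.ext (by simpa using g.2.2)⟩
  obtain ⟨n, hn⟩ := IsPGroup.iff_card.1 hp
  have hd := Subgroup.card_dvd_of_le hZK
  rw [D.card_K] at hd
  have h4 : Nat.card Z ≤ 3 := by
    by_contra h
    have h5 : 9 ∣ Nat.card Z := by
      rw [hn] at h ⊢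
      have : 2 ≤ n := by
        by_contra h'
        interval_cases n <;> simp at h
      exact pow_dvd_pow 3 this
    obtain ⟨h6, c, hc, h7⟩ := h9 (h5.trans hd)
    have := Subgroup.eq_of_le_of_card_ge hZK (by
      rw [D.card_K, h6]; exact Nat.le_of_dvd Nat.card_pos h5)
    exact h7 (this ▸ hc : c ∈ Z).2
  obtain ⟨z, hz⟩ := exists_prime_orderOf_dvd_card' (G := D.K A) 3 (by rw [D.card_K]; exact h3)
  rw [← Subgroup.orderOf_coe] at hz
  have hz1 : (z : G) ≠ 1 := fun e => by rw [e, orderOf_one] at hz; omega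
  have hz3 : (z : G) ^ 3 = 1 := by rw [← hz, pow_orderOf_eq_one]
  obtain ⟨B, hB⟩ := D.ex1 A
  have h5 : (st2 G A B : Set G).ncard ≤ ((Z : Set G) \ {1}).ncard := by
    refine Set.ncard_le_ncard_of_injOn (fun g => g * z * g⁻¹) (fun g hg => ⟨⟨D.K_normal hg.1 z.2,
      by rw [conj_pow, hz3, mul_one, mul_inv_cancel]⟩, fun e => hz1 (by simpa using e)⟩)
      fun g hg g' hg' e => ?_
    have h6 : g'⁻¹ * g ∈ st2 G A B := mul_mem (inv_mem hg') hg
    by_cases h7 : g'⁻¹ * g ∈ D.K A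
    · exact (inv_mul_eq_one.1 (D.K_free hB _ h7 h6.2)).symm
    · refine absurd (D.fpf _ z h6.1 h7 z.2 ?_) hz1
      have e' : g * z * g⁻¹ = g' * z * g'⁻¹ := e
      calc g'⁻¹ * g * z = g'⁻¹ * (g * z * g⁻¹) * g := by group
        _ = z * (g'⁻¹ * g) := by rw [e']; group
  rw [Set.ncard_diff_singleton_of_mem (one_mem Z)] at h5
  have h6 : (st2 G A B : Set G).ncard = D.h := D.card_H hB
  have h7 : (Z : Set G).ncard = Nat.card Z := rfl
  omega

variable {D} {b v u w : ℕ}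

theorem Par.a1 [Finite G] [Finite X] (P : D.Par b v u w) (hS : D.Semi) (hh : Even D.h)
    (hb : Even b) {t : G} (ht : orderOf t = 2) {A C : X} (hA : t • A = A) (hC : D.nadj A C) :
    {x | D.adj x (t • x)}.ncard = w * D.h + v * D.th A C := by
  have hk := D.odd_k hh
  obtain ⟨B, hB, htB⟩ := D.exists_nb hk ht hA
  have hF := P.fix_J hS hh ht hA
  rw [if_pos hb] at hF
  have one : ∀ x : X, (∃ y ∈ {y | D.nadj A y ∧ t • y = y}, ∃ d ∈ D.K A, d • y = x) →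
      {y | y ∈ {y | D.nadj A y ∧ t • y = y} ∧ ∃ d ∈ D.K A, d • y = x}.ncard = 1 := by
    rintro x ⟨y, hy, d, hd, rfl⟩
    rw [Set.ncard_eq_one]
    refine ⟨y, Set.ext fun z => ⟨?_, fun h => by rw [h]; exact ⟨hy, d, hd, rfl⟩⟩⟩
    rintro ⟨hz, c, hc, e⟩
    exact D.orb_uniq hS hk ht hA hz.1.1 hz.2 hy.2 hc hd e
  have h1 := dc {x | ∃ y ∈ {y | D.nadj A y ∧ t • y = y}, ∃ d ∈ D.K A, d • y = x}
    {y | D.nadj A y ∧ t • y = y} (fun x y => ∃ d ∈ D.K A, d • y = x) (n := D.k) one fun y hy => by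
      rw [← D.ncard_K A]
      symm
      refine Set.ncard_congr (fun c _ => c • y) (fun c hc => ⟨⟨y, hy, c, hc, rfl⟩, c, hc, rfl⟩)
        (fun c d hc hd e => D.semi_inj hS hy.1.1 hc hd e) ?_
      rintro z ⟨-, c, hc, rfl⟩
      exact ⟨c, hc, rfl⟩
  have h2 : {x | ∃ y ∈ {y | D.nadj A y ∧ t • y = y}, ∃ d ∈ D.K A, d • y = x} =
      {x | D.nadj A x} := by
    refine Set.eq_of_subset_of_ncard_le ?_ (by rw [P.cardJ, mul_comm, ← hF, ← h1, mul_one])
    rintro x ⟨y, hy, d, hd, rfl⟩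
    exact D.nadj_K hd hy.1
  have h3 := dc {x | D.nadj A x ∧ D.adj x (t • x)}
    {y | D.nadj A y ∧ t • y = y} (fun x y => ∃ d ∈ D.K A, d • y = x) (n := D.th A C)
    (fun x hx => one x (h2.ge hx.1)) fun y hy => by
      obtain ⟨g, hg1, hg2⟩ := D.ntr hC hy.1
      rw [← D.th_smul g, hg1, hg2, ← D.orb_cnt hS hk ht hA hy.1.1 hy.2]
      congr 1
      refine Set.ext fun x => ⟨fun h => ⟨h.2, h.1.2⟩, ?_⟩
      rintro ⟨⟨d, hd, rfl⟩, h⟩
      exact ⟨⟨D.nadj_K hd hy.1, h⟩, d, hd, rfl⟩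
  have h4 := D.orb_cnt hS hk ht hA (D.ne_of_adj hB) htB
  rw [D.th_adj hS hB, P.lam hB] at h4
  rw [mul_one, hF] at h3
  rw [split _ (D.adj A), ← h3, ← h4]
  congr 2
  · refine Set.ext fun x => ⟨fun h => ⟨D.K_tr hB h.2, h.1⟩, ?_⟩
    rintro ⟨⟨d, hd, rfl⟩, h⟩
    exact ⟨h, D.adj_K hd hB⟩
  · refine Set.ext fun x => ⟨fun h => ⟨⟨fun e => ?_, h.2⟩, h.1⟩, fun h => ⟨h.2, h.1.2⟩⟩
    have h5 : D.adj x (t • x) := h.1
    rw [← e, hA] at h5
    exact D.irrefl A h5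

theorem Par.no_tri [Finite X] (P : D.Par b v u 0) {x y z : X} (h1 : D.adj x y) (h2 : D.adj x z)
    (h3 : D.adj y z) : False := by
  have := P.lam h1
  rw [zero_mul, Set.ncard_eq_zero] at this
  exact (this ▸ (⟨h2, h3⟩ : z ∈ {z | D.adj x z ∧ D.adj y z}) : z ∈ (∅ : Set X))

theorem Par.var [Finite G] [Finite X] (P : D.Par b v u 0) (hS : D.Semi) {A C : X}
    (hC : D.nadj A C) :
    D.th A C * D.th A C + D.th A C * (u * b) ≤ D.th A C + (D.k - 1) * (u * b) := by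
  let T : Set G := {c | c ∈ D.K A ∧ D.adj C (c • C)}
  let R : Set G := {c | c ∈ {c | c ∈ (D.K A : Set G) ∧ ¬ D.adj C (c • C)} ∧ ¬ c = 1}
  have h1 := dc_le T R (fun c d => c⁻¹ * d ∈ T) (m := T.ncard - 1) (n := u * b)
    (fun c hc => ?_) fun d hd => ?_
  · have h2 := split (D.K A : Set G) fun c => D.adj C (c • C)
    have h3 := split {c | c ∈ (D.K A : Set G) ∧ ¬ D.adj C (c • C)} (· = 1)
    have e : {c | c ∈ {c | c ∈ (D.K A : Set G) ∧ ¬ D.adj C (c • C)} ∧ c = 1} = {1} :=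
      Set.ext fun c => ⟨fun h => h.2, fun h => by
        rw [h]; exact ⟨⟨one_mem _, by rw [one_smul]; exact D.irrefl C⟩, rfl⟩⟩
    rw [e, Set.ncard_singleton] at h3
    rw [D.ncard_K, h3] at h2
    change D.k = T.ncard + (1 + R.ncard) at h2
    change T.ncard * T.ncard + T.ncard * (u * b) ≤ T.ncard + (D.k - 1) * (u * b)
    rw [show D.k - 1 = T.ncard + R.ncard by omega, add_mul]
    generalize T.ncard = a at h1
    rcases a with _ | a
    · simp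
    · rw [Nat.add_sub_cancel] at h1
      nlinarith
  · have hi : c⁻¹ ∈ T := ⟨inv_mem hc.1, by
      rw [← D.inv_iff c, smul_inv_smul]; exact D.symm hc.2⟩
    rw [← Set.ncard_diff_singleton_of_mem hi]
    refine Set.ncard_le_ncard_of_injOn (fun e => c * e) (fun e he => ⟨⟨⟨mul_mem hc.1 he.1.1,
      fun h => P.no_tri hc.2 h (by rw [mul_smul, D.inv_iff]; exact he.1.2)⟩,
      fun h => he.2 (eq_inv_of_mul_eq_one_right h)⟩, by simpa using he.1⟩)
      fun e _ e' _ h => mul_left_cancel h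
  · rw [← P.mu (x := C) (y := d • C) ⟨fun e => hd.2 (hS A C hC.1 d hd.1.1 e.symm), hd.1.2⟩]
    refine Set.ncard_le_ncard_of_injOn (fun c => c • C) (fun c hc => ⟨hc.1.2, D.symm ?_⟩)
      fun c hc c' hc' e => D.semi_inj hS hC.1 hc.1.1 hc'.1.1 e
    have := D.inv c hc.2.2
    rwa [mul_smul, smul_inv_smul] at this

theorem Par.nine [Finite G] [Finite X] (P : D.Par b v u 0) (hh : Even D.h) (h9 : D.k = 9)
    (h2 : 2 < D.h) (A C : X) : D.th A C = 0 := by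
  rw [th, Set.ncard_eq_zero, Set.eq_empty_iff_forall_notMem]
  intro c hc
  by_cases h3 : c ^ 3 = 1
  · refine P.no_tri hc.2 (D.symm ?_) (D.inv c hc.2)
    have := D.inv c (D.inv c hc.2)
    rwa [← mul_smul c c (c • C), ← mul_smul (c * c) c C, ← sq, ← pow_succ, h3, one_smul] at this
  · have := D.h_le_two hh A (by rw [h9]; norm_num) fun _ => ⟨h9, c, hc.1, h3⟩
    omega

end Data

theorem count (hT : TQStmt.{u}) (hR : SrgStmt.{v}) : CountStmt.{u, v} := by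
  intro G X _ _ _ _ _ D hS hk hh
  obtain ⟨b, v, u, w, P⟩ := D.exists_par hS
  obtain ⟨A⟩ := D.nonempty
  obtain ⟨B, hB⟩ := D.ex1 A
  obtain ⟨C, hC⟩ := D.ex2 A
  obtain ⟨t, ht, hA, -⟩ := D.exists_inv hh hB
  obtain ⟨h1, h2⟩ := P.counts hh ⟨ht, A, hA⟩ hB hC
  have h3 := D.fix_two hk ht hA
  rw [P.fix_J hS hh ht hA] at h3
  have h4 := D.even_fix hk ht
  obtain ⟨a1, a2, -⟩ := tq hT A B (fun s hs t ht h1 h2 =>
    D.inv_unique hk hB h1 h2 hs.1 ht.1 hs.2 ht.2) rfl (D.card_H hB)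
  obtain ⟨c1, c2, c3⟩ := tq hT A C (D.inv_uniq2 hS hk hC.1) rfl (P.cardL hC)
  refine ⟨b, v, u, w, _, _, D.th A C, P.hb, P.bpos, P.hk, P.upos, P.hn, ?_, P.vpos, a1, c1,
    fun hb => ?_, fun hb => ?_, a2, fun _ => c2, c3, fun hw => ?_, fun hw h9 h => ?_,
    fun h21 => ?_, Data.Par.srg D P hR⟩
  · by_cases hb : Even b
    · rw [h3, if_pos hb] at h4
      exact (Nat.even_add.1 h4).1 even_two
    · exact (Nat.even_mul.1 (P.hb ▸ hh)).resolve_right hb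
  · rw [if_neg (Nat.not_even_iff_odd.2 hb)] at h3
    rw [h2, h3]
  · rw [if_pos hb, add_comm] at h3
    rw [P.a1 hS hh hb ht hA hC, h3] at h1
    exact ⟨by rw [h2, h3], h1.symm⟩
  · subst hw
    exact P.var hS hC
  · subst hw
    exact P.nine hh h9 h A C
  · exact D.h_le_two hh A (by rw [h21]; norm_num) fun h => absurd h (by rw [h21]; norm_num)

end Cfsg.Agent.H56.R3
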