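import Cfsg.Agent.H79.R3Defs

/-!
Two orbits on lines: the lines of one colour through a point fill a subspace.
-/

set_option autoImplicit false
set_option linter.unusedSectionVars false

namespace Cfsg.Agent.H56.R3Cb1

open Cfsg Module Cfsg.Agent.H79.R3
open scoped Pointwise

universe u

variable {F V : Type u} [Field F] [Finite F] [AddCommGroup V] [Module F V] [Finite V]

theorem fin_sub : Finite (Submodule F V) := Finite.of_injective _ SetLike.coe_injective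

theorem cov_two (cov : CovStmt.{u}) {A E : Submodule F V} (h : A ≤ E) (e : dm E = dm A + 2) :
    (Cov A E).ncard = Nat.card F + 1 := by
  rw [cov F V A E h, e, Nat.add_sub_cancel_left]
  simp [br, Finset.sum_range_succ, add_comm]

theorem cov_ne (cov : CovStmt.{u}) {A E : Submodule F V} (h : A ≤ E) (e : dm E = dm A + 2) :
    ∃ P, P ∈ Cov A E :=
  Set.nonempty_of_ncard_ne_zero (by rw [cov_two cov h e]; omega)

theorem cnt_add (cov : CovStmt.{u}) (s : Submodule F V → Prop) {A E : Submodule F V} (h : A ≤ E)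
    (e : dm E = dm A + 2) : cnt s A E + cnt (fun P => ¬ s P) A E = Nat.card F + 1 := by
  have := fin_sub (F := F) (V := V)
  rw [← cov_two cov h e, cnt, cnt, ← Set.ncard_union_eq]
  · congr 1
    ext P
    simp only [Set.mem_union, Set.mem_ofPred_eq]
    tauto
  · rw [Set.disjoint_left]
    rintro P ⟨-, a⟩ ⟨-, b⟩
    exact b a

theorem cnt_pos {s : Submodule F V → Prop} {A E P : Submodule F V} (h : P ∈ Cov A E) (hs : s P) :
    1 ≤ cnt s A E := by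
  have := fin_sub (F := F) (V := V)
  exact (Set.ncard_pos (Set.toFinite _)).2 ⟨P, h, hs⟩

theorem cnt_zero {s : Submodule F V → Prop} {A E : Submodule F V} (h : ∀ P ∈ Cov A E, ¬ s P) :
    cnt s A E = 0 := by
  have : {P | P ∈ Cov A E ∧ s P} = ∅ := Set.eq_empty_of_forall_notMem fun P m => h P m.1 m.2
  rw [cnt, this, Set.ncard_empty]

theorem half (zb : ZbStmt.{u}) {A : Submodule F V} {s : Submodule F V → Prop} {b : ℕ}
    (hn : dm A + 4 ≤ finrank F V) (hb : b ≤ Nat.card F)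
    (h : ∀ L, A ≤ L → dm L = dm A + 2 → cnt s A L = 0 ∨ cnt s A L = b)
    (h0 : ∃ L, A ≤ L ∧ dm L = dm A + 2 ∧ cnt s A L = 0) (hs : ∃ P ∈ Cov A ⊤, s P) :
    ∃ W, A ≤ W ∧ ((∀ P ∈ Cov A ⊤, s P ↔ P ≤ W) ∨ ∀ P ∈ Cov A ⊤, ¬ s P ↔ P ≤ W) := by
  rcases zb F V A s b hn hb h h0 hs with ⟨P₀, m, k⟩ | ⟨H, l, -, k⟩
  · refine ⟨P₀, m.1, Or.inl fun P hP => (k P hP).trans ⟨fun e => e.le, fun l => ?_⟩⟩
    exact Submodule.eq_of_le_of_finrank_eq l (hP.2.2.trans m.2.2.symm)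
  · exact ⟨H, l, Or.inr fun P hP => by rw [k P hP, not_not]⟩

theorem core (cov : CovStmt.{u}) (zb : ZbStmt.{u}) (zt : ZtStmt.{u}) (zs : ZsStmt.{u})
    {A : Submodule F V} {s : Submodule F V → Prop} {b : ℕ} (hn : dm A + 4 ≤ finrank F V)
    (b1 : 1 ≤ b) (hb : b ≤ Nat.card F)
    (h : ∀ L, A ≤ L → dm L = dm A + 2 →
      cnt s A L = 0 ∨ cnt s A L = b ∨ cnt s A L = Nat.card F + 1)
    (h0 : ∃ L, A ≤ L ∧ dm L = dm A + 2 ∧ (cnt s A L = 0 ∨ cnt s A L = Nat.card F + 1))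
    (hs : ∃ P ∈ Cov A ⊤, s P) (hs' : ∃ P ∈ Cov A ⊤, ¬ s P) :
    ∃ W, A ≤ W ∧ ((∀ P ∈ Cov A ⊤, s P ↔ P ≤ W) ∨ ∀ P ∈ Cov A ⊤, ¬ s P ↔ P ≤ W) := by
  by_cases p1 : ∃ L, A ≤ L ∧ dm L = dm A + 2 ∧ cnt s A L = Nat.card F + 1
  · by_cases p0 : ∃ L, A ≤ L ∧ dm L = dm A + 2 ∧ cnt s A L = 0
    · rcases zt F V A s b b1 hb h p0 p1 with rfl | rfl
      · obtain ⟨W, l, k⟩ := zs F V A s h
        exact ⟨W, l, Or.inl k⟩
      · obtain ⟨W, l, k⟩ := zs F V A (fun P => ¬ s P) fun L l e => by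
          have := cnt_add cov s l e
          have := h L l e
          omega
        exact ⟨W, l, Or.inr k⟩
    · obtain ⟨W, l, k⟩ := half zb (s := fun P => ¬ s P) (b := Nat.card F + 1 - b) hn (by omega)
        (fun L l e => by
          have := cnt_add cov s l e
          have := h L l e
          have : cnt s A L ≠ 0 := fun z => p0 ⟨L, l, e, z⟩
          omega)
        (by
          obtain ⟨L, l, e, z⟩ := p1
          have := cnt_add cov s l e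
          exact ⟨L, l, e, by omega⟩) hs'
      refine ⟨W, l, k.symm.imp (fun k P hP => ?_) id⟩
      rw [← k P hP, not_not]
  · refine half zb hn hb (fun L l e => ?_) ?_ hs
    · have := h L l e
      have : cnt s A L ≠ Nat.card F + 1 := fun z => p1 ⟨L, l, e, z⟩
      omega
    · obtain ⟨L, l, e, z | z⟩ := h0
      · exact ⟨L, l, e, z⟩
      · exact absurd ⟨L, l, e, z⟩ p1

theorem five {a b c d e : Fin 4} (h1 : a ≠ b) (h2 : a ≠ c) (h3 : a ≠ d) (h4 : a ≠ e) (h5 : b ≠ c)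
    (h6 : b ≠ d) (h7 : b ≠ e) (h8 : c ≠ d) (h9 : c ≠ e) (h10 : d ≠ e) : False := by
  omega

theorem third : ∀ a b : Fin 3, ∃ j, j ≠ a ∧ j ≠ b := by decide

theorem other : ∀ a : Fin 2, ¬ a = 0 ↔ a = 1 := by decide

theorem other' : ∀ a : Fin 2, ∃ j, j ≠ a := by decide

theorem cb1 (cov : CovStmt.{u}) (zb : ZbStmt.{u}) (zt : ZtStmt.{u}) (zs : ZsStmt.{u}) :
    Cb1Stmt.{u} := by
  classical
  intro F V _ _ _ _ _ K hn tr ⟨c2, s2, h2⟩ _ ⟨c13, s13, h13⟩ ⟨c3, _, h3⟩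
  obtain ⟨x, -, -, hx, -, -⟩ := s13 0
  have inv2 : ∀ g ∈ K, ∀ L, dm L = 2 → c2 (g • L) = c2 L := fun g hg L e =>
    ((h2 L (g • L) e ((dm_smul g L).trans e)).2 ⟨g, hg, rfl⟩).symm
  have exL : ∀ j, ∃ L ∈ Cov x ⊤, c2 L = j := fun j => by
    obtain ⟨L, e, c⟩ := s2 j
    obtain ⟨y, -, l, hy⟩ := cov_ne cov (A := ⊥) (E := L) bot_le (by rw [e, dm, finrank_bot])
    rw [dm, dm, finrank_bot] at hy
    obtain ⟨g, hg, rfl⟩ := tr y x hy hx
    exact ⟨g • L, ⟨smul_le_smul.2 l, le_top, by rw [dm_smul, e, hx]⟩, (inv2 g hg L e).trans c⟩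
  have exE : ∀ j, ∃ E, x ≤ E ∧ dm E = 3 ∧ c13 x E = j := fun j => by
    obtain ⟨y, E, l, hy, e, c⟩ := s13 j
    obtain ⟨g, hg, rfl⟩ := tr y x hy hx
    have e' := (dm_smul g E).trans e
    exact ⟨g • E, smul_le_smul.2 l, e',
      ((h13 y E _ _ l hy e (smul_le_smul.2 l) hx e').2 ⟨g, hg, rfl, rfl⟩).symm.trans c⟩
  have key : ∀ E E' L L', dm E = 3 → dm E' = 3 → L ∈ Cov x E → L' ∈ Cov x E' →
      c3 x L E = c3 x L' E' → c13 x E = c13 x E' ∧ c2 L = c2 L' := by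
    intro E E' L L' e e' m m' c
    have d : dm L = 2 := by rw [m.2.2, hx]
    have d' : dm L' = 2 := by rw [m'.2.2, hx]
    obtain ⟨g, hg, g1, g2, g3⟩ :=
      (h3 x L E x L' E' ⟨m.1, m.2.1, hx, d, e⟩ ⟨m'.1, m'.2.1, hx, d', e'⟩).1 c
    exact ⟨(h13 x E x E' (m.1.trans m.2.1) hx e (m'.1.trans m'.2.1) hx e').2 ⟨g, hg, g1, g3⟩,
      (h2 L L' d d').2 ⟨g, hg, g2⟩⟩
  let Mx : Submodule F V → Prop := fun E =>
    (∃ L ∈ Cov x E, c2 L = 0) ∧ ∃ L ∈ Cov x E, ¬ c2 L = 0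
  have mx : ∀ E E', dm E = 3 → dm E' = 3 → Mx E → Mx E' → c13 x E = c13 x E' := by
    rintro E E' e e' ⟨⟨L0, m0, k0⟩, L1, m1, k1⟩ ⟨⟨L2, m2, k2⟩, L3, m3, k3⟩
    by_contra hne
    obtain ⟨j, j1, j2⟩ := third (c13 x E) (c13 x E')
    obtain ⟨D, l, d, rfl⟩ := exE j
    obtain ⟨L4, m4⟩ := cov_ne cov l (by rw [d, hx])
    exact five (a := c3 x L0 E) (b := c3 x L1 E) (c := c3 x L2 E') (d := c3 x L3 E')
      (e := c3 x L4 D)
      (fun c => k1 ((key _ _ _ _ e e m0 m1 c).2.symm.trans k0))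
      (fun c => hne (key _ _ _ _ e e' m0 m2 c).1) (fun c => hne (key _ _ _ _ e e' m0 m3 c).1)
      (fun c => j1 (key _ _ _ _ e d m0 m4 c).1.symm)
      (fun c => hne (key _ _ _ _ e e' m1 m2 c).1) (fun c => hne (key _ _ _ _ e e' m1 m3 c).1)
      (fun c => j1 (key _ _ _ _ e d m1 m4 c).1.symm)
      (fun c => k3 ((key _ _ _ _ e' e' m2 m3 c).2.symm.trans k2))
      (fun c => j2 (key _ _ _ _ e' d m2 m4 c).1.symm)
      (fun c => j2 (key _ _ _ _ e' d m3 m4 c).1.symm)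
  obtain ⟨L0, m0, k0⟩ := exL 0
  obtain ⟨L1, m1, k1⟩ := exL 1
  have k1' : ¬ c2 L1 = 0 := (other _).2 k1
  have eM : dm (L0 ⊔ L1) = 3 := by
    have a := Submodule.finrank_sup_add_finrank_inf_eq L0 L1
    have a0 : finrank F L0 = 2 := m0.2.2.trans (by rw [hx])
    have a1 : finrank F L1 = 2 := m1.2.2.trans (by rw [hx])
    have b : 1 ≤ finrank F (L0 ⊓ L1 : Submodule F V) :=
      hx ▸ Submodule.finrank_mono (le_inf m0.1 m1.1)
    have c : finrank F (L0 ⊓ L1 : Submodule F V) ≠ 2 := fun c => by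
      have e0 := Submodule.eq_of_le_of_finrank_eq (inf_le_left : L0 ⊓ L1 ≤ L0) (c.trans a0.symm)
      have e1 := Submodule.eq_of_le_of_finrank_eq (inf_le_right : L0 ⊓ L1 ≤ L1) (c.trans a1.symm)
      exact k1' (by rw [← e1, e0, k0])
    have d : finrank F (L0 ⊓ L1 : Submodule F V) ≤ 2 :=
      a0 ▸ Submodule.finrank_mono inf_le_left
    unfold dm
    omega
  have n0 : L0 ∈ Cov x (L0 ⊔ L1) := ⟨m0.1, le_sup_left, m0.2.2⟩
  have n1 : L1 ∈ Cov x (L0 ⊔ L1) := ⟨m1.1, le_sup_right, m1.2.2⟩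
  have lM : x ≤ L0 ⊔ L1 := m0.1.trans le_sup_left
  have mM : Mx (L0 ⊔ L1) := ⟨⟨L0, n0, k0⟩, L1, n1, k1'⟩
  have pure : ∀ E, x ≤ E → dm E = dm x + 2 → ¬ Mx E →
      cnt (fun L => c2 L = 0) x E = 0 ∨ cnt (fun L => c2 L = 0) x E = Nat.card F + 1 := by
    intro E l e h
    rcases not_and_or.1 h with h | h
    · exact Or.inl (cnt_zero fun P m c => h ⟨P, m, c⟩)
    · have a := cnt_add cov (fun L => c2 L = 0) l e
      rw [cnt_zero (s := fun L => ¬ c2 L = 0) fun P m c => h ⟨P, m, c⟩] at a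
      exact Or.inr a
  obtain ⟨W0, lW, hW⟩ := core cov zb zt zs (A := x) (s := fun L => c2 L = 0)
    (b := cnt (fun L => c2 L = 0) x (L0 ⊔ L1)) (by rw [hx]; exact hn) (cnt_pos n0 k0)
    (by
      have a := cnt_add cov (fun L => c2 L = 0) lM (by rw [eM, hx])
      have b := cnt_pos (s := fun L => ¬ c2 L = 0) n1 k1'
      omega)
    (fun E l e => by
      by_cases h : Mx E
      · have e' : dm E = 3 := by rw [e, hx]
        obtain ⟨g, hg, g1, g2⟩ := (h13 x _ x E lM hx eM l hx e').1 (mx _ _ eM e' mM h)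
        refine Or.inr (Or.inl ?_)
        have := cnt_smul g (s := fun L => c2 L = 0) (s' := fun L => c2 L = 0) (A := x)
          (D := L0 ⊔ L1) fun P m => by rw [inv2 g hg P (by rw [m.2.2, hx])]
        rwa [g1, g2] at this
      · exact (pure E l e h).imp id Or.inr)
    (by
      obtain ⟨j, j1, -⟩ := third (c13 x (L0 ⊔ L1)) 0
      obtain ⟨D, l, d, rfl⟩ := exE j
      exact ⟨D, l, by rw [d, hx], pure D l (by rw [d, hx]) fun h => j1 (mx _ _ d eM h mM)⟩)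
    ⟨L0, m0, k0⟩ ⟨L1, m1, k1'⟩
  obtain ⟨j, hj⟩ : ∃ j, ∀ P ∈ Cov x ⊤, c2 P = j ↔ P ≤ W0 := by
    rcases hW with h | h
    · exact ⟨0, h⟩
    · exact ⟨1, fun P m => by rw [← h P m, other]⟩
  have w1 : 2 ≤ dm W0 := by
    obtain ⟨L, m, c⟩ := exL j
    have := Submodule.finrank_mono ((hj L m).1 c)
    have e := m.2.2
    unfold dm at *
    omega
  have w2 : dm W0 < finrank F V := by
    obtain ⟨i, hi⟩ := other' j
    obtain ⟨L, m, c⟩ := exL i
    refine Submodule.finrank_lt fun e => hi ?_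
    rw [← c, hj L m, e]
    exact le_top
  choose g hg gx using fun y (h : dm y = 1) => tr x y hx h
  refine ⟨fun L => c2 L = j, fun y => if h : dm y = 1 then g y h • W0 else ⊥, dm W0 - 1,
    ⟨fun a ha L e => by rw [inv2 a ha L e], fun y h => ?_, fun y h => ?_, fun y L h e l => ?_⟩,
    by omega, by omega⟩
  · rw [dif_pos h]
    exact (gx y h).symm.le.trans (smul_le_smul.2 lW)
  · rw [dif_pos h, dm_smul]
    omega
  · rw [dif_pos h, ← inv2 _ (K.inv_mem (hg y h)) L e, hj, ← smul_le_smul (g := g y h),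
      smul_inv_smul]
    refine ⟨?_, le_top, by rw [dm_smul, e, hx]⟩
    rw [← smul_le_smul (g := g y h), smul_inv_smul, gx]
    exact l

end Cfsg.Agent.H56.R3Cb1
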