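import Cfsg.Agent.H79.R3Defs
import Cfsg.Agent.S2425

/-!
The standard flag of a composition with four parts.
-/

set_option autoImplicit false

namespace Cfsg.Agent.H56.R3Flg

open Cfsg Module Cfsg.Agent.H79.R3 Cfsg.Agent.H75 Cfsg.Agent.S2425
open scoped Pointwise MatrixGroups

universe u

theorem ps {n a b d : ℕ} (hn : 4 ≤ n) (h1 : a ≤ b) (h2 : b ≤ d) (h3 : d ≤ n) :
    psum (cmp n a b d) 1 = a ∧ psum (cmp n a b d) 2 = b ∧ psum (cmp n a b d) 3 = d ∧
      psum (cmp n a b d) 4 = n := by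
  have e0 := psum_zero (cmp n a b d)
  have e1 := psum_succ (cmp n a b d) ⟨0, by omega⟩
  have e2 := psum_succ (cmp n a b d) ⟨1, by omega⟩
  have e3 := psum_succ (cmp n a b d) ⟨2, by omega⟩
  have e4 := psum_succ (cmp n a b d) ⟨3, by omega⟩
  simp [H79.R3.cmp] at e1 e2 e3 e4
  omega

theorem flg : FlgStmt.{u} := by
  intro n F _ a b d hn h1 h2 h3
  obtain ⟨p1, p2, p3, p4⟩ := ps hn h1 h2 h3
  have hμ := sum_cmp hn h1 h2 h3
  have Em : Monotone (E F (cmp n a b d)) := fun s t h v hv =>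
    mem_E.2 fun i hi => mem_E.1 hv i ((psum_mono _ h).trans hi)
  have fl : Fl a b d (E F (cmp n a b d) ⟨1, by omega⟩) (E F (cmp n a b d) ⟨2, by omega⟩)
      (E F (cmp n a b d) ⟨3, by omega⟩) :=
    ⟨Em (Fin.mk_le_mk.2 (by omega)), Em (Fin.mk_le_mk.2 (by omega)), (finrank_E hμ _).trans p1,
      (finrank_E hμ _).trans p2, (finrank_E hμ _).trans p3⟩
  have par : ∀ g : GL (Fin n) F, g ∈ parabolicGL n F (cmp n a b d) ↔
      lin n F g • E F (cmp n a b d) ⟨1, by omega⟩ = E F (cmp n a b d) ⟨1, by omega⟩ ∧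
      lin n F g • E F (cmp n a b d) ⟨2, by omega⟩ = E F (cmp n a b d) ⟨2, by omega⟩ ∧
      lin n F g • E F (cmp n a b d) ⟨3, by omega⟩ = E F (cmp n a b d) ⟨3, by omega⟩ := by
    intro g
    rw [mem_P]
    constructor
    · intro h
      have k : ∀ s, lin n F g • E F (cmp n a b d) s = E F (cmp n a b d) s := fun s => by
        refine Submodule.eq_of_le_of_finrank_eq ?_ (dm_smul _ _)
        rintro _ ⟨v, hv, rfl⟩
        exact h s v hv
      exact ⟨k _, k _, k _⟩
    · rintro ⟨k1, k2, k3⟩ ⟨s, hs⟩ v hv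
      have m := (smul_mem_smul (g := lin n F g)).2 hv
      rcases s with _ | _ | _ | _ | s
      · have : v = 0 := funext fun i => mem_E.1 hv i (by simp [psum_zero])
        rw [this, map_zero]
        exact zero_mem _
      · rw [k1] at m
        exact m
      · rw [k2] at m
        exact m
      · rw [k3] at m
        exact m
      · refine mem_E.2 fun i hi => ?_
        have := psum_mono (cmp n a b d) (show 4 ≤ s + 1 + 1 + 1 + 1 by omega)
        have := i.2
        simp only at hi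
        omega
  refine ⟨_, _, _, fl, par, fun A' B' D' fl' => ?_⟩
  obtain ⟨e, he⟩ := S2425.trans 3 ![E F (cmp n a b d) ⟨1, by omega⟩,
      E F (cmp n a b d) ⟨2, by omega⟩, E F (cmp n a b d) ⟨3, by omega⟩] ![A', B', D']
    (Fin.monotone_iff_le_succ.2 fun i => by
      fin_cases i
      · exact fl.1
      · exact fl.2.1)
    (Fin.monotone_iff_le_succ.2 fun i => by
      fin_cases i
      · exact fl'.1
      · exact fl'.2.1)
    (fun i => by
      fin_cases i
      · exact fl.2.2.1.trans fl'.2.2.1.symm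
      · exact fl.2.2.2.1.trans fl'.2.2.2.1.symm
      · exact fl.2.2.2.2.trans fl'.2.2.2.2.symm)
  obtain ⟨g, rfl⟩ := (ρ (F := F) (n := n)).surjective e
  have hd : (g : Matrix (Fin n) (Fin n) F).det ≠ 0 := g.det_ne_zero
  let M : Matrix (Fin n) (Fin n) F :=
    Matrix.diagonal (Function.update 1 ⟨0, by omega⟩ (g : Matrix (Fin n) (Fin n) F).det⁻¹)
  have hM : M.det = (g : Matrix (Fin n) (Fin n) F).det⁻¹ := by
    rw [Matrix.det_diagonal, Finset.prod_update_of_mem (Finset.mem_univ _)]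
    simp
  let m : GL (Fin n) F := Matrix.GeneralLinearGroup.mkOfDetNeZero M (by rw [hM]; exact inv_ne_zero hd)
  obtain ⟨m1, m2, m3⟩ := (par m).1 (Matrix.blockTriangular_diagonal _)
  let s : Matrix.SpecialLinearGroup (Fin n) F :=
    ⟨g * M, by rw [Matrix.det_mul, hM, mul_inv_cancel₀ hd]⟩
  have es : slin n F s = lin n F g * lin n F m := by
    rw [← map_mul]
    exact congrArg (lin n F) (Units.ext rfl)
  refine ⟨s, ?_, ?_, ?_⟩
  · rw [es, mul_smul, m1]
    exact he 0
  · rw [es, mul_smul, m2]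
    exact he 1
  · rw [es, mul_smul, m3]
    exact he 2

end Cfsg.Agent.H56.R3Flg
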