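import Cfsg.Agent.H56.R3Defs

/-! Basic lemmas for rank 3 groups with a Frobenius point stabiliser. -/

set_option autoImplicit false

namespace Cfsg.Agent.H56.R3

open MulAction

universe u v

variable {G : Type u} {X : Type v} [Group G] [MulAction G X]

namespace Data

variable (D : Data G X)

theorem ne_of_adj {x y : X} (h : D.adj x y) : x ≠ y := fun e => D.irrefl x (e ▸ h)

theorem inv_iff (g : G) {x y : X} : D.adj (g • x) (g • y) ↔ D.adj x y :=
  ⟨fun h => by simpa using D.inv g⁻¹ h, D.inv g⟩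

theorem K_conj_iff (g : G) (x : X) (c : G) : g * c * g⁻¹ ∈ D.K (g • x) ↔ c ∈ D.K x :=
  ⟨fun h => by simpa [mul_assoc] using D.K_conj g⁻¹ _ _ h, D.K_conj g x c⟩

theorem K_fix {x : X} {c : G} (hc : c ∈ D.K x) : c • x = x := D.K_le x hc

theorem K_normal {x : X} {g c : G} (hg : g • x = x) (hc : c ∈ D.K x) : g * c * g⁻¹ ∈ D.K x := by
  have := D.K_conj g x c hc
  rwa [hg] at this

theorem coprime : D.k.Coprime D.h := by
  obtain ⟨e, -, he⟩ := D.dvd
  rw [he]
  simp

theorem odd_k (h : Even D.h) : Odd D.k := by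
  obtain ⟨e, -, he⟩ := D.dvd
  rw [he]
  exact odd_one.add_even (h.mul_left e)

theorem h_lt_k : D.h < D.k := by
  obtain ⟨e, h0, he⟩ := D.dvd
  have : D.h ≤ e * D.h := Nat.le_mul_of_pos_left _ h0
  omega

theorem orderOf_dvd {x : X} {c : G} (hc : c ∈ D.K x) : orderOf c ∣ D.k := by
  rw [← D.card_K x]; exact Subgroup.orderOf_dvd_natCard _ hc

/-- An element of a kernel lies in the kernel of each of its fixed points. -/
theorem mem_K_of_fix {x y : X} {c : G} (hc : c ∈ D.K x) (hy : c • y = y) : c ∈ D.K y :=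
  D.mem_K c hy (D.coprime.coprime_dvd_left (D.orderOf_dvd hc))

/-- Fixed points of a non-trivial element of a kernel are not adjacent. -/
theorem not_adj_of_fix {x y z : X} {c : G} (hc : c ∈ D.K x) (h1 : c ≠ 1) (hy : c • y = y)
    (hz : c • z = z) : ¬ D.adj y z := fun h => h1 (D.K_free h c (D.mem_K_of_fix hc hy) hz)

theorem not_mem_K (hk : Odd D.k) {x : X} {t : G} (ht : orderOf t = 2) : t ∉ D.K x := fun h =>
  (Nat.not_even_iff_odd.2 hk) (even_iff_two_dvd.2 (ht ▸ D.orderOf_dvd h))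

/-- An involution fixing `x` inverts `K x`. -/
theorem inverts [Finite G] (hk : Odd D.k) {x : X} {t : G} (ht : orderOf t = 2) (hx : t • x = x)
    {c : G} (hc : c ∈ D.K x) : t * c * t⁻¹ = c⁻¹ := by
  have h2 : t * t = 1 := by rw [← sq, ← ht, pow_orderOf_eq_one]
  let f : D.K x → D.K x := fun a => ⟨(a : G)⁻¹ * (t * a * t⁻¹),
    mul_mem (inv_mem a.2) (D.K_normal hx a.2)⟩
  have hf : Function.Injective f := fun a b e => by
    have e1 : (a : G)⁻¹ * (t * a * t⁻¹) = (b : G)⁻¹ * (t * b * t⁻¹) := congrArg Subtype.val e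
    have := D.fpf t ((a : G) * (b : G)⁻¹) hx (D.not_mem_K hk ht) (mul_mem a.2 (inv_mem b.2)) (by
      calc t * ((a : G) * (b : G)⁻¹)
          = a * ((a : G)⁻¹ * (t * a * t⁻¹)) * (t * (b : G)⁻¹) := by group
        _ = a * (b : G)⁻¹ * t := by rw [e1]; group)
    exact Subtype.ext (mul_inv_eq_one.1 this)
  obtain ⟨a, ha⟩ := Finite.surjective_of_injective hf ⟨c, hc⟩
  have e1 : (a : G)⁻¹ * (t * a * t⁻¹) = c := congrArg Subtype.val ha
  have h3 : t⁻¹ = t := inv_eq_of_mul_eq_one_right h2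
  rw [← e1, h3]
  calc t * ((a : G)⁻¹ * (t * a * t)) * t = t * (a : G)⁻¹ * t * a * (t * t) := by group
    _ = ((a : G)⁻¹ * (t * a * t))⁻¹ := by rw [h2]; simp [mul_assoc, h3]

theorem exists_inv [Finite G] (hh : Even D.h) {x y : X} (hxy : D.adj x y) :
    ∃ t : G, orderOf t = 2 ∧ t • x = x ∧ t • y = y := by
  have : Fact (Nat.Prime 2) := ⟨Nat.prime_two⟩
  obtain ⟨t, ht⟩ := exists_prime_orderOf_dvd_card' (G := ↥(stabilizer G x ⊓ stabilizer G y)) 2
    (by rw [D.card_H hxy]; exact even_iff_two_dvd.1 hh)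
  exact ⟨t, by rw [Subgroup.orderOf_coe, ht], t.2.1, t.2.2⟩

/-- If `h` is even, the kernels are abelian. -/
theorem K_comm [Finite G] (hh : Even D.h) {x : X} {c d : G} (hc : c ∈ D.K x) (hd : d ∈ D.K x) :
    c * d = d * c := by
  obtain ⟨y, hy⟩ := D.ex1 x
  obtain ⟨t, ht, hx, -⟩ := D.exists_inv hh hy
  have h1 := D.inverts (D.odd_k hh) ht hx (mul_mem hc hd)
  have h2 : t * (c * d) * t⁻¹ = (t * c * t⁻¹) * (t * d * t⁻¹) := by group
  rw [h2, D.inverts (D.odd_k hh) ht hx hc, D.inverts (D.odd_k hh) ht hx hd, ← mul_inv_rev,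
    inv_inj] at h1
  exact h1.symm

theorem exists_K_ne [Finite G] (x : X) : ∃ c ∈ D.K x, c ≠ 1 := by
  by_contra h
  push Not at h
  have h1 : D.K x = ⊥ := (Subgroup.eq_bot_iff_forall _).2 h
  have h2 := D.card_K x
  rw [h1, Subgroup.card_bot] at h2
  have := D.h_lt_k
  have := D.one_lt
  omega

/-- The product of two involutions fixing `x` lies in `K x`. -/
theorem mul_mem_K [Finite G] (hk : Odd D.k) {x : X} {s t : G} (hs : orderOf s = 2)
    (ht : orderOf t = 2) (hsx : s • x = x) (htx : t • x = x) : s * t ∈ D.K x := by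
  by_contra h
  obtain ⟨c, hc, h1⟩ := D.exists_K_ne x
  refine h1 (D.fpf (s * t) c (by rw [mul_smul, htx, hsx]) h hc ?_)
  have e1 := D.inverts hk ht htx hc
  have e2 := D.inverts hk hs hsx (inv_mem hc)
  rw [← mul_inv_eq_iff_eq_mul]
  calc s * t * c * (s * t)⁻¹ = s * (t * c * t⁻¹) * s⁻¹ := by group
    _ = c := by rw [e1, e2, inv_inv]

/-- An edge is fixed by at most one involution. -/
theorem inv_unique [Finite G] (hk : Odd D.k) {x y : X} (hxy : D.adj x y) {s t : G}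
    (hs : orderOf s = 2) (ht : orderOf t = 2) (hsx : s • x = x) (htx : t • x = x)
    (hsy : s • y = y) (hty : t • y = y) : s = t := by
  have h1 := D.K_free hxy _ (D.mul_mem_K hk hs ht hsx htx) (by rw [mul_smul, hty, hsy])
  have h2 : t * t = 1 := by rw [← sq, ← ht, pow_orderOf_eq_one]
  exact mul_right_cancel (h1.trans h2.symm)

/-- A subgroup normalised by the stabiliser of `x` and contained in `K x` fixes no other point. -/
theorem eq_of_fix {x y : X} {Z : Subgroup G} (hZ : Z ≤ D.K x) (h1 : Z ≠ ⊥)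
    (hn : ∀ g : G, g • x = x → ∀ z ∈ Z, g * z * g⁻¹ ∈ Z) (hy : ∀ z ∈ Z, z • y = y) : x = y := by
  by_contra hxy
  obtain ⟨⟨z, hz⟩, hz1⟩ := Subgroup.ne_bot_iff_exists_ne_one.1 h1
  have hz1' : z ≠ 1 := fun e => hz1 (Subtype.ext e)
  have hna : ¬ D.adj x y := D.not_adj_of_fix (hZ hz) hz1' (D.K_fix (hZ hz)) (hy z hz)
  obtain ⟨w, hw, hw'⟩ := D.mu_lt (Ne.symm hxy) fun h => hna (D.symm h)
  have hxw : x ≠ w := fun e => hna (D.symm (e ▸ hw))
  obtain ⟨g, hg1, hg2⟩ := D.tr2 hxy hna hxw hw'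
  have h2 := hy _ (hn g⁻¹ (by rw [inv_smul_eq_iff, hg1]) z hz)
  refine D.not_adj_of_fix (hZ hz) hz1' (hy z hz) ?_ hw
  rw [← hg2]
  rw [inv_inv, mul_smul, mul_smul, inv_smul_eq_iff] at h2
  exact h2

end Data

end Cfsg.Agent.H56.R3
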