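import Cfsg.Agent.H56.R3Cb1

/-!
An orbit of even length of a point stabiliser.
-/

set_option autoImplicit false
set_option linter.unusedSectionVars false

namespace Cfsg.Agent.H56.R3Par2

open Cfsg Module Cfsg.Agent.H79.R3 Cfsg.Agent.H56.R3Cb1
open scoped Pointwise

universe u

variable {F V : Type u} [Field F] [Finite F] [AddCommGroup V] [Module F V] [Finite V]

theorem br_succ (q k : ℕ) : br q (k + 1) = br q k + q ^ k := Finset.sum_range_succ _ _

theorem br_mod {q : ℕ} (hq : Odd q) (k : ℕ) : br q k % 2 = k % 2 := by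
  induction k with
  | zero => simp [br]
  | succ k ih =>
    have := Nat.odd_iff.1 (hq.pow (n := k))
    rw [br_succ]
    omega

theorem br_two (q k : ℕ) : br q (2 * k) = br (q ^ 2) k * (q + 1) := by
  induction k with
  | zero => simp [br]
  | succ k ih =>
    rw [show 2 * (k + 1) = 2 * k + 1 + 1 by ring, br_succ, br_succ, br_succ, ih]
    ring

/-- the subspaces of dimension `dm A + 2` over `A` -/
def Cov2 (A : Submodule F V) : Set (Submodule F V) := {D | A ≤ D ∧ dm D = dm A + 2}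

theorem card_cov2 (cov : CovStmt.{u}) (A : Submodule F V) :
    (Cov2 A).ncard * (Nat.card F + 1) =
      br (Nat.card F) (finrank F V - dm A) * br (Nat.card F) (finrank F V - dm A - 1) := by
  classical
  have := fin_sub (F := F) (V := V)
  have := Fintype.ofFinite (Submodule F V)
  have c : ∀ (S : Set (Submodule F V)) (t : Finset (Submodule F V)), (∀ x, x ∈ t ↔ x ∈ S) →
      t.card = S.ncard := fun S t h => by
    rw [← Set.ncard_coe_finset]
    congr 1
    ext x
    exact h x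
  have top : dm (⊤ : Submodule F V) = finrank F V := finrank_top F V
  have k := Finset.card_mul_eq_card_mul (s := Finset.univ.filter (· ∈ Cov A ⊤))
    (t := Finset.univ.filter (· ∈ Cov2 A)) (fun P D => P ≤ D)
    (m := br (Nat.card F) (finrank F V - dm A - 1)) (n := Nat.card F + 1)
    (fun P hP => by
      have hP : P ∈ Cov A ⊤ := (Finset.mem_filter.1 hP).2
      rw [c (Cov P ⊤), cov F V P ⊤ le_top, top, hP.2.2, Nat.sub_sub]
      intro D
      simp only [Finset.mem_bipartiteAbove, Finset.mem_filter, Finset.mem_univ, true_and]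
      exact ⟨fun h => ⟨h.2, le_top, by rw [h.1.2, hP.2.2]⟩,
        fun h => ⟨⟨hP.1.trans h.1, by rw [h.2.2, hP.2.2]⟩, h.1⟩⟩)
    (fun D hD => by
      have hD : D ∈ Cov2 A := (Finset.mem_filter.1 hD).2
      rw [c (Cov A D), cov_two cov hD.1 hD.2]
      intro P
      simp only [Finset.mem_bipartiteBelow, Finset.mem_filter, Finset.mem_univ, true_and]
      exact ⟨fun h => ⟨h.1.1, h.2, h.1.2.2⟩, fun h => ⟨⟨h.1, le_top, h.2.2⟩, h.2.1⟩⟩)
  rw [c (Cov A ⊤) _ (by simp), c (Cov2 A) _ (by simp), cov F V A ⊤ le_top, top] at k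
  exact k.symm

theorem orbit_eq {Γ : Subgroup (V ≃ₗ[F] V)} {A : Submodule F V} {S : Set (Submodule F V)}
    (h : ∀ B, B ∈ S ↔ ∃ g ∈ Γ, g • A = B) : MulAction.orbit Γ A = S := by
  ext B
  rw [h]
  exact ⟨fun ⟨g, e⟩ => ⟨g, g.2, e⟩, fun ⟨g, hg, e⟩ => ⟨⟨g, hg⟩, e⟩⟩

theorem exists_cov (cov : CovStmt.{u}) {A : Submodule F V} (h : dm A < finrank F V) :
    ∃ P, P ∈ Cov A ⊤ := by
  refine Set.nonempty_of_ncard_ne_zero ?_
  have top : dm (⊤ : Submodule F V) = finrank F V := finrank_top F V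
  obtain ⟨k, hk⟩ : ∃ k, finrank F V - dm A = k + 1 := ⟨finrank F V - dm A - 1, by omega⟩
  rw [cov F V A ⊤ le_top, top, hk, br_succ]
  have : 0 < Nat.card F ^ k := pow_pos Nat.card_pos k
  omega

theorem par2 (cov : CovStmt.{u}) (ev : EvStmt.{u}) : Par2Stmt.{u} := by
  intro F V _ _ _ _ _ K hn hq t2 t3 o4
  have := fin_sub (F := F) (V := V)
  have top : dm (⊤ : Submodule F V) = finrank F V := finrank_top F V
  have bot : dm (⊥ : Submodule F V) = 0 := finrank_bot F V
  obtain ⟨x, -, -, hx⟩ := exists_cov cov (A := (⊥ : Submodule F V)) (by omega)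
  rw [bot] at hx
  obtain ⟨L, xL, -, hL⟩ := exists_cov cov (A := x) (by omega)
  rw [hx] at hL
  obtain ⟨E, LE, -, hE⟩ := exists_cov cov (A := L) (by omega)
  rw [hL] at hE
  have fin : ∀ (Γ : Subgroup (V ≃ₗ[F] V)) (A : Submodule F V),
      Γ ≤ K ⊓ MulAction.stabilizer (V ≃ₗ[F] V) x → Even (MulAction.orbit Γ A).ncard → PtInv K := by
    intro Γ A l e
    obtain ⟨g, hg, g1, g2⟩ := ev F V Γ A e
    exact ⟨g, (l hg).1, x, hx, (l hg).2, g1, g2⟩
  have hq2 : Odd (Nat.card F ^ 2) := hq.pow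
  rcases Nat.even_or_odd' (finrank F V) with ⟨k, hk | hk⟩
  · rcases Nat.even_or_odd' k with ⟨m, hm | hm⟩
    · obtain ⟨c, s, h⟩ := o4 (by omega)
      have ex : ∀ j, ∃ D, L ≤ D ∧ dm D = 4 ∧ c x L D = j := fun j => by
        obtain ⟨A, B, D, f, e⟩ := s j
        obtain ⟨g, hg, rfl, rfl⟩ := t2 A B x L f.1 f.2.2.1 f.2.2.2.1 xL hx hL
        have d := (dm_smul g D).trans f.2.2.2.2
        have l := (smul_le_smul (g := g)).2 f.2.1
        exact ⟨g • D, l, d, ((h A B D _ _ _ f ⟨xL, l, hx, hL, d⟩).2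
          ⟨g, hg, rfl, rfl, rfl⟩).symm.trans e⟩
      have orb : ∀ j D, L ≤ D → dm D = 4 → c x L D = j →
          MulAction.orbit (K ⊓ MulAction.stabilizer (V ≃ₗ[F] V) x ⊓
            MulAction.stabilizer (V ≃ₗ[F] V) L : Subgroup _) D =
            {B | B ∈ Cov2 L ∧ c x L B = j} := by
        intro j D l d e
        refine orbit_eq fun B => ⟨fun ⟨⟨b1, b2⟩, b3⟩ => ?_, ?_⟩
        · rw [hL] at b2
          obtain ⟨g, hg, g1, g2, g3⟩ :=
            (h x L D x L B ⟨xL, l, hx, hL, d⟩ ⟨xL, b1, hx, hL, b2⟩).1 (e.trans b3.symm)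
          exact ⟨g, ⟨⟨hg, g1⟩, g2⟩, g3⟩
        · rintro ⟨g, ⟨⟨hg, g1⟩, g2⟩, rfl⟩
          have g1 : g • x = x := g1
          have g2 : g • L = L := g2
          have l' : L ≤ g • D := g2.symm.le.trans (smul_le_smul.2 l)
          have d' := (dm_smul g D).trans d
          exact ⟨⟨l', by rw [d', hL]⟩, ((h x L D x L _ ⟨xL, l, hx, hL, d⟩
            ⟨xL, l', hx, hL, d'⟩).2 ⟨g, hg, g1, g2, rfl⟩).symm.trans e⟩
      have tot : {B | B ∈ Cov2 L ∧ c x L B = 0}.ncard + {B | B ∈ Cov2 L ∧ c x L B = 1}.ncard =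
          (Cov2 L).ncard := by
        rw [← Set.ncard_union_eq]
        · congr 1
          ext B
          simp only [Set.mem_union, Set.mem_ofPred_eq, ← other]
          tauto
        · rw [Set.disjoint_left]
          rintro B ⟨-, a⟩ ⟨-, b⟩
          exact (other _).2 b a
      have cd := card_cov2 cov L
      rw [hL, show finrank F V - (1 + 1) = 2 * (k - 1) by omega, br_two, mul_right_comm] at cd
      have cd := Nat.eq_of_mul_eq_mul_right (Nat.succ_pos _) cd
      have p1 := br_mod hq2 (k - 1)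
      have p2 := br_mod hq (2 * (k - 1) - 1)
      have p3 : (Cov2 L).ncard % 2 = 1 := by
        rw [cd, Nat.mul_mod, p1, p2, show (k - 1) % 2 = 1 by omega,
          show (2 * (k - 1) - 1) % 2 = 1 by omega]
      obtain ⟨D0, l0, d0, e0⟩ := ex 0
      obtain ⟨D1, l1, d1, e1⟩ := ex 1
      by_cases ev0 : Even {B | B ∈ Cov2 L ∧ c x L B = 0}.ncard
      · exact fin _ D0 (inf_le_left (b := MulAction.stabilizer (V ≃ₗ[F] V) L))
          (by rwa [orb 0 D0 l0 d0 e0])
      · refine fin _ D1 (inf_le_left (b := MulAction.stabilizer (V ≃ₗ[F] V) L)) ?_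
        rw [orb 1 D1 l1 d1 e1, Nat.even_iff]
        rw [Nat.even_iff] at ev0
        omega
    · refine fin _ E le_rfl ?_
      rw [orbit_eq (S := Cov2 x) fun B => ⟨fun ⟨b1, b2⟩ => ?_, ?_⟩]
      · have cd := card_cov2 cov x
        rw [hx, show finrank F V - (0 + 1) - 1 = 2 * (k - 1) by omega, br_two, ← mul_assoc] at cd
        have cd := Nat.eq_of_mul_eq_mul_right (Nat.succ_pos _) cd
        have p1 := br_mod hq2 (k - 1)
        rw [cd]
        exact Even.mul_left (Nat.even_iff.2 (by omega)) _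
      · obtain ⟨g, hg, g1, g2⟩ := t3 x E x B (xL.trans LE) hx hE b1 hx (by rw [b2, hx])
        exact ⟨g, ⟨hg, g1⟩, g2⟩
      · rintro ⟨g, ⟨-, g1⟩, rfl⟩
        have g1 : g • x = x := g1
        exact ⟨g1.symm.le.trans (smul_le_smul.2 (xL.trans LE)), by rw [dm_smul, hE, hx]⟩
  · refine fin _ L le_rfl ?_
    rw [orbit_eq (S := Cov x ⊤) fun B => ⟨fun ⟨b1, _, b2⟩ => ?_, ?_⟩]
    · rw [cov F V x ⊤ le_top, top, hx, Nat.even_iff, br_mod hq]
      omega
    · obtain ⟨g, hg, g1, g2⟩ := t2 x L x B xL hx hL b1 hx (by rw [b2, hx])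
      exact ⟨g, ⟨hg, g1⟩, g2⟩
    · rintro ⟨g, ⟨-, g1⟩, rfl⟩
      have g1 : g • x = x := g1
      exact ⟨g1.symm.le.trans (smul_le_smul.2 xL), le_top, by rw [dm_smul, hL, hx]⟩

end Cfsg.Agent.H56.R3Par2
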