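import Cfsg.Agent.H56.R3C1
import Cfsg.Agent.S0042
import Cfsg.Agent.S0034
import Cfsg.Agent.S0035

/-! Rank 3 groups with a Frobenius point stabiliser: the data. -/

set_option autoImplicit false

namespace Cfsg.Agent.H56.R3

open MulAction Pointwise

universe u v

variable {G : Type u} {X : Type v} [Group G] [MulAction G X]

theorem eqv_triv (hp : IsPreprimitive G X) (E : X → X → Prop) (hE : Equivalence E)
    (hinv : ∀ (g : G) {x y : X}, E x y → E (g • x) (g • y)) {A B : X} (hB : B ≠ A) (h : E A B)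
    (C : X) : E A C := by
  have hb : IsBlock G {y | E A y} := by
    rw [isBlock_iff_smul_eq_of_mem]
    intro g a ha hga
    have h1 : E A (g • A) := hE.trans hga (hE.symm (hinv g ha))
    ext y
    rw [Set.mem_smul_set_iff_inv_smul_mem]
    refine ⟨fun hy => ?_, fun hy => ?_⟩
    · have := hinv g hy
      rw [smul_inv_smul] at this
      exact hE.trans h1 this
    · have := hinv g⁻¹ (hE.trans (hE.symm h1) hy)
      rwa [inv_smul_smul] at this
  rcases hp.isTrivialBlock_of_isBlock hb with h1 | h1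
  · exact absurd (h1 h (hE.refl A)) hB
  · exact (h1 ▸ Set.mem_univ C : C ∈ {y | E A y})

theorem third (A B : X) (hBA : B ≠ A)
    (h3 : Nat.card (orbitRel.Quotient ↥(stabilizer G A) X) = 3) :
    ∃ C, C ≠ A ∧ (¬ ∃ g : G, g • A = A ∧ g • B = C) ∧
      ∀ y, y ≠ A → (¬ ∃ g : G, g • A = A ∧ g • B = y) → ∃ g : G, g • A = A ∧ g • C = y := by
  let q : X → orbitRel.Quotient ↥(stabilizer G A) X := Quotient.mk _
  have hq : ∀ x y, q x = q y ↔ ∃ g : G, g • A = A ∧ g • y = x := fun x y => by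
    rw [Quotient.eq, orbitRel_apply]
    exact ⟨fun ⟨g, hg⟩ => ⟨g, g.2, hg⟩, fun ⟨g, h1, h2⟩ => ⟨⟨g, h1⟩, h2⟩⟩
  have hne : q B ≠ q A := fun e => by
    obtain ⟨g, h1, h2⟩ := (hq _ _).1 e
    exact hBA (h2.symm.trans h1)
  have : Finite (orbitRel.Quotient ↥(stabilizer G A) X) := Nat.finite_of_card_ne_zero (by omega)
  have h1 : (Set.univ \ {q B, q A}).ncard = 1 := by
    rw [Set.ncard_diff (Set.subset_univ _), Set.ncard_univ, h3, Set.ncard_pair hne]
  obtain ⟨c, hc⟩ := Set.ncard_eq_one.1 h1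
  obtain ⟨C, rfl⟩ := Quotient.exists_rep c
  have h2 : q C ∈ Set.univ \ {q B, q A} := hc ▸ rfl
  simp only [Set.mem_diff, Set.mem_univ, Set.mem_insert_iff, Set.mem_singleton_iff, true_and,
    not_or] at h2
  refine ⟨C, fun e => h2.2 (by rw [e]), fun h => h2.1 ((hq _ _).2 h), fun y h3 h4 => ?_⟩
  refine (hq _ _).1 (?_ : q y ∈ ({q C} : Set _))
  rw [show ({q C} : Set _) = _ from hc.symm]
  refine ⟨trivial, ?_⟩
  rintro (e | e)
  · exact h4 ((hq _ _).1 e)
  · obtain ⟨g, h5, h6⟩ := (hq _ _).1 e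
    exact h3 (h6.symm.trans h5)

theorem setup : SetupStmt.{u, v} := by
  intro G X _ _ _ _ _ heven hp A h3 B hBA hfix hfaith hfrob
  have := hp.toIsPretransitive
  choose τ hτ using fun x : X => exists_smul_eq G A x
  let adj : X → X → Prop := fun x y => ∃ g : G, g • A = x ∧ g • B = y
  have hAB : adj A B := ⟨1, one_smul _ _, one_smul _ _⟩
  have irrefl : ∀ x, ¬ adj x x := fun x ⟨g, h1, h2⟩ =>
    hBA ((smul_left_cancel_iff g).1 (h2.trans h1.symm))
  have inv : ∀ (g : G) {x y : X}, adj x y → adj (g • x) (g • y) := fun g x y ⟨a, h1, h2⟩ =>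
    ⟨g * a, by rw [mul_smul, h1], by rw [mul_smul, h2]⟩
  have inv' : ∀ (g : G) {x y : X}, adj (g • x) (g • y) → adj x y := fun g x y h => by
    simpa using inv g⁻¹ h
  have tr1 : ∀ {x y z w : X}, adj x y → adj z w → ∃ g : G, g • x = z ∧ g • y = w := by
    rintro x y z w ⟨a, rfl, rfl⟩ ⟨b, rfl, rfl⟩
    exact ⟨b * a⁻¹, by simp [mul_smul], by simp [mul_smul]⟩
  obtain ⟨C, hCA, hC, hJ⟩ := third A B hBA h3
  have base : ∀ {x y : X}, x ≠ y → ¬ adj x y → ∃ g : G, g • A = x ∧ g • C = y := by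
    intro x y h1 h2
    obtain ⟨g, h3, h4⟩ := hJ ((τ x)⁻¹ • y) (fun e => h1 (by rw [← hτ x, ← e, smul_inv_smul]))
      fun h => h2 (by simpa [hτ] using inv (τ x) h)
    exact ⟨τ x * g, by rw [mul_smul, h3, hτ], by rw [mul_smul, h4, smul_inv_smul]⟩
  have tr2 : ∀ {x y z w : X}, x ≠ y → ¬ adj x y → z ≠ w → ¬ adj z w →
      ∃ g : G, g • x = z ∧ g • y = w := by
    intro x y z w h1 h2 h3 h4
    obtain ⟨a, rfl, rfl⟩ := base h1 h2
    obtain ⟨b, rfl, rfl⟩ := base h3 h4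
    exact ⟨b * a⁻¹, by simp [mul_smul], by simp [mul_smul]⟩
  have symm : ∀ {x y : X}, adj x y → adj y x := by
    have : Fact (Nat.Prime 2) := ⟨Nat.prime_two⟩
    obtain ⟨t, ht⟩ := exists_prime_orderOf_dvd_card' (G := G) 2 (even_iff_two_dvd.1 heven)
    have htt : t * t = 1 := by rw [← sq, ← ht, pow_orderOf_eq_one]
    obtain ⟨a, ha⟩ : ∃ a : X, a ≠ t • a := by
      by_contra h
      push Not at h
      rw [FaithfulSMul.eq_of_smul_eq_smul (M := G) (α := X) (m₁ := t) (m₂ := 1)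
        fun a => by rw [one_smul, ← h a], orderOf_one] at ht
      omega
    have e : t • t • a = a := by rw [← mul_smul, htt, one_smul]
    intro x y h
    by_cases h1 : adj a (t • a)
    · obtain ⟨g, rfl, rfl⟩ := tr1 h1 h
      have := inv t h1
      rw [e] at this
      exact inv g this
    · by_contra h2
      obtain ⟨g, rfl, rfl⟩ := tr2 ha h1 (fun e : y = x => irrefl y (by rwa [← e] at h)) h2
      have := inv t (inv' g h)
      rw [e] at this
      exact h1 this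
  have frob : ∀ {x y z : X} (g : G), adj x y → adj x z → y ≠ z → g • x = x → g • y = y →
      g • z = z → g = 1 := by
    rintro x y z g ⟨a, rfl, rfl⟩ hz h1 h2 h3 h4
    obtain ⟨b, hb1, hb2⟩ := tr1 hAB (by simpa using inv a⁻¹ hz : adj A (a⁻¹ • z))
    have := hfrob (a⁻¹ * g * a) (by simp [mul_smul, h2]) b hb1 (by simp [mul_smul, h3])
      (by simp [hb2, mul_smul, h4]) (by rw [hb2, Ne, inv_smul_eq_iff]; exact h1.symm)
    calc g = a * (a⁻¹ * g * a) * a⁻¹ := by group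
      _ = 1 := by rw [this]; group
  let H : Subgroup (stabilizer G A) := stabilizer _ B
  have mH : ∀ s x : stabilizer G A, x ∈ MulAut.conj s • H ↔ (x : G) • (s : G) • B = (s : G) • B :=
    fun s x => by
      rw [Subgroup.mem_pointwise_smul_iff_inv_smul_mem, ← inv_smul_eq_iff (g := (s : G)),
        ← mul_smul, ← mul_smul, ← map_inv, MulAut.smul_def, MulAut.conj_apply, inv_inv]
      rfl
  have hH : IsFrobeniusComplement H := by
    obtain ⟨g, hg, hg1, hgB⟩ := hfix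
    refine ⟨fun e => hg1 (congrArg Subtype.val
      ((Subgroup.eq_bot_iff_forall _).1 e ⟨g, hg⟩ hgB)), fun e => hg1 (hfaith g hg fun h hh => ?_),
      fun s hs => (Subgroup.eq_bot_iff_forall _).2 fun x hx => Subtype.ext ?_⟩
    · have : h • B = B := (e ▸ Subgroup.mem_top _ : (⟨h, hh⟩ : stabilizer G A) ∈ H)
      rw [this, hgB]
    · exact hfrob x x.2 s s.2 hx.1 ((mH _ _).1 hx.2) hs
  obtain ⟨N, hN, -, hnil⟩ := S0042.result H hH
  obtain ⟨hk, hmod⟩ := S0034.result H hH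
  obtain ⟨N', hN', -, hcomp⟩ := S0035.result H hH
  obtain rfl : N' = N := SetLike.coe_injective (hN'.trans hN.symm)
  let P : X → G → Prop := fun x c => c • x = x ∧ (c = 1 ∨ ∀ y, adj x y → c • y ≠ y)
  have Pc : ∀ (g : G) (x : X) (c : G), P x c → P (g • x) (g * c * g⁻¹) := fun g x c h =>
    ⟨(cj_smul g c x x).2 h.1, h.2.imp (fun e => by simp [e]) fun h1 y hy e =>
      h1 (g⁻¹ • y) (by simpa using inv g⁻¹ hy) ((cj_smul g c _ _).1 (by simpa using e))⟩
  have PA : ∀ c : G, c ∈ N'.map (stabilizer G A).subtype ↔ P A c := fun c => by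
    have key : ∀ c : stabilizer G A, c ∈ N' ↔ (c : G) = 1 ∨ ∀ y, adj A y → (c : G) • y ≠ y := by
      intro c
      rw [← SetLike.mem_coe, hN]
      refine or_congr Subtype.ext_iff ⟨fun h y hy e => ?_, fun h s hs => ?_⟩
      · obtain ⟨s, h1, rfl⟩ := hy
        exact h ⟨s, h1⟩ ((mH _ _).2 e)
      · exact h _ ⟨s, s.2, rfl⟩ ((mH _ _).1 hs)
    refine ⟨?_, fun h => ⟨⟨c, h.1⟩, (key _).2 h.2, rfl⟩⟩
    rintro ⟨c, hc, rfl⟩
    exact ⟨c.2, (key c).1 hc⟩
  let K : X → Subgroup G := fun x =>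
    (N'.map (stabilizer G A).subtype).map (MulAut.conj (τ x)).toMonoidHom
  have PK : ∀ x c, c ∈ K x ↔ P x c := fun x c => by
    refine ⟨?_, fun h => ⟨(τ x)⁻¹ * c * (τ x)⁻¹⁻¹, (PA _).2 ?_, by simp [mul_assoc]⟩⟩
    · rintro ⟨d, hd, rfl⟩
      have := Pc (τ x) A d ((PA d).1 hd)
      rwa [hτ] at this
    · have := Pc (τ x)⁻¹ x c h
      rwa [show (τ x)⁻¹ • x = A from inv_smul_eq_iff.2 (hτ x).symm] at this
  have eK : ∀ x, Nonempty (N' ≃* K x) := fun x =>
    ⟨(N'.equivMapOfInjective _ (Subgroup.subtype_injective _)).trans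
      (Subgroup.equivMapOfInjective _ _ (MulAut.conj (τ x)).injective)⟩
  have cH : Nat.card (st2 G A B) = Nat.card H :=
    Nat.card_congr ⟨fun a => ⟨⟨a.1, a.2.1⟩, a.2.2⟩, fun a => ⟨a.1.1, a.1.2, a.2⟩, fun _ => rfl,
      fun _ => rfl⟩
  have card_H : ∀ {x y : X}, adj x y → Nat.card (st2 G x y) = Nat.card H := by
    rintro x y ⟨g, rfl, rfl⟩
    rw [card_st2, cH]
  have h1 : 1 < Nat.card H := (Subgroup.one_lt_card_iff_ne_bot _).2 hH.1
  have fix : ∀ {x : X} (g : G), g • x = x → g ∉ K x → ∃ y, adj x y ∧ g • y = y := fun g hg h => by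
    by_contra h2
    exact h ((PK _ _).2 ⟨hg, Or.inr fun y hy e => h2 ⟨y, hy, e⟩⟩)
  have free : ∀ {x y : X}, adj x y → ∀ c ∈ K x, c • y = y → c = 1 := fun h c hc e =>
    ((PK _ _).1 hc).2.resolve_right fun h2 => h2 _ h e
  have cS : Nat.card (stabilizer G A) = H.index * Nat.card H := by
    rw [mul_comm, Subgroup.card_mul_index]
  refine ⟨⟨adj, K, H.index, Nat.card H, symm, irrefl, inv, tr1, tr2,
    fun x => ⟨τ x • B, τ x, hτ x, rfl⟩, fun x => ⟨τ x • C, ?_, ?_⟩, fun {x y} h1 h2 => ?_,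
    fun {x y} h1 h2 => ?_, fun x => ?_, fun x c hc => ((PK x c).1 hc).1,
    fun g x c hc => (PK _ _).2 (Pc g x c ((PK x c).1 hc)), fun x => ?_, fun x => ?_,
    fun {x y z} hy hz => ?_, free, frob, fix, card_H, fun x => ?_, ?_, h1,
    ⟨H.index / Nat.card H, ?_, ?_⟩, fun {x} g hg hco => ?_, fun {x} g c hg h hc e => ?_, heven⟩⟩
  · exact fun e => hCA ((smul_left_cancel_iff (τ x)).1 (e.symm.trans (hτ x).symm))
  · exact fun h => hC (inv' (τ x) (by rwa [hτ]))
  · by_contra h3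
    have := eqv_triv hp (fun a b => a = b ∨ adj a b) ⟨fun _ => Or.inl rfl,
      fun h => h.imp Eq.symm symm, ?_⟩ (fun g a b h => h.imp (congrArg _) (inv g)) hBA
      (Or.inr hAB) C
    · exact this.elim hCA.symm hC
    · rintro a b c (rfl | h4) h5
      · exact h5
      rcases h5 with rfl | h5
      · exact Or.inr h4
      by_contra h6
      rw [not_or] at h6
      obtain ⟨g, rfl, rfl⟩ := tr2 h6.1 h6.2 h1 h2
      exact h3 ⟨g • b, inv g h4, inv g (symm h5)⟩
  · by_contra h3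
    push Not at h3
    refine eqv_triv hp (fun a b => ¬ adj a b) ⟨irrefl, fun h e => h (symm e), ?_⟩
      (fun g a b h e => h (inv' g e)) hCA hC B hAB
    intro a b c h4 h5 h6
    by_cases h7 : a = b
    · exact h5 (h7 ▸ h6)
    obtain ⟨g, rfl, rfl⟩ := tr2 h7 h4 h1 h2
    exact h5 (inv' g (h3 _ (inv g h6)))
  · rw [index_stabilizer]
    refine (ncard_smul (τ x) (T := {y | adj x y}) fun a => ?_).symm
    refine ⟨fun ⟨s, hs⟩ => ?_, fun h => ?_⟩
    · have := inv (τ x) (⟨s, s.2, hs⟩ : adj A a)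
      rwa [hτ] at this
    · obtain ⟨s, h1, h2⟩ := inv' (τ x) (by rwa [hτ] : adj (τ x • A) (τ x • a))
      exact ⟨⟨s, h1⟩, h2⟩
  · obtain ⟨e⟩ := eK x
    exact nilpotent_of_mulEquiv e
  · obtain ⟨e⟩ := eK x
    rw [← Nat.card_congr e.toEquiv, ← hk, ← hN]
    rfl
  · obtain ⟨a, rfl, rfl⟩ := hy
    obtain ⟨s, hs1, hs2⟩ : adj A (a⁻¹ • z) := by simpa using inv a⁻¹ hz
    obtain ⟨⟨n, h⟩, e⟩ := (hcomp.existsUnique ⟨s, hs1⟩).exists
    have e1 : (n.1 : G) * h.1 = s := congrArg Subtype.val e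
    refine ⟨a * n.1 * a⁻¹, (PK _ _).2 (Pc a A _ ((PA _).1 ⟨n.1, n.2, rfl⟩)), ?_⟩
    rw [← smul_inv_smul a z, cj_smul, ← hs2, ← e1, mul_smul, show (h.1 : G) • B = B from h.2]
  · rw [← cS, ← hτ x, ← inf_idem (stabilizer G A), ← inf_idem (stabilizer G (τ x • A))]
    exact card_st2 _ A A
  · rw [← cS, ← index_stabilizer_of_transitive G A, mul_comm, Subgroup.card_mul_index]
  · refine Nat.pos_of_ne_zero fun e => ?_
    have h2 := Nat.div_add_mod H.index (Nat.card H)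
    rw [e, hmod, Nat.mod_eq_of_lt h1] at h2
    exact hH.2.1 (Subgroup.index_eq_one.1 (by omega))
  · have h2 := Nat.div_add_mod H.index (Nat.card H)
    rw [hmod, Nat.mod_eq_of_lt h1, mul_comm] at h2
    omega
  · by_contra h
    obtain ⟨y, hy, e⟩ := fix g hg h
    have h2 : orderOf g ∣ Nat.card H := by
      rw [← card_H hy]
      exact Subgroup.orderOf_dvd_natCard _ ⟨hg, e⟩
    rw [orderOf_eq_one_iff.1 (hco.eq_one_of_dvd h2)] at h
    exact h (one_mem _)
  · obtain ⟨y, hy, e1⟩ := fix g hg h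
    by_contra h2
    have h3 := inv c hy
    rw [((PK x c).1 hc).1] at h3
    rw [frob g hy h3 (fun e2 => h2 (free hy c hc e2.symm)) hg e1
      (by rw [← mul_smul, e, mul_smul, e1])] at h
    exact h (one_mem _)

end Cfsg.Agent.H56.R3
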