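import Cfsg.Agent.H58.SWDefs

/-! Project SW, piece BETA2: a monomial element acting on the diagonal torus. -/

set_option autoImplicit false
set_option linter.unusedVariables false
open Matrix Cfsg
open scoped commutatorElement

namespace Cfsg.Agent.H56.SwBeta2

open Cfsg.Agent.H58.SW

variable {F : Type} [Field F] [Fintype F] [DecidableEq F] {n : ℕ}

/-- the diagonal matrix with the given eigenvalues -/
def MM (E : Finset (Mt n F)) (a : Mt n F → F) : Mt n F := ∑ e ∈ E, a e • e

omit [Fintype F] [DecidableEq F] in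
theorem MM_mul_e {E : Finset (Mt n F)} (h : Fam E) (a : Mt n F → F) {e : Mt n F} (he : e ∈ E) :
    MM E a * e = a e • e := by
  rw [MM, Finset.sum_mul, Finset.sum_eq_single_of_mem e he, smul_mul_assoc, h.idem e he]
  intro f hf hfe
  rw [smul_mul_assoc, h.orth f hf e he hfe, smul_zero]

omit [Fintype F] [DecidableEq F] in
theorem e_mul_MM {E : Finset (Mt n F)} (h : Fam E) (a : Mt n F → F) {e : Mt n F} (he : e ∈ E) :
    e * MM E a = a e • e := by
  rw [MM, Finset.mul_sum, Finset.sum_eq_single_of_mem e he, mul_smul_comm, h.idem e he]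
  intro f hf hfe
  rw [mul_smul_comm, h.orth e he f hf (Ne.symm hfe), smul_zero]

omit [Fintype F] [DecidableEq F] in
theorem MM_mul {E : Finset (Mt n F)} (h : Fam E) (a b : Mt n F → F) :
    MM E a * MM E b = MM E (a * b) := by
  conv_lhs => rw [show MM E b = ∑ e ∈ E, b e • e from rfl, Finset.mul_sum]
  refine Finset.sum_congr rfl fun e he => ?_
  rw [mul_smul_comm, MM_mul_e h a he, smul_smul, Pi.mul_apply, mul_comm]

omit [Fintype F] [DecidableEq F] in
theorem MM_one {E : Finset (Mt n F)} (h : Fam E) {a : Mt n F → F} (ha : ∀ e ∈ E, a e = 1) :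
    MM E a = 1 := by
  rw [← h.sum]
  exact Finset.sum_congr rfl fun e he => by rw [ha e he, one_smul]

/-- the diagonal element of `GL` -/
def DD {E : Finset (Mt n F)} (h : Fam E) : (Mt n F → Fˣ) →* Gl n F where
  toFun a := ⟨MM E fun e => a e, MM E fun e => (a e)⁻¹,
    by rw [MM_mul h]; exact MM_one h fun e _ => by simp,
    by rw [MM_mul h]; exact MM_one h fun e _ => by simp⟩
  map_one' := Units.ext (MM_one h fun e _ => rfl)
  map_mul' a b := Units.ext (MM_mul h (fun e => a e) fun e => b e).symm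

omit [Fintype F] [DecidableEq F] in
theorem DD_val {E : Finset (Mt n F)} (h : Fam E) (a : Mt n F → Fˣ) :
    ((DD h a : Gl n F) : Mt n F) = MM E fun e => a e := rfl

omit [Fintype F] [DecidableEq F] in
theorem DD_inj {E : Finset (Mt n F)} (h : Fam E) {a b : Mt n F → Fˣ} (e1 : DD h a = DD h b)
    {e : Mt n F} (he : e ∈ E) : a e = b e := by
  have h1 := congrArg (fun x : Gl n F => (x : Mt n F) * e) e1
  simp only [DD_val, MM_mul_e h _ he] at h1
  exact Units.ext (smul_left_injective F (h.ne0 e he) h1)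

omit [Fintype F] [DecidableEq F] in
theorem cj_mul (x y : Gl n F) (e : Mt n F) : cj (x * y) e = cj x (cj y e) := by
  simp only [cj, _root_.mul_inv_rev, Units.val_mul, mul_assoc]

omit [Fintype F] [DecidableEq F] in
theorem cj_one (e : Mt n F) : cj (1 : Gl n F) e = e := by simp [cj]

omit [Fintype F] [DecidableEq F] in
theorem cj_inj (x : Gl n F) : Function.Injective (cj x) := fun e f h => by
  rw [← cj_one e, ← cj_one f, ← inv_mul_cancel x, cj_mul, cj_mul, h]

omit [Fintype F] [DecidableEq F] in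
theorem cj_iter (x : Gl n F) (k : ℕ) (e : Mt n F) : (cj x)^[k] e = cj (x ^ k) e := by
  induction k with
  | zero => rw [pow_zero, cj_one]; rfl
  | succ k ih => rw [Function.iterate_succ_apply', ih, pow_succ', cj_mul]

omit [Fintype F] in
theorem conj_DD {E : Finset (Mt n F)} (h : Fam E) {x : Gl n F} (hx : ∀ e ∈ E, cj x e ∈ E)
    (a : Mt n F → Fˣ) : x * DD h (fun e => a (cj x e)) * x⁻¹ = DD h a := by
  apply Units.ext
  have h1 : E.image (cj x) = E := Finset.eq_of_subset_of_card_le
    (Finset.image_subset_iff.2 hx) (by rw [Finset.card_image_of_injective _ (cj_inj x)])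
  rw [Units.val_mul, Units.val_mul, DD_val, DD_val, MM, MM, Finset.mul_sum, Finset.sum_mul]
  conv_rhs => rw [← h1, Finset.sum_image fun e _ f _ k => cj_inj x k]
  refine Finset.sum_congr rfl fun e _ => ?_
  rw [mul_smul_comm, smul_mul_assoc]
  rfl

omit [Fintype F] in
theorem cube {E : Finset (Mt n F)} (h : Fam E) {x : Gl n F} (hx : ∀ e ∈ E, cj x e ∈ E)
    (a : Mt n F → Fˣ) (hc : Commute x ⁅x, DD h a * x * (DD h a)⁻¹⁆) {f : Mt n F} (hf : f ∈ E) :
    a f * a (cj x (cj x f)) ^ 3 = a (cj x f) ^ 3 * a (cj x (cj x (cj x f))) := by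
  let σ : (Mt n F → Fˣ) → (Mt n F → Fˣ) := fun a e => a (cj x e)
  have hσ : ∀ a, DD h (σ a) = x⁻¹ * DD h a * x := fun a => by
    rw [← conj_DD h hx a]
    simp only [σ, mul_assoc, inv_mul_cancel_left, inv_mul_cancel, mul_one]
  have h1 : DD h a * x * (DD h a)⁻¹ = x * DD h (σ a * a⁻¹) := by
    rw [map_mul, map_inv, hσ]
    group
  set b := σ a * a⁻¹ with hb
  have h2 : ⁅x, x * DD h b⁆ = x * x * DD h (b * (σ b)⁻¹) * x⁻¹ * x⁻¹ := by
    rw [map_mul (DD h) b, map_inv (DD h) (σ b), hσ b, commutatorElement_def]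
    generalize DD h b = w
    group
  rw [h1, h2] at hc
  have h3 : DD h (σ (b * (σ b)⁻¹)) = DD h (b * (σ b)⁻¹) := by
    rw [hσ]
    generalize DD h (b * (σ b)⁻¹) = w at hc ⊢
    have h4 : x * (x * x * w * x⁻¹ * x⁻¹) = x * x * w * x⁻¹ * x⁻¹ * x := hc
    calc x⁻¹ * w * x = x⁻¹ * x⁻¹ * x⁻¹ * (x * x * w * x⁻¹ * x⁻¹ * x) * x * x := by group
      _ = w := by rw [← h4]; group
  have h5 := DD_inj h h3 hf
  simp only [hb, σ, Pi.mul_apply, Pi.inv_apply] at h5
  generalize a f = u0, a (cj x f) = u1, a (cj x (cj x f)) = u2, a (cj x (cj x (cj x f))) = u3 at h5 ⊢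
  apply Units.ext
  have h6 := congrArg Units.val h5
  simp only [Units.val_mul, Units.val_inv_eq_inv_val, Units.val_pow_eq_pow_val] at h6 ⊢
  have := u0.ne_zero
  have := u1.ne_zero
  have := u2.ne_zero
  have := u3.ne_zero
  field_simp at h6
  linear_combination h6

theorem st_MM {c : Cl F n} (ka : KA c) (hu : c.u = true) {E : Finset (Mt n F)} (hE : c.SF E)
    (a : Mt n F → F) : c.st (MM E a) = MM E fun e => a e ^ c.q := by
  have h0 : c.st 0 = 0 := by
    have := ka.st_sub hu 0 0
    rwa [sub_self, sub_self] at this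
  have key : ∀ s : Finset (Mt n F), c.st (∑ e ∈ s, a e • e) = ∑ e ∈ s, a e ^ c.q • c.st e := by
    intro s
    induction s using Finset.induction_on with
    | empty => simpa using h0
    | insert e s he ih => rw [Finset.sum_insert he, Finset.sum_insert he, ka.st_add hu, ih, ka.st_smul]
  rw [MM, key]
  exact Finset.sum_congr rfl fun e he => by rw [hE hu e he]

omit [DecidableEq F] in
theorem zc_dvd {c : Cl F n} (ka : KA c) {k : ℕ} (h : ∀ l : Fˣ, c.ZV l → l ^ k = 1) : c.zc ∣ k := by
  have := ka.cyc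
  rw [← ka.card_Z, ← IsCyclic.exponent_eq_card]
  refine Monoid.exponent_dvd_of_forall_pow_eq_one fun z => Subtype.ext (Units.ext ?_)
  obtain ⟨a, ha, e⟩ := (ka.mem_Z z).1 z.2
  have h1 := congrArg Units.val (h (Units.mk0 a ha.1) ha)
  rw [Units.val_pow_eq_pow_val, Units.val_mk0, Units.val_one] at h1
  rw [Subgroup.coe_pow, Units.val_pow_eq_pow_val, e, smul_pow, one_pow, h1, one_smul]
  rfl

theorem beta2 (hKA : KAStmt) (hKW : KWStmt) (hI : IdetStmt) (hC : CentStmt) : Beta2Stmt := by
  intro F _ _ _ n c r H Q loc E x blk hrk hzc hxr hx hw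
  have ka := hKA F n c
  have h := blk.fam
  obtain ⟨f, hf, f', hf', hff⟩ := Finset.one_lt_card.1 (show 1 < E.card from blk.two)
  have hns : ¬ Scal f := by
    rintro ⟨a, e⟩
    have h1 := h.orth f hf f' hf' hff
    rw [e, smul_mul_assoc, one_mul, smul_eq_zero] at h1
    rcases h1 with h1 | h1
    · exact h.ne0 f hf (by rw [e, h1, zero_smul])
    · exact h.ne0 f' hf' h1
  have hcen := (hC F n c r H Q loc E blk.inv ⟨f, hf, hns⟩).1
  have key : ∀ l : Fˣ, c.ZV l → ∀ e1 ∈ E, ∀ e2 ∈ E, e1 ≠ e2 → ∀ a : Mt n F → Fˣ,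
      (∀ e, a e = if e = e1 then l else if e = e2 then l⁻¹ else 1) →
      a f * a (cj x (cj x f)) ^ 3 = a (cj x f) ^ 3 * a (cj x (cj x (cj x f))) := by
    intro l hl e1 h1 e2 h2 h12 a ha
    refine cube h (fun e he => (hx e he).1) a (hw _ (hcen _ ?_ fun e he => ?_)) hf
    · rw [ka.mem_S, ka.mem_St, DD_val]
      refine ⟨fun hu => ?_, ?_⟩
      · rw [st_MM ka hu blk.sf, MM_mul h]
        refine MM_one h fun e _ => ?_
        have h3 := hl.2 hu
        rw [Pi.mul_apply, ← pow_succ, ha]
        split_ifs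
        · exact h3
        · rw [Units.val_inv_eq_inv_val, inv_pow, h3, inv_one]
        · simp
      · rw [MM, hI F n E _ h, Finset.prod_congr rfl fun e he => by rw [hrk e he, pow_one],
          Finset.prod_eq_mul_of_mem e1 e2 h1 h2 h12 fun e _ he => by simp [ha, he.1, he.2]]
        simp [ha, h12.symm]
    · change MM E _ * e = e * MM E _
      rw [MM_mul_e h _ he, e_mul_MM h _ he]
  have hr : (cj x)^[r] f = f := by
    obtain ⟨a, -, e⟩ := (ka.mem_Z _).1 hxr
    rw [cj_iter, cj, e, smul_mul_assoc, one_mul, ← mul_one (a • f), smul_mul_assoc,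
      ← mul_smul_comm, ← e, mul_assoc, Units.mul_inv, mul_one]
  have per : ∀ i j, j < i → i - j < r → (cj x)^[i] f ≠ (cj x)^[j] f := fun i j h1 h2 e => by
    have h3 : Function.IsPeriodicPt (cj x) (i - j) f := Function.iterate_cancel (cj_inj x) e
    have h4 := Function.IsPeriodicPt.gcd (show Function.IsPeriodicPt (cj x) r f from hr) h3
    rw [(Nat.coprime_of_lt_prime (by omega) h2 loc.prime).gcd_eq_one] at h4
    exact (hx f hf).2 h4
  have m1 := (hx f hf).1
  have m2 := (hx _ m1).1
  have m3 := (hx _ m2).1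
  have m4 := (hx _ m3).1
  by_cases h2 : r = 2
  · subst h2
    have e2 : cj x (cj x f) = f := hr
    have n1 : cj x f ≠ f := (hx f hf).2
    refine Or.inl ⟨rfl, zc_dvd ka fun l hl => ?_, fun h4 => zc_dvd ka fun l hl => ?_⟩
    · have := key l hl f hf _ m1 n1.symm _ fun _ => rfl
      simp only [e2, n1, if_true, if_false] at this
      calc l ^ 8 = (l * l ^ 3) * l ^ 4 := by group
        _ = 1 := by rw [this]; group
    · have h5 := (hKW F n c).rksum E h
      rw [Finset.sum_congr rfl hrk, Finset.sum_const, smul_eq_mul, mul_one] at h5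
      obtain ⟨g, hg, hg'⟩ := Finset.exists_mem_notMem_of_card_lt_card
        (s := {f, cj x f}) (t := E) (Finset.card_le_two.trans_lt (by omega))
      simp only [Finset.mem_insert, Finset.mem_singleton, not_or] at hg'
      have := key l hl f hf g hg (Ne.symm hg'.1) _ fun _ => rfl
      simp only [e2, n1, Ne.symm hg'.2, if_true, if_false] at this
      calc l ^ 4 = l * l ^ 3 := by group
        _ = 1 := by rw [this]; group
  by_cases h3 : r = 3
  · subst h3
    have e3 : cj x (cj x (cj x f)) = f := hr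
    have n1 : cj x f ≠ f := per 1 0 (by omega) (by omega)
    have n2 : cj x (cj x f) ≠ f := per 2 0 (by omega) (by omega)
    have n3 : cj x (cj x f) ≠ cj x f := per 2 1 (by omega) (by omega)
    refine Or.inr ⟨rfl, zc_dvd ka fun l hl => ?_⟩
    have := key l hl _ m2 f hf n2 _ fun _ => rfl
    simp only [e3, n1, n2.symm, n3.symm, if_true, if_false] at this
    calc l ^ 3 = l * (l⁻¹ * l ^ 3) := by group
      _ = 1 := by rw [this]; group
  · have h5 : 5 ≤ r := loc.prime.five_le_of_ne_two_of_ne_three h2 h3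
    have n1 : cj x f ≠ f := per 1 0 (by omega) (by omega)
    have n2 : cj x (cj x f) ≠ f := per 2 0 (by omega) (by omega)
    have n3 : cj x (cj x (cj x f)) ≠ f := per 3 0 (by omega) (by omega)
    have n4 : cj x (cj x (cj x (cj x f))) ≠ f := per 4 0 (by omega) (by omega)
    have k1 : cj x (cj x (cj x (cj x f))) ≠ cj x f := per 4 1 (by omega) (by omega)
    have k2 : cj x (cj x (cj x (cj x f))) ≠ cj x (cj x f) := per 4 2 (by omega) (by omega)
    have k3 : cj x (cj x (cj x (cj x f))) ≠ cj x (cj x (cj x f)) := per 4 3 (by omega) (by omega)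
    have := zc_dvd ka (k := 1) fun l hl => by
      have := key l hl f hf _ m4 n4.symm _ fun _ => rfl
      simpa only [n1, n2, n3, k1.symm, k2.symm, k3.symm, if_true, if_false, one_pow, mul_one,
        pow_one] using this
    exact absurd (Nat.le_of_dvd one_pos this) (by omega)

end Cfsg.Agent.H56.SwBeta2
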