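import Cfsg.Agent.H42.VpDefs
import Cfsg.Agent.S0191
import Cfsg.Agent.H11.Kernel

set_option autoImplicit false

namespace Cfsg.Agent.H56.VpN

open Subgroup Cfsg Cfsg.Agent.H42.Vp

universe u

theorem n : NStmt.{u} := by
  intro G _ _ hna
  have h1 : ∃ a b : G, a * b * a⁻¹ * b⁻¹ ≠ 1 := by
    by_contra h
    push Not at h
    refine hna ⟨⟨fun a b => ?_⟩⟩
    have := h a b
    rwa [mul_inv_eq_one, mul_inv_eq_iff_eq_mul] at this
  obtain ⟨a, b, hab⟩ := h1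
  obtain ⟨χ, hχ, hne⟩ := H11.exists_irr_apply_ne hab
  have h0 := H11.irr_apply_one_ne_zero hχ
  have hz : ∃ g, χ g = 0 := by
    obtain ⟨m, ρ, hρ, rfl⟩ := hχ
    have h1 : ρ.character 1 = (Module.finrank ℂ (Fin m → ℂ) : ℂ) := ρ.char_one
    rcases lt_trichotomy 1 (Module.finrank ℂ (Fin m → ℂ)) with l | l | l
    · exact S0191.result ρ l
    · exfalso
      obtain ⟨lam, hl⟩ := H11.exists_monoidHom_of_apply_one_eq_one (G := G) ⟨m, ρ, rfl⟩
        (by rw [h1, ← l, Nat.cast_one])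
      apply hne
      rw [hl]
      simp
    · exact absurd (by rw [h1, Nat.lt_one_iff.1 l, Nat.cast_zero]) h0
  obtain ⟨g, hg⟩ := hz
  refine ⟨g, ⟨χ, hχ, hg⟩, fun hc => ?_⟩
  obtain ⟨c, hc⟩ := H11.mem_charCenter.1 (H11.center_le_charCenter hχ hc)
  have := hc 1
  rw [mul_one, hg] at this
  exact mul_ne_zero c.ne_zero h0 this.symm

end Cfsg.Agent.H56.VpN
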